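import Cfsg.Agent.H251.GeoUMain
import Cfsg.Agent.H453.OddM.Real_m3
import Cfsg.Agent.LieClassical.HermGen
import Cfsg.Agent.H101.ROSUnip
import Cfsg.Agent.H262.ElTransv
import Cfsg.Agent.H918.TransvWreath
import Cfsg.Agent.ClassicalGeometry.RankOne
import Cfsg.Agent.ClassicalGeometry.UnitTransv
import Cfsg.Agent.S0801
import Cfsg.Prelude.Def_GeometricClasses
import Cfsg.Agent.H262.ElSympRes
import Cfsg.Agent.S2644
import Cfsg.Agent.FastGrp
import Cfsg.Agent.Prune
set_option linter.all false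

section
prune_inst 0x7ffda9f9bbbcb9dfdfff7e77f69dcffc3b911fffa6dff94bbfe021ef0bdf138809c163ad89f000fc1ec2c21410a87843f9fffabfea6bd87ffffd1df41ffbee0ff5f7b508519688340f380ff603f0678e7f3fffffffffffffffffffffffffffaeffbfffffffff

-- part: H260/OddM/GeoUMain_mg
section
prune_inst 0x200000000420020000000000000000002000000000000400040002000200000000000000000000000000000000000020000000000000000000200400000100000080000000000008420098000100000000000000000000000000000000000000000000000
set_option linter.all false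
open scoped Cfsg.Agent.FastGrp

-- part: H260/OddM/GeoUCov
section
/-!
# TEAM ODDM (S4785), GEO-U: from `Cov (PSU n F q) M` to members of the geometric classes

`CovX n F q X` : `X ≤ GL_n(F)` meets every real class of `SU_n(q)`, contains a conjugate of every `2`-subgroup of
`SU_n(q)`, and `v ∣ |X|` if `PSU_n(q)` has a real element of order `v`.
-/

set_option autoImplicit false
set_option linter.unusedSectionVars false

namespace Cfsg.Agent.H260.OddM

open Cfsg Cfsg.Geo Cfsg.Agent.H453.OddM Cfsg.Agent.H251.GeoU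
open scoped Matrix MatrixGroups

variable {F : Type*} [Field F] [Fintype F] {n q : ℕ}

structure CovX (n : ℕ) (F : Type*) [Field F] [Fintype F] (q : ℕ) (X : Subgroup (GL (Fin n) F)) : Prop where
  real : ∀ x : SU n F q, IsReal x → ∃ A : SU n F q, H918.suHom n F q (A * x * A⁻¹) ∈ X
  two : ∀ Q : Subgroup (SU n F q), IsPGroup 2 Q → ∃ A : SU n F q, ∀ x ∈ Q, H918.suHom n F q (A * x * A⁻¹) ∈ X
  dvd : ∀ v, RealP (PSU n F q) v → v ∣ Nat.card X

theorem mem_pre {M : Subgroup (PSU n F q)} {x : SU n F q}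
    (hx : QuotientGroup.mk' (Subgroup.center (SU n F q)) x ∈ M) : H918.suHom n F q x ∈ pre M :=
  ⟨x, hx, rfl⟩

theorem covX_of_cov {M : Subgroup (PSU n F q)} (h : Cov (PSU n F q) M) {X : Subgroup (GL (Fin n) F)}
    (hX : pre M ≤ X) : CovX n F q X where
  real x hx := by
    obtain ⟨g, hg⟩ := h.2 _ (hx.map (QuotientGroup.mk' (Subgroup.center (SU n F q))))
    obtain ⟨A, rfl⟩ := QuotientGroup.mk'_surjective _ g
    refine ⟨A, hX (mem_pre ?_)⟩
    rw [map_mul, map_mul, map_inv]
    exact hg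
  two Q hQ := by
    have h1 : IsPGroup 2 (Q.map (QuotientGroup.mk' (Subgroup.center (SU n F q)))) := hQ.map _
    obtain ⟨g, hg⟩ := Cov.two_group (T := PSU n F q) h.1 h1
    obtain ⟨A, rfl⟩ := QuotientGroup.mk'_surjective _ g
    refine ⟨A, fun x hx => hX (mem_pre ?_)⟩
    rw [map_mul, map_mul, map_inv]
    exact hg _ ⟨x, hx, rfl⟩
  dvd v hv := by
    exact ((h.dvd hv).trans (card_dvd_pre M)).trans (Subgroup.card_dvd_of_le hX)

end Cfsg.Agent.H260.OddM
end

-- part: H260/OddM/GeoUTv
section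
/-!
# Transvections are real in `SU_n(q)`, `n ≥ 3`
-/

set_option autoImplicit false
set_option linter.unusedSectionVars false

namespace Cfsg.Agent.H260.OddM

open Cfsg Cfsg.Geo Cfsg.Agent.H453.OddM Cfsg.Agent.H251.GeoU
open Cfsg.Agent.ClassicalGeometry.UnitTransv Cfsg.Agent.LieClassical.HermBasic
open scoped Matrix MatrixGroups

variable {F : Type*} [Field F] [Fintype F] {n q : ℕ}

/-- conjugation of a transvection -/
theorem conj_utv (hF : Fintype.card F = q ^ 2) (A : SU n F q) {v : Fin n → F} {c : F} (hv : hermForm n F q v v = 0)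
    (hc : c + c ^ q = 0) (hv' : hermForm n F q (act A v) (act A v) = 0) :
    A * utv hF v c hv hc * A⁻¹ = utv hF (act A v) c hv' hc := by
  apply ext_act
  intro x
  rw [act_mul, act_mul, act_utv, act_utv, act_add, act_act_inv, act_smul]
  have h : hermForm n F q (act A⁻¹ x) v = hermForm n F q x (act A v) := by
    rw [← herm_act A, act_act_inv]
  rw [h]

theorem utv_inv (hF : Fintype.card F = q ^ 2) {v : Fin n → F} {c : F} (hv : hermForm n F q v v = 0)
    (hc : c + c ^ q = 0) (hc' : -c + (-c) ^ q = 0) : (utv hF v c hv hc)⁻¹ = utv hF v (-c) hv hc' := by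
  rw [inv_eq_iff_mul_eq_one]
  apply ext_act
  intro x
  rw [act_mul, act_utv, act_utv, act_one, herm_add_left, herm_smul_left, hv]
  simp only [mul_zero, add_zero, neg_mul, neg_smul]
  abel

theorem exists_real_utv (hF : Fintype.card F = q ^ 2) (hn : 3 ≤ n) :
    ∃ (v : Fin n → F) (c : F) (hv : hermForm n F q v v = 0) (hc : c + c ^ q = 0), v ≠ 0 ∧ c ≠ 0 ∧
      IsReal (utv hF v c hv hc) := by
  obtain ⟨c, hc0, hc⟩ := exists_trace_zero_ne hF
  -- an isotropic vector
  obtain ⟨i₀, hi0, hi⟩ := exists_norm_eq_ne hF (c := (-1 : F)) (by rw [neg_pow_q hF, one_pow]) (neg_ne_zero.2 one_ne_zero)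
  have h01 : (⟨0, by omega⟩ : Fin n) ≠ ⟨1, by omega⟩ := by
    intro h; simpa using congrArg Fin.val h
  set v : Fin n → F := Pi.single ⟨0, by omega⟩ 1 + Pi.single ⟨1, by omega⟩ i₀ with hvdef
  have hv0 : v ≠ 0 := by
    intro h
    have := congrFun h ⟨0, by omega⟩
    rw [hvdef, Pi.add_apply, Pi.single_eq_same, Pi.single_eq_of_ne h01, add_zero] at this
    exact one_ne_zero this
  have hv : hermForm n F q v v = 0 := by
    rw [hvdef, herm_add_left, herm_single_left, herm_single_left, Pi.add_apply, Pi.add_apply, Pi.single_eq_same,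
      Pi.single_eq_same, Pi.single_eq_of_ne h01, Pi.single_eq_of_ne h01.symm, add_zero, zero_add, one_pow]
    rw [hi]
    ring
  have hbv0 : i₀ • v ≠ 0 := smul_ne_zero hi0 hv0
  have hbv : hermForm n F q (i₀ • v) (i₀ • v) = 0 := by
    rw [herm_smul_left, herm_smul_right, hv, mul_zero, mul_zero]
  obtain ⟨g, -, hg⟩ := Cfsg.Agent.LieClassical.HermGen.exists_map_iso hF hn le_rfl
    (Cfsg.Agent.LieClassical.HermGen.mem_coordSub_top v) (Cfsg.Agent.LieClassical.HermGen.mem_coordSub_top (i₀ • v))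
    hv0 hbv0 hv hbv
  have hg' : act g v = i₀ • v := hg
  have hc' : -c + (-c) ^ q = 0 := by rw [neg_pow_q hF]; linear_combination -hc
  refine ⟨v, c, hv, hc, hv0, hc0, g, ?_⟩
  rw [conj_utv hF g hv hc (by rw [hg']; exact hbv), utv_inv hF hv hc hc']
  apply ext_act
  intro x
  rw [act_utv, act_utv, hg', herm_smul_right, smul_smul]
  congr 2
  linear_combination (c * hermForm n F q x v) * hi

/-- **a member containing real elements contains a transvection** -/
theorem CovX.exists_tv (hF : Fintype.card F = q ^ 2) (hn : 3 ≤ n) {X : Subgroup (GL (Fin n) F)}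
    (h : CovX n F q X) : ∃ (v : Fin n → F) (c : F) (hv : hermForm n F q v v = 0) (hc : c + c ^ q = 0),
      v ≠ 0 ∧ c ≠ 0 ∧ H918.tv hF v c hv hc ∈ X := by
  obtain ⟨v, c, hv, hc, hv0, hc0, hr⟩ := exists_real_utv hF hn
  obtain ⟨A, hA⟩ := h.real _ hr
  have hv' : hermForm n F q (act A v) (act A v) = 0 := by rw [herm_act, hv]
  refine ⟨act A v, c, hv', hc, ?_, hc0, ?_⟩
  · intro h0
    apply hv0
    rw [← act_inv_act A v, h0, act_zero]
  · rw [conj_utv hF A hv hc hv'] at hA
    exact hA

end Cfsg.Agent.H260.OddM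
end

-- part: H260/OddM/GeoUUnip
section
/-!
# Real unipotent elements of `SU_n(q)` with Jordan type `(k, 1, …, 1)`, `k` odd
-/

set_option autoImplicit false
set_option linter.unusedSectionVars false

namespace Cfsg.Agent.H260.OddM

open Module Cfsg
open Cfsg.Agent.LieClassical.HermBasic Cfsg.Agent.LieClassical.SUBasic
open Cfsg.Agent.H101.RO Cfsg.Agent.H453.OddM

/-- transport of isometries of a Hermitian space -/
theorem exists_su_basis {F : Type*} [Field F] [Fintype F] {q n : ℕ} (hF : Fintype.card F = q ^ 2) (hn : 1 ≤ n)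
    {V : Type*} [AddCommGroup V] [Module F V]
    (hfin : finrank F V = n) (S : V →ₛₗ[(conj hF).toRingHom] V →ₗ[F] F) (hS : S.IsSymm) (hnd : S.SeparatingLeft) :
    ∃ b : Basis (Fin n) F V, ∀ (T : Module.End F V) (h : LinearMap.det T = 1), (∀ u v, S (T u) (T v) = S u v) →
      slOf b T h ∈ SU n F q := by
  haveI : FiniteDimensional F V := FiniteDimensional.of_finrank_pos (by omega)
  obtain ⟨b', hb'⟩ := Cfsg.Agent.ClassicalGeometry.HermOrthonormal.exists_orthonormal_basis (conj_ne_id hF)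
    (fun a => pow_q_pow_q hF a) S hS hnd
  let b : Basis (Fin n) F V := b'.reindex (finCongr hfin)
  have hb : ∀ i j, S (b i) (b j) = if i = j then 1 else 0 := by
    intro i j
    rw [Basis.reindex_apply, Basis.reindex_apply, hb']
    simp only [EmbeddingLike.apply_eq_iff_eq]
  refine ⟨b, fun T h hT => ?_⟩
  have hmv : ∀ (u : Fin n → F),
      b.equivFun.symm (((slOf b T h : Matrix.SpecialLinearGroup (Fin n) F) : Matrix (Fin n) (Fin n) F).mulVec u) =
        T (b.equivFun.symm u) := by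
    intro u
    show b.equivFun.symm ((LinearMap.toMatrix b b T).mulVec u) = _
    rw [LinearEquiv.symm_apply_eq]
    have h2 := LinearMap.toMatrix_mulVec_repr b b T (b.equivFun.symm u)
    have h3 : (b.repr (b.equivFun.symm u) : Fin n → F) = u := b.equivFun.apply_symm_apply u
    rw [h3] at h2
    exact h2
  rw [Cfsg.Agent.LieClassical.HermBasic.mem_SU_iff]
  intro u v
  rw [herm_eq hF S b hb, herm_eq hF S b hb, hmv, hmv, hT]

theorem exists_real_su {F : Type*} [Field F] [Fintype F] {q n : ℕ} (hF : Fintype.card F = q ^ 2) (hn : 1 ≤ n)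
    {V : Type*} [AddCommGroup V] [Module F V]
    (hfin : finrank F V = n) (S : V →ₛₗ[(conj hF).toRingHom] V →ₗ[F] F) (hS : S.IsSymm) (hnd : S.SeparatingLeft)
    {x y : Module.End F V} (hx : ∀ u v, S (x u) (x v) = S u v) (hy : ∀ u v, S (y u) (y v) = S u v)
    (hdx : LinearMap.det x = 1) (hdy : LinearMap.det y = 1) (hxy : x * y * x = y) :
    ∃ (b : Basis (Fin n) F V) (X : SU n F q), IsReal X ∧
      ((X : Matrix.SpecialLinearGroup (Fin n) F) : Matrix (Fin n) (Fin n) F) = LinearMap.toMatrix b b x := by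
  obtain ⟨b, hb⟩ := exists_su_basis hF hn hfin S hS hnd
  refine ⟨b, ⟨slOf b x hdx, hb x hdx hx⟩, ⟨⟨slOf b y hdy, hb y hdy hy⟩, ?_⟩, rfl⟩
  have h : (⟨slOf b x hdx, hb x hdx hx⟩ : SU n F q) * ⟨slOf b y hdy, hb y hdy hy⟩ * ⟨slOf b x hdx, hb x hdx hx⟩ =
      ⟨slOf b y hdy, hb y hdy hy⟩ := by
    apply Subtype.ext
    apply endOf_injective b
    change endOf b (slOf b x hdx * slOf b y hdy * slOf b x hdx) = endOf b (slOf b y hdy)
    rw [endOf_mul, endOf_mul, endOf_slOf, endOf_slOf, hxy]
  generalize (⟨slOf b x hdx, hb x hdx hx⟩ : SU n F q) = X at h ⊢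
  generalize (⟨slOf b y hdy, hb y hdy hy⟩ : SU n F q) = Y at h ⊢
  rw [mul_inv_eq_iff_eq_mul, eq_inv_mul_iff_mul_eq, ← mul_assoc]
  exact h

theorem lam_sub_one (F : Type*) [Field F] (k : ℕ) : Tr.lam F k - 1 = Tr.r F k * (2 * Tr.w F k) := by
  have h := Tr.w_mul F k
  rw [Tr.lam]
  linear_combination h

theorem isUnit_two_w (F : Type*) [Field F] (k : ℕ) (h2 : (2 : F) ≠ 0) : IsUnit (2 * Tr.w F k) := by
  have h3 : (2 : Tr F k) = algebraMap F (Tr F k) 2 := by rw [map_ofNat]
  rw [h3]
  refine IsUnit.mul (h2.isUnit.map _) ?_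
  exact IsUnit.of_mul_eq_one (1 - Tr.r F k) (by rw [mul_comm]; exact Tr.w_mul F k)

theorem r_pow_ne (F : Type*) [Field F] (k : ℕ) (hk : 1 ≤ k) : Tr.r F k ^ (k - 1) ≠ 0 := by
  have h := (Tr.basis F k).ne_zero ⟨k - 1, by omega⟩
  haveI := Tr.nontrivial F k (by omega)
  rwa [Tr.basis_apply] at h

theorem r_mul_pow (F : Type*) [Field F] (k : ℕ) (hk : 1 ≤ k) (a : Tr F k) :
    ∃ t : F, Tr.r F k ^ (k - 1) * a = t • Tr.r F k ^ (k - 1) := by
  obtain ⟨t, c, rfl⟩ := Tr.exists_eq F k a
  refine ⟨t, ?_⟩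
  have h : Tr.r F k ^ (k - 1) * (Tr.r F k * c) = 0 := by
    rw [← mul_assoc, ← pow_succ, Nat.sub_add_cancel hk, Tr.r_pow, zero_mul]
  rw [mul_add, h, add_zero, Algebra.smul_def, mul_comm]

/-- multiplication by `(lam - 1) ^ (k - 1)` has rank one -/
theorem finrank_range_lam (F : Type*) [Field F] (k : ℕ) (hk : 1 ≤ k) (h2 : (2 : F) ≠ 0) :
    LinearMap.range (LinearMap.mulLeft F ((Tr.lam F k - 1) ^ (k - 1))) = F ∙ (Tr.r F k ^ (k - 1)) := by
  obtain ⟨u, hu⟩ := (isUnit_two_w F k h2).pow (k - 1)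
  apply le_antisymm
  · rintro _ ⟨a, rfl⟩
    rw [LinearMap.mulLeft_apply, lam_sub_one, mul_pow, mul_assoc]
    obtain ⟨t, ht⟩ := r_mul_pow F k hk ((2 * Tr.w F k) ^ (k - 1) * a)
    rw [ht]
    exact Submodule.smul_mem _ _ (Submodule.mem_span_singleton_self _)
  · rw [Submodule.span_singleton_le_iff_mem]
    refine ⟨((u⁻¹ : (Tr F k)ˣ) : Tr F k), ?_⟩
    rw [LinearMap.mulLeft_apply, lam_sub_one, mul_pow, mul_assoc, ← hu, Units.mul_inv, mul_one]

theorem exists_unip {F : Type*} [Field F] [Fintype F] {q n : ℕ} (hF : Fintype.card F = q ^ 2) (h2 : (2 : F) ≠ 0)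
    {k : ℕ} (hk : Odd k) (hk3 : 3 ≤ k) (hkn : k ≤ n) :
    ∃ X : SU n F q, IsReal X ∧
      (((X : Matrix.SpecialLinearGroup (Fin n) F) : Matrix (Fin n) (Fin n) F) - 1) ^ k = 0 ∧
      ((((X : Matrix.SpecialLinearGroup (Fin n) F) : Matrix (Fin n) (Fin n) F) - 1) ^ (k - 1)).rank = 1 := by
  have hk0 : 0 < k := by omega
  obtain ⟨p, hpc⟩ := CharP.exists F
  have hp : p.Prime := CharP.char_is_prime F p
  have hp2 : p ≠ 2 := by
    rintro rfl
    exact h2 (CharP.cast_eq_zero F 2)
  have hev : Even (k - 1) := by obtain ⟨c, hc⟩ := hk; exact ⟨c, by omega⟩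
  let l := Tr.l F k hk0
  have hlJ : ∀ a, l (Tr.J hF k a) = l a ^ q := by
    intro a
    show Tr.l F k hk0 (Tr.J hF k a) = _
    rw [Tr.l_J, hev.neg_one_pow, one_mul]
  have hlD : ∀ a, l (Tr.D F k a) = l a := by
    intro a
    show Tr.l F k hk0 (Tr.D F k a) = _
    rw [Tr.l_D, hev.neg_one_pow, one_mul]
  let W := Fin (n - k) → F
  let S : (Tr F k × W) →ₛₗ[(conj hF).toRingHom] (Tr F k × W) →ₗ[F] F :=
    LinearMap.mk₂'ₛₗ (conj hF).toRingHom (RingHom.id F)
      (fun u v => l (v.1 * Tr.J hF k u.1) + hermForm (n - k) F q v.2 u.2)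
      (fun u u' v => by
        rw [Prod.fst_add, Prod.snd_add, map_add, mul_add, map_add, herm_add_right hF]; ring)
      (fun c u v => by
        rw [Prod.smul_fst, Prod.smul_snd, Tr.J_smul, mul_smul_comm, map_smul, herm_smul_right]
        show _ = c ^ q • _
        rw [smul_eq_mul, smul_eq_mul]; ring)
      (fun u v v' => by
        rw [Prod.fst_add, Prod.snd_add, add_mul, map_add, herm_add_left]; ring)
      (fun c u v => by
        rw [Prod.smul_fst, Prod.smul_snd, smul_mul_assoc, map_smul, herm_smul_left]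
        show _ = c • _
        rw [smul_eq_mul, smul_eq_mul]; ring)
  have hSv : ∀ u v, S u v = l (v.1 * Tr.J hF k u.1) + hermForm (n - k) F q v.2 u.2 := fun _ _ => rfl
  have hS : S.IsSymm := ⟨fun u v => by
    show (S u v) ^ q = S v u
    rw [hSv, hSv, add_pow_q hF, ← hlJ, map_mul, Tr.J_J, mul_comm (Tr.J hF k v.1), ← herm_swap hF]⟩
  have hsep : S.SeparatingLeft := by
    intro u hu
    have h1 : Tr.J hF k u.1 = 0 := Tr.l_nondeg F k hk0 fun v => by
      have := hu (v, 0)
      rw [hSv, herm_zero_left, add_zero] at this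
      rw [mul_comm]; exact this
    have h3 : u.1 = 0 := by rw [← Tr.J_J hF k u.1, h1, map_zero]
    have h4 : u.2 = 0 := by
      apply herm_nondeg hF
      intro v
      have := hu (0, v)
      rw [hSv, zero_mul, map_zero, zero_add] at this
      exact herm_eq_zero_swap hF this
    exact Prod.ext h3 h4
  -- the elements
  let ε : F := (-1) ^ (k / 2)
  have hε : ε * ε = 1 := by
    show (-1 : F) ^ (k / 2) * (-1) ^ (k / 2) = 1
    rw [← mul_pow, neg_one_mul, neg_neg, one_pow]
  have hεq : ε ^ q * ε = 1 := by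
    have h1 : ε ^ q = ε := by
      show ((-1 : F) ^ (k / 2)) ^ q = (-1) ^ (k / 2)
      rw [← pow_mul, mul_comm, pow_mul, neg_pow_q hF, one_pow]
    rw [h1, hε]
  have hεk : ε ^ k = ε := by
    obtain ⟨c, hc⟩ := hk
    rw [hc, pow_succ, pow_mul, sq, hε, one_pow, one_mul]
  let x : Module.End F (Tr F k × W) := (LinearMap.mulLeft F (Tr.lam F k)).prodMap LinearMap.id
  let y : Module.End F (Tr F k × W) := (ε • (Tr.D F k).toLinearMap).prodMap LinearMap.id
  have hxe : ∀ v, x v = (Tr.lam F k * v.1, v.2) := fun _ => rfl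
  have hye : ∀ v, y v = (ε • Tr.D F k v.1, v.2) := fun _ => rfl
  have hdy : LinearMap.det y = 1 := by
    change LinearMap.det ((ε • (Tr.D F k).toLinearMap).prodMap (LinearMap.id : W →ₗ[F] W)) = 1
    rw [LinearMap.det_prodMap, LinearMap.det_id, mul_one, LinearMap.det_smul, Tr.finrank_eq, Tr.det_D, hεk]
    exact hε
  have hxy : x * y * x = y := by
    apply LinearMap.ext
    intro v
    rw [Module.End.mul_apply, Module.End.mul_apply, hxe v, hye, hxe, hye]
    refine Prod.ext ?_ rfl
    show Tr.lam F k * (ε • Tr.D F k (Tr.lam F k * v.1)) = ε • Tr.D F k v.1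
    rw [map_mul, mul_smul_comm, ← mul_assoc, Tr.lam_mul_D, one_mul]
  obtain ⟨j, hj, hord⟩ := Tr.exists_order_lam F k hp h2 (by omega : 2 ≤ k)
  have hpj : Odd (p ^ j) := (hp.odd_of_ne_two hp2).pow
  have hxpow : ∀ i : ℕ, x ^ i = (LinearMap.mulLeft F (Tr.lam F k ^ i)).prodMap LinearMap.id := by
    intro i
    induction i with
    | zero =>
      apply LinearMap.ext
      intro v
      refine Prod.ext ?_ rfl
      show v.1 = Tr.lam F k ^ 0 * v.1
      rw [pow_zero, one_mul]
    | succ i ih =>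
      rw [pow_succ', ih]
      apply LinearMap.ext
      intro v
      refine Prod.ext ?_ rfl
      show Tr.lam F k * (Tr.lam F k ^ i * v.1) = Tr.lam F k ^ (i + 1) * v.1
      rw [pow_succ', mul_assoc]
  have hx1 : x ^ (p ^ j) = 1 := by
    rw [hxpow, (hord _).2 dvd_rfl]
    apply LinearMap.ext
    intro v
    refine Prod.ext ?_ rfl
    show 1 * v.1 = v.1
    rw [one_mul]
  have hdx : LinearMap.det x = 1 :=
    det_eq_one_of_inv (by rw [hdy]; exact one_ne_zero) hxy hpj hx1
  have hfin : finrank F (Tr F k × W) = n := by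
    rw [Module.finrank_prod, Tr.finrank_eq, Module.finrank_fin_fun]
    omega
  have hxi : ∀ u v, S (x u) (x v) = S u v := by
    intro u v
    rw [hSv, hSv, hxe, hxe]
    congr 1
    show l (Tr.lam F k * v.1 * Tr.J hF k (Tr.lam F k * u.1)) = l (v.1 * Tr.J hF k u.1)
    rw [map_mul (Tr.J hF k)]
    have h3 := Tr.lam_mul_of (Tr.J_r hF k)
    have : Tr.lam F k * v.1 * (Tr.J hF k (Tr.lam F k) * Tr.J hF k u.1) =
        (Tr.lam F k * Tr.J hF k (Tr.lam F k)) * (v.1 * Tr.J hF k u.1) := by ring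
    rw [this, h3, one_mul]
  have hyi : ∀ u v, S (y u) (y v) = S u v := by
    intro u v
    rw [hSv, hSv, hye, hye]
    congr 1
    show l ((ε • Tr.D F k v.1) * Tr.J hF k (ε • Tr.D F k u.1)) = l (v.1 * Tr.J hF k u.1)
    have h1 : (ε • Tr.D F k v.1) * Tr.J hF k (ε • Tr.D F k u.1) = Tr.D F k (v.1 * Tr.J hF k u.1) := by
      rw [Tr.J_smul, smul_mul_smul_comm, ← Tr.D_J, ← map_mul, mul_comm ε, hεq, one_smul]
    rw [h1, hlD]
  obtain ⟨b, X, hX, hXm⟩ := exists_real_su hF (by omega) hfin S hS hsep (x := x) (y := y) hxi hyi hdx hdy hxy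
  have hsub : ((X : Matrix.SpecialLinearGroup (Fin n) F) : Matrix (Fin n) (Fin n) F) - 1 =
      LinearMap.toMatrix b b (x - 1) := by
    rw [hXm, map_sub, LinearMap.toMatrix_one]
  have hpw : ∀ i, (((X : Matrix.SpecialLinearGroup (Fin n) F) : Matrix (Fin n) (Fin n) F) - 1) ^ i =
      LinearMap.toMatrix b b ((x - 1) ^ i) := by
    intro i
    rw [hsub, LinearMap.toMatrix_pow]
  have hx1e : ∀ i, 1 ≤ i → (x - 1) ^ i = (LinearMap.mulLeft F ((Tr.lam F k - 1) ^ i)).prodMap 0 := by
    have h1 : x - 1 = (LinearMap.mulLeft F (Tr.lam F k - 1)).prodMap 0 := by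
      apply LinearMap.ext
      intro v
      refine Prod.ext ?_ ?_
      · show Tr.lam F k * v.1 - v.1 = (Tr.lam F k - 1) * v.1
        ring
      · show v.2 - v.2 = 0
        exact sub_self _
    intro i hi
    induction i, hi using Nat.le_induction with
    | base => rw [pow_one, pow_one, h1]
    | succ i hi ih =>
      rw [pow_succ', ih, h1]
      apply LinearMap.ext
      intro v
      refine Prod.ext ?_ rfl
      show (Tr.lam F k - 1) * ((Tr.lam F k - 1) ^ i * v.1) = (Tr.lam F k - 1) ^ (i + 1) * v.1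
      rw [pow_succ', mul_assoc]
  refine ⟨X, hX, ?_, ?_⟩
  · rw [hpw, hx1e k (by omega)]
    have h3 : (Tr.lam F k - 1) ^ k = 0 := by
      rw [lam_sub_one, mul_pow, Tr.r_pow, zero_mul]
    rw [h3]
    have h4 : (LinearMap.mulLeft F (0 : Tr F k)).prodMap (0 : W →ₗ[F] W) = 0 := by
      apply LinearMap.ext
      intro v
      refine Prod.ext ?_ rfl
      show 0 * v.1 = 0
      exact zero_mul _
    rw [h4, map_zero]
  · rw [hpw, hx1e (k - 1) (by omega)]
    rw [Matrix.rank_eq_finrank_range_toLin _ b b, Matrix.toLin_toMatrix]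
    have h5 : LinearMap.range ((LinearMap.mulLeft F ((Tr.lam F k - 1) ^ (k - 1))).prodMap (0 : W →ₗ[F] W)) =
        F ∙ ((Tr.r F k ^ (k - 1), (0 : W))) := by
      have h6 := finrank_range_lam F k (by omega) h2
      apply le_antisymm
      · rintro _ ⟨v, rfl⟩
        have h7 : (LinearMap.mulLeft F ((Tr.lam F k - 1) ^ (k - 1))) v.1 ∈ F ∙ (Tr.r F k ^ (k - 1)) := by
          rw [← h6]; exact ⟨v.1, rfl⟩
        obtain ⟨t, ht⟩ := Submodule.mem_span_singleton.1 h7
        rw [Submodule.mem_span_singleton]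
        exact ⟨t, Prod.ext ht (smul_zero _)⟩
      · rw [Submodule.span_singleton_le_iff_mem]
        have h7 : Tr.r F k ^ (k - 1) ∈ LinearMap.range (LinearMap.mulLeft F ((Tr.lam F k - 1) ^ (k - 1))) := by
          rw [h6]; exact Submodule.mem_span_singleton_self _
        obtain ⟨a, ha⟩ := h7
        exact ⟨(a, 0), Prod.ext ha rfl⟩
    rw [h5, finrank_span_singleton]
    intro h0
    exact r_pow_ne F k (by omega) (congrArg Prod.fst h0)

end Cfsg.Agent.H260.OddM
end

-- part: H260/OddM/GeoUA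
section
/-!
# GEO-U: stabilisers of subspaces and decompositions
-/

set_option autoImplicit false
set_option linter.unusedSectionVars false

namespace Cfsg.Agent.H260.OddM

open Cfsg Cfsg.Geo Module Cfsg.Agent.H453.OddM Cfsg.Agent.H251.GeoU Cfsg.Agent.H251.GeoCard Cfsg.Agent.H951
open Cfsg.Agent.ClassicalGeometry.UnitTransv Cfsg.Agent.LieClassical.HermBasic
open scoped Matrix MatrixGroups

section Lin

variable {F V : Type*} [Field F] [AddCommGroup V] [Module F V] [FiniteDimensional F V]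

theorem pow_apply_eq_zero {T : Module.End F V} {K m : ℕ} (hT : T ^ K = 0) {U : Submodule F V}
    (hU : _root_.Cfsg.Agent.H951.Inv T U) (hm : finrank F U ≤ m) {x : V} (hx : x ∈ U) : (T ^ m) x = 0 := by
  let S : Module.End F U := T.restrict hU
  have hpow : ∀ (i : ℕ) (y : U), (((S ^ i) y : U) : V) = (T ^ i) y := by
    intro i
    induction i with
    | zero => intro y; rfl
    | succ i ih =>
      intro y
      rw [pow_succ', pow_succ', Module.End.mul_apply, Module.End.mul_apply, ← ih]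
      rfl
  have hS : IsNilpotent S := ⟨K, by
    apply LinearMap.ext
    intro y
    apply Subtype.ext
    rw [hpow, hT]
    rfl⟩
  have h1 := hS.charpoly_eq_X_pow_finrank
  have h2 := LinearMap.aeval_self_charpoly S
  rw [h1, map_pow, Polynomial.aeval_X] at h2
  have h3 : (S ^ m) ⟨x, hx⟩ = 0 := by
    obtain ⟨c, rfl⟩ := Nat.exists_eq_add_of_le hm
    rw [add_comm, pow_add, h2, mul_zero]
    rfl
  have h4 := hpow m ⟨x, hx⟩
  rw [h3] at h4
  exact h4.symm

theorem pow_eq_zero_of_compl {T : Module.End F V} {K m : ℕ} (hT : T ^ K = 0) {U W : Submodule F V}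
    (hU : _root_.Cfsg.Agent.H951.Inv T U) (hW : _root_.Cfsg.Agent.H951.Inv T W) (h : U ⊔ W = ⊤) (hUm : finrank F U ≤ m) (hWm : finrank F W ≤ m) : T ^ m = 0 := by
  apply LinearMap.ext
  intro x
  have hx : x ∈ U ⊔ W := by rw [h]; exact Submodule.mem_top
  obtain ⟨u, hu, w, hw, rfl⟩ := Submodule.mem_sup.1 hx
  rw [map_add, pow_apply_eq_zero hT hU hUm hu, pow_apply_eq_zero hT hW hWm hw, add_zero]
  rfl

end Lin

variable {F : Type*} [Field F] [Fintype F] {n q : ℕ}

theorem conj_unip (a y : GL (Fin n) F) {k : ℕ} (h0 : ((y : Matrix (Fin n) (Fin n) F) - 1) ^ k = 0)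
    (h1 : (((y : Matrix (Fin n) (Fin n) F) - 1) ^ (k - 1)).rank = 1) :
    (((a * y * a⁻¹ : GL (Fin n) F) : Matrix (Fin n) (Fin n) F) - 1) ^ k = 0 ∧
      ((((a * y * a⁻¹ : GL (Fin n) F) : Matrix (Fin n) (Fin n) F) - 1) ^ (k - 1)).rank = 1 := by
  have h2 : ((a * y * a⁻¹ : GL (Fin n) F) : Matrix (Fin n) (Fin n) F) - 1 =
      (a : Matrix (Fin n) (Fin n) F) * ((y : Matrix (Fin n) (Fin n) F) - 1) *
        ((a⁻¹ : GL (Fin n) F) : Matrix (Fin n) (Fin n) F) := by
    rw [Units.val_mul, Units.val_mul, mul_sub, sub_mul, mul_one, Units.mul_inv]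
  rw [h2, Units.conj_pow, Units.conj_pow, h0, mul_zero, zero_mul]
  refine ⟨rfl, ?_⟩
  rw [Matrix.rank_mul_eq_left_of_isUnit_det, Matrix.rank_mul_eq_right_of_isUnit_det, h1]
  · exact (Matrix.isUnit_iff_isUnit_det _).1 a.isUnit
  · exact (Matrix.isUnit_iff_isUnit_det _).1 (a⁻¹).isUnit

/-- the unipotent elements of type `(k, 1, …, 1)` in `X` -/
theorem CovX.exists_unip (hF : Fintype.card F = q ^ 2) (h2 : (2 : F) ≠ 0) {X : Subgroup (GL (Fin n) F)}
    (h : CovX n F q X) {k : ℕ} (hk : Odd k) (hk3 : 3 ≤ k) (hkn : k ≤ n) :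
    ∃ g : GL (Fin n) F, g ∈ X ∧ ((g : Matrix (Fin n) (Fin n) F) - 1) ^ k = 0 ∧
      (((g : Matrix (Fin n) (Fin n) F) - 1) ^ (k - 1)).rank = 1 := by
  obtain ⟨x, hx, h0, h1⟩ := OddM.exists_unip (n := n) hF h2 hk hk3 hkn
  obtain ⟨A, hA⟩ := h.real x hx
  refine ⟨_, hA, ?_⟩
  rw [map_mul, map_mul, map_inv]
  have h0' : ((H918.suHom n F q x : Matrix (Fin n) (Fin n) F) - 1) ^ k = 0 := h0
  have h1' : (((H918.suHom n F q x : Matrix (Fin n) (Fin n) F) - 1) ^ (k - 1)).rank = 1 := h1
  generalize H918.suHom n F q A = a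
  generalize H918.suHom n F q x = y at h0' h1'
  exact conj_unip a y h0' h1'

theorem inv_sub_one {g : GL (Fin n) F} {W : Submodule F (Fin n → F)}
    (h : _root_.Cfsg.Agent.H951.Inv (Matrix.toLin' (g : Matrix (Fin n) (Fin n) F)) W) :
    _root_.Cfsg.Agent.H951.Inv (Matrix.toLin' ((g : Matrix (Fin n) (Fin n) F) - 1)) W := by
  intro w hw
  rw [map_sub, Matrix.toLin'_one, LinearMap.sub_apply, LinearMap.id_apply]
  exact W.sub_mem (h w hw) hw

theorem isom_of_GU {g : GL (Fin n) F} (hg : g ∈ Cfsg.GU n F q) :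
    Isom (hermForm n F q) (Matrix.toLin' (g : Matrix (Fin n) (Fin n) F)) := by
  intro u v
  rw [Matrix.toLin'_apply, Matrix.toLin'_apply]
  exact H918.mem_GU.1 hg u v

theorem toLin_injective (g : GL (Fin n) F) :
    Function.Injective (Matrix.toLin' (g : Matrix (Fin n) (Fin n) F)) := by
  intro x y h
  rw [Matrix.toLin'_apply, Matrix.toLin'_apply] at h
  have h1 := congrArg (fun z => ((g⁻¹ : GL (Fin n) F) : Matrix (Fin n) (Fin n) F) *ᵥ z) h
  simpa only [Matrix.mulVec_mulVec, ← Units.val_mul, _root_.Matrix.coe_units_inv, _root_.Matrix.inv_mul_of_invertible, _root_.Matrix.one_mulVec] using h1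

theorem nd_of {W : Submodule F (Fin n → F)} (hW : IsNondegenerateOn (hermForm n F q) W) : Nd (hermForm n F q) W :=
  fun u hu hu0 => (hW u hu hu0).2

/-- two complementary invariant subspaces of dimension at most `m ≤ k - 1` are impossible -/
theorem not_unip_of_compl {g : GL (Fin n) F} {k m : ℕ} (hk : 1 ≤ k)
    (h0 : ((g : Matrix (Fin n) (Fin n) F) - 1) ^ k = 0)
    (h1 : (((g : Matrix (Fin n) (Fin n) F) - 1) ^ (k - 1)).rank = 1) {U W : Submodule F (Fin n → F)}
    (hU : _root_.Cfsg.Agent.H951.Inv (Matrix.toLin' (g : Matrix (Fin n) (Fin n) F)) U)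
    (hW : _root_.Cfsg.Agent.H951.Inv (Matrix.toLin' (g : Matrix (Fin n) (Fin n) F)) W) (h : U ⊔ W = ⊤)
    (hUm : finrank F U ≤ m) (hWm : finrank F W ≤ m) (hm : m ≤ k - 1) : False := by
  have hT : (Matrix.toLin' ((g : Matrix (Fin n) (Fin n) F) - 1)) ^ k = 0 := by
    rw [← Matrix.toLin'_pow, h0, map_zero]
  have h3 := pow_eq_zero_of_compl hT (inv_sub_one hU) (inv_sub_one hW) h hUm hWm
  have h4 : (Matrix.toLin' ((g : Matrix (Fin n) (Fin n) F) - 1)) ^ (k - 1) = 0 := by
    obtain ⟨c, hc⟩ := Nat.exists_eq_add_of_le hm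
    rw [hc, pow_add, h3, zero_mul]
  rw [← Matrix.toLin'_pow] at h4
  have h5 : ((g : Matrix (Fin n) (Fin n) F) - 1) ^ (k - 1) = 0 := Matrix.toLin'.map_eq_zero_iff.1 h4
  rw [h5, Matrix.rank_zero] at h1
  exact zero_ne_one h1

/-- **(C1) nondegenerate, `n` odd.** -/
theorem kill_nd_odd (hF : Fintype.card F = q ^ 2) (h2 : (2 : F) ≠ 0) (hn : 3 ≤ n) (hodd : Odd n)
    {W : Submodule F (Fin n → F)} (hW0 : W ≠ ⊥) (hW : IsNondegenerateOn (hermForm n F q) W)
    (hW2 : 2 * finrank F W < n) (h : CovX n F q (subspaceStabilizer W ⊓ Cfsg.GU n F q)) : False := by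
  obtain ⟨g, hg, h0, h1⟩ := h.exists_unip hF h2 hodd hn le_rfl
  have hi := isom_of_GU hg.2
  have hinv := inv_of_mem hg.1
  have hB := H950.frm_herm hF n
  have hc := hB.isCompl_perp (nd_of hW)
  have hinv' := hi.inv_perp hB (toLin_injective g) hinv
  have hpos : 0 < finrank F W := by
    rw [Nat.pos_iff_ne_zero, Ne, Submodule.finrank_eq_zero]
    exact hW0
  have hsum := Submodule.finrank_add_eq_of_isCompl hc
  rw [Module.finrank_fin_fun] at hsum
  exact not_unip_of_compl (m := n - 1) (by omega) h0 h1 hinv hinv' hc.sup_eq_top (by omega) (by omega) le_rfl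

/-- **(C1) nondegenerate, `n` even.** -/
theorem kill_nd_even (hF : Fintype.card F = q ^ 2) {s : ℕ} (hs : s.Prime) (hord : orderOf (-(q : ZMod s)) = n)
    (hev : Even n) (hn : 4 ≤ n) {W : Submodule F (Fin n → F)} (hW0 : W ≠ ⊥)
    (hW2 : 2 * finrank F W < n)
    (h : s ∣ Nat.card (subspaceStabilizer W ⊓ Cfsg.GU n F q : Subgroup (GL (Fin n) F))) : False := by
  have := Fact.mk hs
  have hsq := not_dvd_of_ord hs hord (by omega)
  have hr := natCast_ne hF hs hsq
  obtain ⟨g, hg, hi, hgs, hg1⟩ := _root_.Cfsg.Agent.H251.GeoU.exists_elt hs h inf_le_right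
  have hfix := fix_le hF hsq hi hgs hg1
  rw [hord] at hfix
  have hle : W ≤ fx (Matrix.toLin' (g : Matrix (Fin n) (Fin n) F)) := by
    apply le_fx hr hgs (inv_of_mem hg.1)
    rw [hF, ord_sq_even hord hev]
    obtain ⟨c, hc⟩ := hev
    omega
  have h1 := Submodule.finrank_mono hle
  apply hW0
  rw [← Submodule.finrank_eq_zero (R := F)]
  omega

/-- **(C2), two subspaces of dimension `n / 2`.** -/
theorem kill_decomp_two (hF : Fintype.card F = q ^ 2) (h2 : (2 : F) ≠ 0) {k : ℕ} (hnk : n = 2 * k) (hn : 4 ≤ n)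
    {D : Fin 2 → Submodule F (Fin n → F)} (hD : IsMDecomposition k D)
    (h : CovX n F q (decompositionStabilizer D ⊓ Cfsg.GU n F q)) : False := by
  have hkodd : Odd (n - 1) := ⟨k - 1, by omega⟩
  obtain ⟨g, hg, h0, h1⟩ := h.exists_unip hF h2 hkodd (by omega) (by omega)
  obtain ⟨σ, hσ⟩ := hg.1
  set T := Matrix.toLin' (g : Matrix (Fin n) (Fin n) F) with hT
  have hσ2 : ∀ i, σ (σ i) = i := by
    intro i
    have : ∀ τ : Equiv.Perm (Fin 2), ∀ i, τ (τ i) = i := by decide
    exact this σ i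
  have hinv : ∀ i, _root_.Cfsg.Agent.H951.Inv (T ^ 2) (D i) := by
    intro i w hw
    have h3 : T w ∈ D (σ i) := by rw [← hσ]; exact Submodule.mem_map_of_mem hw
    have h4 : T (T w) ∈ D (σ (σ i)) := by rw [← hσ]; exact Submodule.mem_map_of_mem h3
    rw [hσ2] at h4
    exact h4
  -- `g ^ 2 - 1 = (g - 1) (g + 1)`
  have hN : IsNilpotent ((g : Matrix (Fin n) (Fin n) F) - 1) := ⟨_, h0⟩
  have hu : IsUnit ((g : Matrix (Fin n) (Fin n) F) + 1) := by
    have h3 : (g : Matrix (Fin n) (Fin n) F) + 1 = algebraMap F (Matrix (Fin n) (Fin n) F) 2 + ((g : Matrix (Fin n) (Fin n) F) - 1) := by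
      rw [map_ofNat]
      have : (2 : Matrix (Fin n) (Fin n) F) = 1 + 1 := by norm_num
      rw [this]; abel
    rw [h3]
    exact hN.isUnit_add_left_of_commute (h2.isUnit.map _) (Algebra.commutes (2 : F) _).symm
  have hcomm : Commute ((g : Matrix (Fin n) (Fin n) F) - 1) ((g : Matrix (Fin n) (Fin n) F) + 1) :=
    ((Commute.refl _).sub_left (Commute.one_left _)).add_right (Commute.one_right _)
  have hfac : (g : Matrix (Fin n) (Fin n) F) ^ 2 - 1 =
      ((g : Matrix (Fin n) (Fin n) F) - 1) * ((g : Matrix (Fin n) (Fin n) F) + 1) := by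
    rw [sub_mul, mul_add, one_mul, mul_one, sq]; abel
  have hpw : ∀ i, ((g : Matrix (Fin n) (Fin n) F) ^ 2 - 1) ^ i =
      ((g : Matrix (Fin n) (Fin n) F) - 1) ^ i * ((g : Matrix (Fin n) (Fin n) F) + 1) ^ i := by
    intro i
    rw [hfac, hcomm.mul_pow]
  have hg2 : (((g ^ 2 : GL (Fin n) F)) : Matrix (Fin n) (Fin n) F) = (g : Matrix (Fin n) (Fin n) F) ^ 2 :=
    Units.val_pow_eq_pow_val _ _
  have hz : (((g ^ 2 : GL (Fin n) F) : Matrix (Fin n) (Fin n) F) - 1) ^ (n - 1) = 0 := by
    rw [hg2, hpw, h0, zero_mul]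
  have hr : ((((g ^ 2 : GL (Fin n) F) : Matrix (Fin n) (Fin n) F) - 1) ^ (n - 1 - 1)).rank = 1 := by
    rw [hg2, hpw, Matrix.rank_mul_eq_left_of_isUnit_det, h1]
    exact (Matrix.isUnit_iff_isUnit_det _).1 (hu.pow _)
  have hinv' : ∀ i, _root_.Cfsg.Agent.H951.Inv (Matrix.toLin' ((g ^ 2 : GL (Fin n) F) : Matrix (Fin n) (Fin n) F)) (D i) := by
    intro i
    rw [hg2, Matrix.toLin'_pow]
    exact hinv i
  have htop : D 0 ⊔ D 1 = ⊤ := by
    rw [← hD.iSup_eq_top]
    apply le_antisymm
    · exact sup_le (le_iSup D 0) (le_iSup D 1)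
    · apply iSup_le
      intro i
      fin_cases i
      · exact le_sup_left
      · exact le_sup_right
  exact not_unip_of_compl (m := k) (by omega) hz hr (hinv' 0) (hinv' 1) htop (hD.finrank_eq 0).le (hD.finrank_eq 1).le
    (by omega)

/-- **(C2), `k ≥ 2`, at least three subspaces.** -/
theorem kill_decomp_big (hF : Fintype.card F = q ^ 2) {m s : ℕ} (hs : s.Prime)
    (hord : orderOf (-(q : ZMod s)) = m) (hm : Even m) (hn : 4 ≤ n) (hnm : n ≤ m + 1) {t k : ℕ}
    {D : Fin t → Submodule F (Fin n → F)} (hD : IsMDecomposition k D) (ht : 3 ≤ t) (hk : 2 ≤ k)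
    (h : s ∣ Nat.card (decompositionStabilizer D)) : False := by
  have hsq := not_dvd_of_ord hs hord (by omega)
  have htk : t * k = n := by rw [H918.decomp_card hD, Fintype.card_fin]
  obtain ⟨c, hc⟩ := hm
  rcases decomp hD hs (not_dvd_card hF hs hsq) h with h1 | h1
  · have h3 := dvd_pred_of_ord hs hord (by omega)
    have h4 := Nat.le_of_dvd (by have := hs.two_le; omega) h3
    have : t * 2 ≤ t * k := Nat.mul_le_mul_left _ hk
    omega
  · rw [nat_card_eq hF] at h1
    have h3 := ord_le_of_div (Nat.one_le_pow _ _ (LieClassical.HermBasic.q_pos hF)) h1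
    rw [ord_sq_even hord ⟨c, hc⟩] at h3
    have : 3 * k ≤ t * k := Nat.mul_le_mul_right _ ht
    omega

/-- **(C2), an orthonormal frame.** -/
theorem kill_frame (hF : Fintype.card F = q ^ 2) (h2 : (2 : F) ≠ 0) (hn : 3 ≤ n) {t : ℕ}
    {D : Fin t → Submodule F (Fin n → F)} (hD : IsNondegenerateMDecomposition (hermForm n F q) 1 D)
    (h : CovX n F q (decompositionStabilizer D ⊓ Cfsg.GU n F q)) : False := by
  obtain ⟨v, c, hv, hc, hv0, hc0, hX⟩ := h.exists_tv hF hn
  obtain ⟨σ, hσ⟩ := hX.1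
  -- some member is not orthogonal to `v`
  have hex : ∃ i, ∃ d ∈ D i, hermForm n F q d v ≠ 0 := by
    by_contra hcon
    push Not at hcon
    obtain ⟨y, hy⟩ := exists_herm_ne_zero hF hv0
    have hall : ∀ x : Fin n → F, hermForm n F q x v = 0 := by
      intro x
      have hx : x ∈ iSup D := by rw [hD.decomp.iSup_eq_top]; exact Submodule.mem_top
      have hle : iSup D ≤ (H950.frm_herm hF n).perp (F ∙ v) := by
        apply iSup_le
        intro i d hd w hw
        obtain ⟨a, rfl⟩ := Submodule.mem_span_singleton.1 hw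
        rw [herm_smul_right, hcon i d hd, mul_zero]
      exact hle hx v (Submodule.mem_span_singleton_self v)
    exact hy (herm_eq_zero_swap hF (hall y))
  obtain ⟨i, d, hd, hdv⟩ := hex
  have hd0 : d ≠ 0 := by
    rintro rfl
    exact hdv (herm_zero_left v)
  -- `d` spans `D i`
  have hspan : ∀ x ∈ D i, ∃ a : F, x = a • d := by
    intro x hx
    have h1 := (finrank_eq_one_iff_of_nonzero' (⟨d, hd⟩ : D i) (by
      intro h0; exact hd0 (congrArg Subtype.val h0))).1 (hD.decomp.finrank_eq i) ⟨x, hx⟩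
    obtain ⟨a, ha⟩ := h1
    exact ⟨a, (congrArg Subtype.val ha).symm⟩
  have hdd : hermForm n F q d d ≠ 0 := by
    obtain ⟨⟨x, hx, hxd⟩, -⟩ := hD.nondegenerate i d hd hd0
    obtain ⟨a, rfl⟩ := hspan x hx
    rw [herm_smul_left] at hxd
    exact right_ne_zero_of_mul hxd
  have hac : c * hermForm n F q d v ≠ 0 := mul_ne_zero hc0 hdv
  set y := (H918.tv hF v c hv hc : Matrix (Fin n) (Fin n) F) *ᵥ d with hy
  have hyv : y = d + (c * hermForm n F q d v) • v := H918.tv_mulVec hF hv hc d
  have hyD : y ∈ D (σ i) := by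
    rw [← hσ]
    refine ⟨d, hd, ?_⟩
    rw [Matrix.toLin'_apply]
  have hyy : hermForm n F q y y = hermForm n F q d d := H918.mem_GU.1 hX.2 d d
  by_cases hi : σ i = i
  · rw [hi] at hyD
    obtain ⟨a, ha⟩ := hspan y hyD
    -- `v` is a multiple of `d`
    have h3 : (c * hermForm n F q d v) • v = (a - 1) • d := by
      rw [sub_smul, one_smul, ← ha, hyv]; abel
    have h4 : hermForm n F q ((c * hermForm n F q d v) • v) ((c * hermForm n F q d v) • v) = 0 := by
      rw [herm_smul_left, herm_smul_right, hv, mul_zero, mul_zero]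
    rw [h3, herm_smul_left, herm_smul_right] at h4
    have h5 : a - 1 = 0 := by
      rcases mul_eq_zero.1 h4 with h6 | h6
      · exact h6
      · rcases mul_eq_zero.1 h6 with h7 | h7
        · exact (pow_q_eq_zero hF).1 h7
        · exact absurd h7 hdd
    rw [h5, zero_smul] at h3
    rcases smul_eq_zero.1 h3 with h6 | h6
    · exact hac h6
    · exact hv0 h6
  · have h3 : hermForm n F q d y = 0 := hD.orthogonal i (σ i) (fun h => hi h.symm) d hd y hyD
    have h3' : hermForm n F q y d = 0 := herm_eq_zero_swap hF h3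
    have h4 : (c * hermForm n F q d v) • v = y - d := by rw [hyv]; abel
    have h5 : hermForm n F q (y - d) (y - d) = 0 := by
      rw [← h4, herm_smul_left, herm_smul_right, hv, mul_zero, mul_zero]
    rw [herm_sub_left, herm_sub_right hF, herm_sub_right hF, hyy, h3, h3', sub_zero, zero_sub, sub_neg_eq_add,
      ← two_mul] at h5
    exact (mul_ne_zero h2 hdd) h5

end Cfsg.Agent.H260.OddM
end

-- part: H260/OddM/GeoUB
section
/-!
# GEO-U: totally singular subspaces, extension fields, tensor products, symplectic type groups, subfields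
-/

set_option autoImplicit false
set_option linter.unusedSectionVars false

namespace Cfsg.Agent.H260.OddM

open Cfsg Cfsg.Geo Module Cfsg.Agent.H453.OddM Cfsg.Agent.H251.GeoU Cfsg.Agent.H251.GeoCard Cfsg.Agent.H951
open Cfsg.Agent.ClassicalGeometry.UnitTransv Cfsg.Agent.LieClassical.HermBasic
open scoped Matrix MatrixGroups

variable {F : Type*} [Field F] [Fintype F] {n q : ℕ}

/-! ### transvections -/

theorem isTv_tv (hF : Fintype.card F = q ^ 2) {v : Fin n → F} {c : F} (hv : hermForm n F q v v = 0)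
    (hc : c + c ^ q = 0) (hv0 : v ≠ 0) (hc0 : c ≠ 0) : H262.El.IsTv (H918.tv hF v c hv hc) := by
  refine ⟨v, c • (fun j => v j ^ q), hv0, ?_, ?_, ?_⟩
  · intro h
    apply hv0
    funext j
    have := congrFun h j
    rw [Pi.smul_apply, smul_eq_mul, Pi.zero_apply] at this
    exact (pow_q_eq_zero hF).1 ((mul_eq_zero.1 this).resolve_left hc0)
  · rw [smul_dotProduct]
    have : (fun j => v j ^ q) ⬝ᵥ v = hermForm n F q v v :=
      Finset.sum_congr rfl fun i _ => mul_comm _ _
    rw [this, hv, smul_zero]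
  · rw [H918.coe_tv, Matrix.vecMulVec_smul]

theorem CovX.exists_isTv (hF : Fintype.card F = q ^ 2) (hn : 3 ≤ n) {X : Subgroup (GL (Fin n) F)}
    (h : CovX n F q X) : ∃ g ∈ X, H262.El.IsTv g := by
  obtain ⟨v, c, hv, hc, hv0, hc0, hX⟩ := h.exists_tv hF hn
  exact ⟨_, hX, isTv_tv hF hv hc hv0 hc0⟩

/-- **(C3)** -/
theorem kill_field (hF : Fintype.card F = q ^ 2) (hn : 3 ≤ n) {r : ℕ} (hr : r.Prime)
    {K : Subalgebra F (Matrix (Fin n) (Fin n) F)} (hK : IsFieldSubalgebra r K)
    (h : CovX n F q (subalgebraNormalizer K ⊓ Cfsg.GU n F q)) : False := by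
  obtain ⟨g, hg, hgt⟩ := h.exists_isTv hF hn
  exact H262.El.rankOne_not_mem_subalgebraNormalizer (by rw [Fintype.card_fin]; omega) hgt.isRankOneElt hr.two_le hK
    hg.1

/-- **(C4)** -/
theorem kill_tensorU (hF : Fintype.card F = q ^ 2) (hn : 3 ≤ n) {n₁ n₂ : ℕ} (e : Fin n ≃ Fin n₁ × Fin n₂)
    (P : GL (Fin n) F) (h2 : 2 ≤ n₁) (h12 : n₁ < n₂)
    (h : CovX n F q (tensorProductSubgroup n₁ n₂ e P ⊓ Cfsg.GU n F q)) : False := by
  obtain ⟨g, hg, hgt⟩ := h.exists_isTv hF hn
  exact hgt.isRankOneElt.not_mem_tensorProductSubgroup h2 (by omega) e P hg.1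

/-- **(C7)** -/
theorem kill_wreathU (hF : Fintype.card F = q ^ 2) (hn : 3 ≤ n) {k t : ℕ} (e : Fin n ≃ (Fin t → Fin k))
    (P : GL (Fin n) F) (hk : 3 ≤ k) (ht : 2 ≤ t)
    (h : CovX n F q (tensorWreathSubgroup k t e P ⊓ Cfsg.GU n F q)) : False := by
  obtain ⟨g, hg, hgt⟩ := h.exists_isTv hF hn
  exact hgt.isRankOneElt.not_mem_tensorWreathSubgroup hk ht e P hg.1

/-- **(C6)** -/
theorem kill_sympU (hF : Fintype.card F = q ^ 2) (hn : 4 ≤ n) {r k : ℕ} {R : Subgroup (GL (Fin n) F)}
    (hR : IsSymplecticTypeGroup r R) (habs : ActsAbsolutelyIrreducibly (matrixSet R)) (ht : H920.IsType r k R)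
    (h : CovX n F q (subgroupNormalizer R ⊓ Cfsg.GU n F q)) : False := by
  have hne : Nonempty (Fin n) := ⟨⟨0, by omega⟩⟩
  obtain ⟨g, hg, hgt⟩ := h.exists_isTv hF (by omega)
  refine hgt.not_mem_subgroupNormalizer (by rw [Fintype.card_fin]; omega) habs ?_ hg.1
  intro a ha b hb
  obtain ⟨c, hc⟩ := (mem_scalars_iff _).1 (H920.comm_of_type hR habs ht a ha b hb)
  refine ⟨c, ?_⟩
  have h2 : a * b = (a * b * a⁻¹ * b⁻¹) * (b * a) := by group
  have h3 := congrArg Units.val h2
  rw [Units.val_mul, Units.val_mul (a * b * a⁻¹ * b⁻¹), Units.val_mul b a] at h3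
  rw [h3, hc, Matrix.smul_mul, Matrix.one_mul]

/-! ### totally singular subspaces -/

theorem neg_one_pow_q (hF : Fintype.card F = q ^ 2) : (-1 : F) ^ q = -1 := by
  rw [neg_pow_q hF, one_pow]

/-- the diagonal matrices with entries `± 1` -/
def signs (n : ℕ) (F : Type*) [Field F] (q : ℕ) : Subgroup (SU n F q) where
  carrier := {x | ∃ ε : Fin n → F, (∀ i, ε i * ε i = 1) ∧
    ((x : Matrix.SpecialLinearGroup (Fin n) F) : Matrix (Fin n) (Fin n) F) = Matrix.diagonal ε}
  mul_mem' := by
    rintro x y ⟨ε, hε, hx⟩ ⟨δ, hδ, hy⟩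
    refine ⟨fun i => ε i * δ i, fun i => ?_, ?_⟩
    · calc ε i * δ i * (ε i * δ i) = (ε i * ε i) * (δ i * δ i) := by ring
        _ = 1 := by rw [hε, hδ, one_mul]
    · show ((x : Matrix.SpecialLinearGroup (Fin n) F) : Matrix (Fin n) (Fin n) F) *
        ((y : Matrix.SpecialLinearGroup (Fin n) F) : Matrix (Fin n) (Fin n) F) = _
      rw [hx, hy, Matrix.diagonal_mul_diagonal]
  one_mem' := ⟨fun _ => 1, fun _ => one_mul 1, Matrix.diagonal_one.symm⟩
  inv_mem' := by
    rintro x ⟨ε, hε, hx⟩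
    have h1 : x * x = 1 := by
      apply Subtype.ext
      apply Subtype.ext
      show ((x : Matrix.SpecialLinearGroup (Fin n) F) : Matrix (Fin n) (Fin n) F) *
        ((x : Matrix.SpecialLinearGroup (Fin n) F) : Matrix (Fin n) (Fin n) F) = 1
      rw [hx, Matrix.diagonal_mul_diagonal, ← Matrix.diagonal_one]
      congr 1
      funext i
      exact hε i
    rw [inv_eq_of_mul_eq_one_right h1]
    exact ⟨ε, hε, hx⟩

theorem signs_sq {x : SU n F q} (hx : x ∈ signs n F q) : x ^ 2 = 1 := by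
  obtain ⟨ε, hε, hx⟩ := hx
  rw [sq]
  apply Subtype.ext
  apply Subtype.ext
  show ((x : Matrix.SpecialLinearGroup (Fin n) F) : Matrix (Fin n) (Fin n) F) *
    ((x : Matrix.SpecialLinearGroup (Fin n) F) : Matrix (Fin n) (Fin n) F) = 1
  rw [hx, Matrix.diagonal_mul_diagonal, ← Matrix.diagonal_one]
  congr 1
  funext i
  exact hε i

theorem signs_isPGroup : IsPGroup 2 (signs n F q) := by
  intro x
  refine ⟨1, ?_⟩
  apply Subtype.ext
  rw [pow_one]
  exact signs_sq x.2

theorem exists_sign (hF : Fintype.card F = q ^ 2) {j l : Fin n} (hjl : j ≠ l) :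
    ∃ x ∈ signs n F q, ∀ u : Fin n → F, act x u = fun i => if i = j ∨ i = l then -u i else u i := by
  classical
  have hd : ∏ i : Fin n, (if i ∈ ({j, l} : Finset (Fin n)) then (-1 : F) else 1) = 1 := by
    rw [Finset.prod_ite_mem, Finset.univ_inter, Finset.prod_const, Finset.card_pair hjl]
    norm_num
  have ha : ∀ i : Fin n, (if i ∈ ({j, l} : Finset (Fin n)) then (-1 : F) else 1) ^ (q + 1) = 1 := by
    intro i
    split_ifs
    · rw [pow_succ, neg_one_pow_q hF]; ring
    · rw [one_pow]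
  refine ⟨Cfsg.Agent.LieClassical.SUBasic.suDiag q _ hd ha, ⟨_, fun i => ?_, rfl⟩, fun u => ?_⟩
  · split_ifs
    · ring
    · ring
  · show Matrix.diagonal (fun i => if i ∈ ({j, l} : Finset (Fin n)) then (-1 : F) else 1) *ᵥ u = _
    funext i
    rw [Matrix.mulVec_diagonal]
    simp only [Finset.mem_insert, Finset.mem_singleton]
    split_ifs
    · ring
    · ring

/-- **(C1), totally singular.** -/
theorem kill_ts (hF : Fintype.card F = q ^ 2) (h2 : (2 : F) ≠ 0) (hn : 3 ≤ n) {W : Submodule F (Fin n → F)}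
    (hW0 : W ≠ ⊥) (hW : IsTotallySingularFor (hermForm n F q) W)
    (h : CovX n F q (subspaceStabilizer W ⊓ Cfsg.GU n F q)) : False := by
  classical
  obtain ⟨A, hA⟩ := h.two (signs n F q) signs_isPGroup
  -- the pullback of `W`
  let W' : Submodule F (Fin n → F) :=
    { carrier := {u | act A u ∈ W}
      add_mem' := fun {a b} ha hb => by
        show act A (a + b) ∈ W
        rw [act_add]; exact W.add_mem ha hb
      zero_mem' := by
        show act A 0 ∈ W
        rw [act_zero]; exact W.zero_mem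
      smul_mem' := fun c x hx => by
        show act A (c • x) ∈ W
        rw [act_smul]; exact W.smul_mem c hx }
  have hW' : ∀ u ∈ W', ∀ v ∈ W', hermForm n F q u v = 0 := by
    intro u hu v hv
    rw [← herm_act A]
    exact hW _ hu _ hv
  have hinv : ∀ x ∈ signs n F q, ∀ u ∈ W', act x u ∈ W' := by
    intro x hx u hu
    show act A (act x u) ∈ W
    have h1 := inv_of_mem (hA x hx).1 (act A u) hu
    rw [Matrix.toLin'_apply] at h1
    have h3 : act (A * x * A⁻¹) (act A u) ∈ W := h1
    rw [act_mul, act_mul, act_inv_act] at h3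
    exact h3
  obtain ⟨w, hw, hw0⟩ := W.ne_bot_iff.1 hW0
  set u := act A⁻¹ w with hu
  have huW : u ∈ W' := by
    show act A (act A⁻¹ w) ∈ W
    rwa [act_act_inv]
  have hu0 : u ≠ 0 := by
    intro h0
    apply hw0
    rw [← act_act_inv A w, ← hu, h0, act_zero]
  obtain ⟨i, hi⟩ : ∃ i, u i ≠ 0 := by
    by_contra hcon
    push Not at hcon
    exact hu0 (funext hcon)
  -- kill the other coordinates
  have key : ∀ s : Finset (Fin n), i ∉ s → ∃ u' ∈ W', u' i = u i ∧ ∀ j ∈ s, u' j = 0 := by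
    intro s
    induction s using Finset.induction_on with
    | empty => intro _; exact ⟨u, huW, rfl, by simp⟩
    | insert j s hj ih =>
      intro his
      rw [Finset.mem_insert, not_or] at his
      obtain ⟨u', hu', hui, hus⟩ := ih his.2
      -- a third coordinate
      obtain ⟨l, hl⟩ : ∃ l : Fin n, l ≠ i ∧ l ≠ j := by
        by_contra hcon
        push Not at hcon
        have h1 : (Finset.univ : Finset (Fin n)) ⊆ {i, j} := by
          intro l _
          rw [Finset.mem_insert, Finset.mem_singleton]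
          by_cases hl : l = i
          · exact Or.inl hl
          · exact Or.inr (hcon l hl)
        have h3 := Finset.card_le_card h1
        rw [Finset.card_univ, Fintype.card_fin] at h3
        have h4 := Finset.card_le_two (a := i) (b := j)
        omega
      obtain ⟨x, hx, hxu⟩ := exists_sign hF (n := n) (j := j) (l := l) hl.2.symm
      refine ⟨(2 : F)⁻¹ • (u' + act x u'), W'.smul_mem _ (W'.add_mem hu' (hinv x hx u' hu')), ?_, ?_⟩
      · rw [hxu]
        simp only [Pi.smul_apply, Pi.add_apply, smul_eq_mul]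
        rw [if_neg (by rintro (h1 | h1); exacts [his.1 h1, hl.1 h1.symm]), ← two_mul, inv_mul_cancel_left₀ h2, hui]
      · intro k hk
        rw [hxu]
        simp only [Pi.smul_apply, Pi.add_apply, smul_eq_mul]
        rw [Finset.mem_insert] at hk
        by_cases hkj : k = j ∨ k = l
        · rw [if_pos hkj, add_neg_cancel, mul_zero]
        · rw [if_neg hkj]
          rcases hk with hk | hk
          · exact absurd (Or.inl hk) hkj
          · rw [hus k hk, add_zero, mul_zero]
  obtain ⟨u', hu', hui, hus⟩ := key (Finset.univ.erase i) (by simp only [_root_.Finset.mem_erase, _root_.ne_eq, _root_.not_true_eq_false, _root_.Finset.mem_univ, _root_.and_true, _root_.not_false_eq_true])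
  have h1 := hW' u' hu' u' hu'
  have h3 : u' = Pi.single i (u i) := by
    funext k
    by_cases hk : k = i
    · subst hk
      rw [Pi.single_eq_same, hui]
    · rw [Pi.single_eq_of_ne hk]
      exact hus k (by simp only [hk, _root_.Finset.mem_erase, _root_.ne_eq, _root_.not_false_eq_true, _root_.Finset.mem_univ, _root_.and_self])
  rw [h3, herm_single_left, Pi.single_eq_same] at h1
  rcases mul_eq_zero.1 h1 with h4 | h4
  · exact hi h4
  · exact hi ((pow_q_eq_zero hF).1 h4)

end Cfsg.Agent.H260.OddM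
end

-- part: H260/OddM/GeoUC
section
/-!
# GEO-U: subfield groups
-/

set_option autoImplicit false
set_option linter.unusedSectionVars false

namespace Cfsg.Agent.H260.OddM

open Cfsg Cfsg.Geo Module Cfsg.Agent.H453.OddM Cfsg.Agent.H251.GeoU Cfsg.Agent.H251.GeoCard Cfsg.Agent.H951
open Cfsg.Agent.ClassicalGeometry.UnitTransv Cfsg.Agent.LieClassical.HermBasic
open scoped Matrix MatrixGroups

section Form

variable {ι : Type} [Fintype ι] [DecidableEq ι] {F : Type*} [Field F]

theorem rank_vecMulVec_eq {u w : ι → F} (hu : u ≠ 0) (hw : w ≠ 0) : (Matrix.vecMulVec u w).rank = 1 := by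
  apply le_antisymm (Matrix.rank_vecMulVec_le u w)
  rw [Nat.one_le_iff_ne_zero, Matrix.rank, Ne, Submodule.finrank_eq_zero, LinearMap.range_eq_bot]
  intro h
  obtain ⟨i, hi⟩ := Function.ne_iff.1 hu
  obtain ⟨j, hj⟩ := Function.ne_iff.1 hw
  have h1 := congrFun (LinearMap.congr_fun h (Pi.single j 1)) i
  rw [Matrix.mulVecLin_apply, Matrix.mulVec_single_one] at h1
  have h3 : u i * w j = 0 := h1
  exact mul_ne_zero hi hj h3

/-- no skew-symmetric matrix of rank one in odd characteristic -/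
theorem not_skew_rank_one (h2 : (2 : F) ≠ 0) {K : Matrix ι ι F} (hK : Kᵀ = -K) (hr : K.rank = 1) : False := by
  obtain ⟨a, b, ha, hb, hab⟩ := Cfsg.Agent.ClassicalGeometry.RankOne.exists_vecMulVec_of_rank_eq_one K hr
  have hs : ∀ i j, a j * b i = -(a i * b j) := by
    intro i j
    have h1 := congrFun (congrFun hK i) j
    rw [hab, Matrix.transpose_apply, Matrix.neg_apply, Matrix.vecMulVec_apply, Matrix.vecMulVec_apply] at h1
    exact h1
  have hd : ∀ i, a i * b i = 0 := by
    intro i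
    have h1 := hs i i
    have h3 : (2 : F) * (a i * b i) = 0 := by linear_combination h1
    exact (mul_eq_zero.1 h3).resolve_left h2
  obtain ⟨i, hi⟩ := Function.ne_iff.1 ha
  obtain ⟨j, hj⟩ := Function.ne_iff.1 hb
  rw [Pi.zero_apply] at hi hj
  have h1 : a j * b i ≠ 0 := by
    rw [hs i j]
    exact neg_ne_zero.2 (mul_ne_zero hi hj)
  exact mul_ne_zero hi (right_ne_zero_of_mul h1) (hd i)

/-- a unipotent isometry `B` of a (skew-)symmetric form with `(B - 1) ^ j` of rank one -/
theorem not_form (h2 : (2 : F) ≠ 0) {G B : Matrix ι ι F} {j : ℕ} {ε : F} (hG : IsUnit G.det) (hB : Bᵀ * G * B = G)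
    (hj : (B - 1) ^ (j + 1) = 0) (hr : ((B - 1) ^ j).rank = 1) (hs : Gᵀ = ε • G) (hε : ε * (-1) ^ j = -1) : False := by
  have hBdet : IsUnit B.det := by
    have h1 := congrArg Matrix.det hB
    rw [Matrix.det_mul, Matrix.det_mul, Matrix.det_transpose] at h1
    rw [isUnit_iff_ne_zero] at hG ⊢
    rintro h0
    rw [h0, mul_zero] at h1
    exact hG h1.symm
  set C := B⁻¹ with hC
  have hBC : B * C = 1 := Matrix.mul_nonsing_inv B hBdet
  have hCB : C * B = 1 := Matrix.nonsing_inv_mul B hBdet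
  set N := B - 1 with hN
  have hBN : B = 1 + N := by rw [hN]; abel
  -- `Nᵀ G = G M`
  set M := C - 1 with hM
  have hNG : Nᵀ * G = G * M := by
    have h1 : Bᵀ * G = G * C := by
      calc Bᵀ * G = Bᵀ * G * (B * C) := by rw [hBC, mul_one]
        _ = (Bᵀ * G * B) * C := by rw [← mul_assoc]
        _ = G * C := by rw [hB]
    rw [hN, hM, Matrix.transpose_sub, Matrix.transpose_one, sub_mul, one_mul, h1, mul_sub, mul_one]
  have hMN : M = -(C * N) := by
    rw [hM, hN, mul_sub, mul_one, hCB]; abel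
  have hcomm : Commute C N := by
    show C * N = N * C
    rw [hN, mul_sub, sub_mul, hCB, hBC, mul_one, one_mul]
  have hCN : C * N ^ j = N ^ j := by
    have h1 : B * N ^ j = N ^ j := by
      rw [hBN, add_mul, one_mul, ← pow_succ', hj, add_zero]
    calc C * N ^ j = C * (B * N ^ j) := by rw [h1]
      _ = N ^ j := by rw [← mul_assoc, hCB, one_mul]
  have hCi : ∀ i, C ^ i * N ^ j = N ^ j := by
    intro i
    induction i with
    | zero => rw [pow_zero, one_mul]
    | succ i ih => rw [pow_succ, mul_assoc, hCN, ih]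
  have hMj : M ^ j = (-1 : F) ^ j • N ^ j := by
    rw [hMN, neg_pow, hcomm.mul_pow, hCi]
    rcases Nat.even_or_odd j with h | h
    · rw [h.neg_one_pow, h.neg_one_pow, one_mul, one_smul]
    · rw [h.neg_one_pow, h.neg_one_pow, neg_one_mul, neg_one_smul]
  have hpow : ∀ i, (Nᵀ) ^ i * G = G * M ^ i := by
    intro i
    induction i with
    | zero => rw [pow_zero, pow_zero, one_mul, mul_one]
    | succ i ih => rw [pow_succ, mul_assoc, hNG, ← mul_assoc, ih, mul_assoc, ← pow_succ]
  have hskew : (G * N ^ j)ᵀ = -(G * N ^ j) := by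
    rw [Matrix.transpose_mul, hs, Matrix.transpose_pow, Matrix.mul_smul, hpow, hMj, Matrix.mul_smul, smul_smul, hε,
      neg_one_smul]
  refine not_skew_rank_one h2 hskew ?_
  rw [Matrix.rank_mul_eq_right_of_isUnit_det _ _ hG, hr]

end Form

section Subfield

variable {F : Type*} [Field F] [Fintype F] {n q : ℕ}

/-- unipotent elements of a subfield group have entries in the subfield (up to the change of basis) -/
theorem mem_subfield_of_unip (hn : 0 < n) {F₀ : Subfield F} {P g : GL (Fin n) F} (hg : g ∈ subfieldSubgroup F₀ P) {k : ℕ}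
    (hk : ((g : Matrix (Fin n) (Fin n) F) - 1) ^ k = 0) :
    ∀ i j, ((P⁻¹ * g * P : GL (Fin n) F) : Matrix (Fin n) (Fin n) F) i j ∈ F₀ := by
  obtain ⟨c, hc0, hc⟩ := H914.mem_subfieldSubgroup_iff.1 hg
  obtain ⟨p, hpc⟩ := CharP.exists F
  have hp : p.Prime := CharP.char_is_prime F p
  haveI := Fact.mk hp
  haveI : Nonempty (Fin n) := ⟨⟨0, hn⟩⟩
  haveI : CharP (Matrix (Fin n) (Fin n) F) p := inferInstance
  -- `g ^ (p ^ k) = 1`
  have hgp : (g : Matrix (Fin n) (Fin n) F) ^ (p ^ k) = 1 := by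
    have h1 : ((g : Matrix (Fin n) (Fin n) F) - 1) ^ (p ^ k) = 0 := by
      obtain ⟨d, hd⟩ := Nat.exists_eq_add_of_le (Nat.lt_pow_self hp.one_lt : k < p ^ k).le
      rw [hd, pow_add, hk, zero_mul]
    rw [sub_pow_char_pow_of_commute p k (Commute.one_right (g : Matrix (Fin n) (Fin n) F))] at h1
    rw [one_pow, sub_eq_zero] at h1
    exact h1
  have hgp' : g ^ (p ^ k) = 1 := by
    apply Units.ext
    rw [Units.val_pow_eq_pow_val, hgp, Units.val_one]
  set B : Matrix (Fin n) (Fin n) F := ((P⁻¹ * g * P : GL (Fin n) F) : Matrix (Fin n) (Fin n) F) with hB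
  have hBp : B ^ (p ^ k) = 1 := by
    have h1 : (P⁻¹ * g * P) ^ (p ^ k) = 1 := by
      have h3 := conj_pow (a := P⁻¹) (b := g) (i := p ^ k)
      rw [inv_inv, hgp', mul_one, inv_mul_cancel] at h3
      exact h3
    rw [hB, ← Units.val_pow_eq_pow_val, h1, Units.val_one]
  -- `c ^ (p ^ k) ∈ F₀`
  let B₀ : Matrix (Fin n) (Fin n) F₀ := fun i j => ⟨c * B i j, hc i j⟩
  have hB₀ : F₀.subtype.mapMatrix B₀ = c • B := by
    ext i j
    rfl
  have hcp : c ^ (p ^ k) ∈ F₀ := by
    have h1 : F₀.subtype.mapMatrix (B₀ ^ (p ^ k)) = c ^ (p ^ k) • (1 : Matrix (Fin n) (Fin n) F) := by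
      rw [map_pow, hB₀, smul_pow, hBp]
    have h3 := congrFun (congrFun h1 ⟨0, hn⟩) ⟨0, hn⟩
    rw [Matrix.smul_apply, Matrix.one_apply_eq, smul_eq_mul, mul_one] at h3
    rw [← h3]
    exact ((B₀ ^ (p ^ k)) ⟨0, hn⟩ ⟨0, hn⟩).2
  -- `c ∈ F₀`
  have hcF : c ∈ F₀ := by
    let φ : F₀ → F₀ := fun x => x ^ (p ^ k)
    have hinjF : ∀ x y : F, x ^ (p ^ k) = y ^ (p ^ k) → x = y := by
      intro x y hxy
      have h1 : (x - y) ^ (p ^ k) = 0 := by rw [sub_pow_char_pow, hxy, sub_self]
      exact sub_eq_zero.1 (pow_eq_zero_iff (pow_ne_zero _ hp.ne_zero) |>.1 h1)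
    have hinj : Function.Injective φ := fun x y hxy =>
      Subtype.ext (hinjF x y (congrArg Subtype.val hxy))
    have hsurj : Function.Surjective φ := Finite.injective_iff_surjective.1 hinj
    obtain ⟨d, hd⟩ := hsurj ⟨_, hcp⟩
    have h1 : (d : F) ^ (p ^ k) = c ^ (p ^ k) := congrArg Subtype.val hd
    rw [← hinjF _ _ h1]
    exact d.2
  intro i j
  have h1 : B i j = c⁻¹ * (c * B i j) := by rw [inv_mul_cancel_left₀ hc0]
  rw [h1]
  exact F₀.mul_mem (F₀.inv_mem hcF) (hc i j)

theorem pow_q_of_mem {F₀ : Subfield F} (hF₀ : Nat.card F₀ = q) {x : F} (hx : x ∈ F₀) : x ^ q = x := by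
  haveI : Finite F₀ := inferInstance
  haveI : Fintype F₀ := Fintype.ofFinite F₀
  have h1 : (⟨x, hx⟩ : F₀) ^ (Fintype.card F₀) = ⟨x, hx⟩ := FiniteField.pow_card _
  rw [← Nat.card_eq_fintype_card, hF₀] at h1
  exact congrArg Subtype.val h1

/-- the Gram matrix of the basis `P` -/
def gramP (P : GL (Fin n) F) (q : ℕ) : Matrix (Fin n) (Fin n) F :=
  fun i j => hermForm n F q ((P : Matrix (Fin n) (Fin n) F) *ᵥ Pi.single i 1) ((P : Matrix (Fin n) (Fin n) F) *ᵥ Pi.single j 1)

theorem gramP_eq (hF : Fintype.card F = q ^ 2) (P : GL (Fin n) F) :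
    gramP P q = (P : Matrix (Fin n) (Fin n) F)ᵀ * (conj hF).toRingHom.mapMatrix (P : Matrix (Fin n) (Fin n) F) := by
  ext i j
  rw [gramP, Matrix.mul_apply, herm_def]
  refine Finset.sum_congr rfl fun l _ => ?_
  rw [Matrix.mulVec_single_one, Matrix.mulVec_single_one]
  rfl

theorem isUnit_det_gramP (hF : Fintype.card F = q ^ 2) (P : GL (Fin n) F) : IsUnit (gramP P q).det := by
  rw [gramP_eq hF, Matrix.det_mul, Matrix.det_transpose, ← RingHom.map_det]
  have h1 : IsUnit ((P : Matrix (Fin n) (Fin n) F).det) := (Matrix.isUnit_iff_isUnit_det _).1 P.isUnit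
  exact h1.mul (h1.map _)

theorem gramP_isom (hF : Fintype.card F = q ^ 2) {P g : GL (Fin n) F} (hg : g ∈ Cfsg.GU n F q) {F₀ : Subfield F}
    (hF₀ : Nat.card F₀ = q)
    (hB : ∀ i j, ((P⁻¹ * g * P : GL (Fin n) F) : Matrix (Fin n) (Fin n) F) i j ∈ F₀) :
    ((P⁻¹ * g * P : GL (Fin n) F) : Matrix (Fin n) (Fin n) F)ᵀ * gramP P q *
      ((P⁻¹ * g * P : GL (Fin n) F) : Matrix (Fin n) (Fin n) F) = gramP P q := by
  have hcj : (conj hF).toRingHom.mapMatrix ((P⁻¹ * g * P : GL (Fin n) F) : Matrix (Fin n) (Fin n) F) =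
      ((P⁻¹ * g * P : GL (Fin n) F) : Matrix (Fin n) (Fin n) F) := by
    ext i j
    show (((P⁻¹ * g * P : GL (Fin n) F) : Matrix (Fin n) (Fin n) F) i j) ^ q = _
    exact pow_q_of_mem hF₀ (hB i j)
  have hPB : (P : Matrix (Fin n) (Fin n) F) * ((P⁻¹ * g * P : GL (Fin n) F) : Matrix (Fin n) (Fin n) F) =
      (g : Matrix (Fin n) (Fin n) F) * (P : Matrix (Fin n) (Fin n) F) := by
    rw [← Units.val_mul, ← Units.val_mul]
    congr 1
    group
  have hgg : (g : Matrix (Fin n) (Fin n) F)ᵀ * (conj hF).toRingHom.mapMatrix (g : Matrix (Fin n) (Fin n) F) = 1 := by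
    rw [← gramP_eq hF]
    ext i j
    rw [gramP, H918.mem_GU.1 hg, herm_single_left, one_mul, Matrix.one_apply]
    by_cases hij : i = j
    · subst hij
      rw [Pi.single_eq_same, one_pow, if_pos rfl]
    · rw [Pi.single_eq_of_ne hij, zero_pow_q hF, if_neg hij]
  set B : Matrix (Fin n) (Fin n) F := ((P⁻¹ * g * P : GL (Fin n) F) : Matrix (Fin n) (Fin n) F) with hBdef
  set σ := (conj hF).toRingHom.mapMatrix (m := Fin n) with hσ
  calc Bᵀ * gramP P q * B = Bᵀ * ((P : Matrix (Fin n) (Fin n) F)ᵀ * σ (P : Matrix (Fin n) (Fin n) F)) * σ B := by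
        rw [gramP_eq hF, hcj]
    _ = ((P : Matrix (Fin n) (Fin n) F) * B)ᵀ * σ ((P : Matrix (Fin n) (Fin n) F) * B) := by
        rw [Matrix.transpose_mul, map_mul]; simp only [mul_assoc]
    _ = (P : Matrix (Fin n) (Fin n) F)ᵀ * ((g : Matrix (Fin n) (Fin n) F)ᵀ * σ (g : Matrix (Fin n) (Fin n) F)) *
        σ (P : Matrix (Fin n) (Fin n) F) := by
        rw [hPB, Matrix.transpose_mul, map_mul]; simp only [mul_assoc]
    _ = gramP P q := by rw [hgg, mul_one, gramP_eq hF]

/-- **(C5), orthogonal groups.** -/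
theorem kill_sub_orth (hF : Fintype.card F = q ^ 2) (h2 : (2 : F) ≠ 0) (hn : 3 ≤ n) {F₀ : Subfield F} {P : GL (Fin n) F}
    (hc : Fintype.card F = Nat.card F₀ ^ 2) (hP : IsFormRationalStructure (hermForm n F q) F₀ 1 P)
    (h : CovX n F q (subfieldSubgroup F₀ P ⊓ Cfsg.GU n F q)) : False := by
  have hF₀ : Nat.card F₀ = q := by
    rw [hF] at hc
    exact (Nat.pow_left_injective two_ne_zero hc).symm
  obtain ⟨g, hg, hgt⟩ := h.exists_isTv hF hn
  obtain ⟨u, w, hu, hw, hwu, hguw⟩ := hgt.conj P⁻¹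
  rw [inv_inv] at hguw
  have hg2 : ((g : Matrix (Fin n) (Fin n) F) - 1) ^ 2 = 0 := by
    obtain ⟨u', w', -, -, hwu', hg'⟩ := hgt
    rw [hg', add_sub_cancel_left, sq, Matrix.vecMulVec_mul_vecMulVec, hwu', zero_smul, Matrix.vecMulVec_zero]
  have hB := mem_subfield_of_unip (by omega) hg.1 hg2
  have hiso := gramP_isom hF hg.2 hF₀ hB
  have hsymm : (gramP P q)ᵀ = (1 : F) • gramP P q := by
    rw [one_smul]
    ext i j
    rw [Matrix.transpose_apply]
    have h1 : gramP P q i j ∈ F₀ := by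
      have h3 := hP (Pi.single i 1) (Pi.single j 1) (fun l => by
        rw [Pi.single_apply]; split_ifs; exacts [F₀.one_mem, F₀.zero_mem]) (fun l => by
        rw [Pi.single_apply]; split_ifs; exacts [F₀.one_mem, F₀.zero_mem])
      rw [one_mul] at h3
      exact h3
    have h3 : (gramP P q i j) ^ q = gramP P q i j := pow_q_of_mem hF₀ h1
    rw [← h3]
    exact herm_swap hF _ _
  refine not_form h2 (isUnit_det_gramP hF P) hiso (j := 1) ?_ ?_ hsymm (by ring)
  · rw [hguw, add_sub_cancel_left, sq, Matrix.vecMulVec_mul_vecMulVec, hwu, zero_smul, Matrix.vecMulVec_zero]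
  · rw [hguw, add_sub_cancel_left, pow_one]
    exact rank_vecMulVec_eq hu hw

/-- **(C5), symplectic groups.** -/
theorem kill_sub_symp (hF : Fintype.card F = q ^ 2) (h2 : (2 : F) ≠ 0) (hn : 3 ≤ n) {F₀ : Subfield F} {P : GL (Fin n) F}
    (hc : Fintype.card F = Nat.card F₀ ^ 2)
    (hP : ∀ u : Fin n → F, (∀ i, u i ∈ F₀) →
      hermForm n F q ((P : Matrix (Fin n) (Fin n) F) *ᵥ u) ((P : Matrix (Fin n) (Fin n) F) *ᵥ u) = 0)
    (h : CovX n F q (subfieldSubgroup F₀ P ⊓ Cfsg.GU n F q)) : False := by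
  have hF₀ : Nat.card F₀ = q := by
    rw [hF] at hc
    exact (Nat.pow_left_injective two_ne_zero hc).symm
  obtain ⟨g, hg, h0, h1⟩ := h.exists_unip hF h2 (k := 3) (by decide) le_rfl hn
  have hB := mem_subfield_of_unip (by omega) hg.1 h0
  have hiso := gramP_isom hF hg.2 hF₀ hB
  have hsingle : ∀ i l : Fin n, (Pi.single i 1 : Fin n → F) l ∈ F₀ := by
    intro i l
    rw [Pi.single_apply]
    split_ifs
    exacts [F₀.one_mem, F₀.zero_mem]
  have hskew : (gramP P q)ᵀ = (-1 : F) • gramP P q := by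
    rw [neg_one_smul]
    ext i j
    rw [Matrix.transpose_apply, Matrix.neg_apply]
    have h3 := hP (Pi.single i 1 + Pi.single j 1) (fun l => F₀.add_mem (hsingle i l) (hsingle j l))
    have h4 := hP (Pi.single i 1) (hsingle i)
    have h5 := hP (Pi.single j 1) (hsingle j)
    rw [Matrix.mulVec_add, herm_add_left, herm_add_right hF, herm_add_right hF, h4, h5] at h3
    show gramP P q j i = -gramP P q i j
    unfold gramP
    linear_combination h3
  have hconj := conj_unip P⁻¹ g h0 h1
  rw [inv_inv] at hconj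
  exact not_form h2 (isUnit_det_gramP hF P) hiso (j := 2) hconj.1 hconj.2 hskew (by norm_num)

end Subfield

end Cfsg.Agent.H260.OddM
end

-- part: H260/OddM/GeoUMain
section
/-!
# TEAM ODDM (S4785), GEO-U: a subgroup of `PSU_n(q)`, `q` odd, `n ≥ 4`, which has odd index and meets every real
class is in the residual class
-/

set_option autoImplicit false
set_option linter.unusedSectionVars false

namespace Cfsg.Agent.H260.OddM

open Cfsg Cfsg.Geo Module Cfsg.Agent.H453.OddM Cfsg.Agent.H251.GeoU Cfsg.Agent.H251.GeoCard Cfsg.Agent.H951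
open Cfsg.Agent.ClassicalGeometry.UnitTransv Cfsg.Agent.LieClassical.HermBasic
open scoped Matrix MatrixGroups

/-! ### Arithmetic -/

/-- a primitive prime for the even number `m`: `-q` has order `m` -/
theorem exists_prime_even {p f m : ℕ} (hp : p.Prime) (hp2 : p ≠ 2) (hf : 1 ≤ f) (hm : Even m) (hm4 : 4 ≤ m) :
    ∃ s e : ℕ, s.Prime ∧ (∀ k, s ∣ p ^ k - 1 ↔ e * f ∣ k) ∧ ((e = m ∧ 4 ∣ m) ∨ (m = 2 * e ∧ Odd e ∧ 3 ≤ e)) ∧
      orderOf (-((p ^ f : ℕ) : ZMod s)) = m ∧ s ≠ 2 := by
  obtain ⟨e, he, he3⟩ : ∃ e, ((e = m ∧ 4 ∣ m) ∨ (m = 2 * e ∧ Odd e ∧ 3 ≤ e)) ∧ 3 ≤ e := by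
    obtain ⟨c, hc⟩ := hm
    rcases Nat.even_or_odd c with ⟨d, hd⟩ | h
    · exact ⟨m, Or.inl ⟨rfl, ⟨d, by omega⟩⟩, by omega⟩
    · obtain ⟨d, hd⟩ := h
      exact ⟨c, Or.inr ⟨by omega, ⟨d, hd⟩, by omega⟩, by omega⟩
  have hef : 3 ≤ e * f := by nlinarith
  obtain ⟨s, hs, hiff, hs1, hsp⟩ := Lib.Zsigmondy.exists_primitive (a := p) (n := e * f) hp.two_le (by omega)
    (by omega) (fun h => hp2 h.1)
  have := Fact.mk hs
  have hq : ∀ j, ((p ^ f : ℕ) : ZMod s) ^ j = 1 ↔ e ∣ j := by
    intro j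
    rw [Nat.cast_pow, ← pow_mul, ← orderOf_dvd_iff_pow_eq_one, ← Lib.Zsigmondy.dvd_pow_sub_one_iff hp.one_lt.le, hiff,
      mul_comm e f]
    exact Nat.mul_dvd_mul_iff_left (by omega)
  have hs2 : s ≠ 2 := by
    rintro rfl
    have h1 : (2 : ℕ) ∣ p ^ 1 - 1 := by
      rw [pow_one]
      obtain ⟨c, hc⟩ := hp.odd_of_ne_two hp2
      exact ⟨c, by (clear * - hc; omega)⟩
    have h3 := (hiff 1).1 h1
    have := Nat.le_of_dvd one_pos h3
    omega
  refine ⟨s, e, hs, hiff, he, ?_, hs2⟩
  set Q := ((p ^ f : ℕ) : ZMod s) with hQ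
  have hne : (-1 : ZMod s) ≠ 1 := by
    haveI : Fact (2 < s) := ⟨lt_of_le_of_ne hs.two_le (Ne.symm hs2)⟩
    exact ZMod.neg_one_ne_one
  set d := orderOf (-Q) with hd
  have hdm : d ∣ m := by
    rw [hd, orderOf_dvd_iff_pow_eq_one, hm.neg_pow, hq]
    rcases he with ⟨h, -⟩ | ⟨h, -⟩
    · rw [h]
    · exact ⟨2, by omega⟩
  have h2d : e ∣ 2 * d := by
    rw [← hq, pow_mul, ← neg_sq, ← pow_mul, mul_comm 2 d, pow_mul, hd, pow_orderOf_eq_one, one_pow]
  have hdpow : (-Q) ^ d = 1 := pow_orderOf_eq_one _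
  rcases he with ⟨h, h4⟩ | ⟨h, ho, -⟩
  · subst h
    obtain ⟨c, hc⟩ := hdm
    obtain ⟨c', hc'⟩ := h2d
    have hd0 : 0 < d := by
      rcases Nat.eq_zero_or_pos d with h0 | h0
      · rw [h0, zero_mul] at hc; omega
      · exact h0
    have hcc : c * c' = 2 := by
      have h5 : d * (c * c') = d * 2 := by
        rw [← mul_assoc, ← hc, ← hc', mul_comm]
      exact Nat.eq_of_mul_eq_mul_left hd0 h5
    have hc2 : c ∣ 2 := ⟨c', hcc.symm⟩
    rcases (Nat.dvd_prime Nat.prime_two).1 hc2 with h5 | h5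
    · rw [h5, mul_one] at hc; exact hc.symm
    · exfalso
      rw [h5] at hc
      obtain ⟨b, hb⟩ := h4
      have hdev : Even d := ⟨b, by omega⟩
      rw [hdev.neg_pow, hq] at hdpow
      have := Nat.le_of_dvd hd0 hdpow
      omega
  · have hed : e ∣ d := (Nat.Coprime.dvd_mul_left ((Nat.coprime_two_right).2 ho)).1 h2d
    obtain ⟨c, hc⟩ := hed
    have he0 : 0 < e := by omega
    have hd0 : 0 < d := Nat.pos_of_dvd_of_pos hdm (by omega)
    have hcm : c ∣ 2 := by
      obtain ⟨b, hb⟩ := hdm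
      refine ⟨b, ?_⟩
      have h5 : e * 2 = e * (c * b) := by rw [← mul_assoc, ← hc, ← hb, h, mul_comm]
      exact Nat.eq_of_mul_eq_mul_left he0 h5
    rcases (Nat.dvd_prime Nat.prime_two).1 hcm with h5 | h5
    · exfalso
      rw [h5, mul_one] at hc
      rw [hc, ho.neg_pow, (hq e).2 dvd_rfl] at hdpow
      exact hne hdpow
    · rw [hc, h5, h, mul_comm]

theorem dvd_of_ord_neg {q s m : ℕ} (hq : 1 ≤ q) (hm : Even m) (hs : s.Prime) (h : orderOf (-(q : ZMod s)) = m) :
    s ∣ q ^ (m / 2) - 1 ∨ s ∣ q ^ (m / 2) + 1 := by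
  obtain ⟨c, hc⟩ := hm
  have hmc : m / 2 = c := by omega
  have h1 : (-(q : ZMod s)) ^ m = 1 := by rw [← h, pow_orderOf_eq_one]
  rw [Even.neg_pow ⟨c, hc⟩] at h1
  have h3 : s ∣ q ^ m - 1 := by
    rw [← ZMod.natCast_eq_zero_iff, Nat.cast_sub (Nat.one_le_pow _ _ hq), Nat.cast_pow, h1, Nat.cast_one, sub_self]
  have h4 : q ^ m - 1 = (q ^ c - 1) * (q ^ c + 1) := by
    rw [hc, pow_add]
    obtain ⟨y, hy⟩ := Nat.exists_eq_add_of_le (Nat.one_le_pow c q hq)
    rw [hy, Nat.add_sub_cancel_left]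
    apply Nat.sub_eq_of_eq_add
    ring
  rw [h4] at h3
  rw [hmc]
  exact hs.dvd_mul.1 h3

variable {F : Type*} [Field F] [Fintype F] {n q : ℕ}

/-- **(C5), odd degree.** -/
theorem kill_sub_odd (hF : Fintype.card F = q ^ 2) {p f m s e : ℕ} (hp : p.Prime) (hq : q = p ^ f) (hf : 1 ≤ f)
    (hs : s.Prime) (hiff : ∀ k, s ∣ p ^ k - 1 ↔ e * f ∣ k) (he : (e = m ∧ 4 ∣ m) ∨ (m = 2 * e ∧ Odd e ∧ 3 ≤ e))
    (hm4 : 4 ≤ m) (hord : orderOf (-(q : ZMod s)) = m) (hnm : n ≤ m + 1) {F₀ : Subfield F} {r : ℕ}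
    (hr : r.Prime) (hro : Odd r) (hc : Fintype.card F = Nat.card F₀ ^ r) {P : GL (Fin n) F}
    (h : s ∣ Nat.card (subfieldSubgroup F₀ P)) : False := by
  have hsq := not_dvd_of_ord hs hord (by omega)
  have hr3 : 3 ≤ r := by
    have := hr.two_le
    obtain ⟨k, hk⟩ := hro
    omega
  have he3 : 3 ≤ e := by
    rcases he with ⟨h1, h2⟩ | ⟨-, -, h1⟩
    · omega
    · exact h1
  rcases subfield hs (not_dvd_card hF hs hsq) h with h1 | h1
  · rw [nat_card_eq hF, hq, ← pow_mul, hiff] at h1
    have h3 : f * e ∣ f * 2 := by rwa [mul_comm e f] at h1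
    have h4 := Nat.le_of_dvd two_pos (Nat.dvd_of_mul_dvd_mul_left hf h3)
    omega
  · rw [Fintype.card_fin] at h1
    obtain ⟨i, hi1, hi2, hi3⟩ := h1
    rw [hF, hq, ← pow_mul] at hc
    obtain ⟨a, -, ha⟩ := (Nat.dvd_prime_pow hp).1 (show Nat.card F₀ ∣ p ^ (f * 2) by
      rw [hc]; exact dvd_pow_self _ hr.ne_zero)
    rw [ha, ← pow_mul] at hc hi3
    have har : f * 2 = a * r := Nat.pow_right_injective hp.two_le hc
    have h4 := (hiff _).1 hi3
    have h5 : f * (e * r) ∣ f * (2 * i) := by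
      have h6 : e * f * r ∣ a * i * r := Nat.mul_dvd_mul_right h4 r
      have h7 : a * i * r = f * (2 * i) := by
        calc a * i * r = (a * r) * i := by ring
          _ = f * (2 * i) := by rw [← har]; ring
      rw [h7] at h6
      have h8 : e * f * r = f * (e * r) := by ring
      rwa [h8] at h6
    have h6 : e * r ∣ 2 * i := Nat.dvd_of_mul_dvd_mul_left hf h5
    rcases he with ⟨h7, -⟩ | ⟨h7, ho, -⟩
    · have h8 := Nat.le_of_dvd (by omega) h6
      have h9 : e * 3 ≤ e * r := Nat.mul_le_mul_left _ hr3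
      omega
    · have h8 : e * r ∣ i := (Nat.Coprime.dvd_mul_left ((Nat.coprime_two_right).2 (ho.mul hro))).1 h6
      have h9 := Nat.le_of_dvd (by omega) h8
      have h10 : e * 3 ≤ e * r := Nat.mul_le_mul_left _ hr3
      omega

/-- the reality hypothesis (helper660: `H660.OddM.realP_psu`) -/
def RealH (n : ℕ) (F : Type*) [Field F] (q : ℕ) : Prop :=
  ∀ v k : ℕ, Odd v → 1 ≤ k → 2 * k ≤ n → (v ∣ q ^ k - 1 ∨ v ∣ q ^ k + 1) → RealP (PSU n F q) v

/-- **no geometric member meets all real classes and has odd index** -/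
theorem not_covX (hF : Fintype.card F = q ^ 2) (h2 : (2 : F) ≠ 0) (hn : 4 ≤ n) (hreal : RealH n F q)
    {X : Subgroup (GL (Fin n) F)} (hX : InUnitaryClass n F q X) : ¬ CovX n F q X := by
  intro h
  obtain ⟨p, f, hp, hf, hq, hpF⟩ := exists_prime_power hF
  have hp2 : p ≠ 2 := by
    rintro rfl
    exact h2 hpF
  obtain ⟨m, hm, hmn, hnm⟩ : ∃ m, Even m ∧ m ≤ n ∧ n ≤ m + 1 := by
    rcases Nat.even_or_odd n with h1 | ⟨k, hk⟩
    · exact ⟨n, h1, le_rfl, by omega⟩
    · exact ⟨n - 1, ⟨k, by omega⟩, by omega, by omega⟩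
  have hm4 : 4 ≤ m := by
    obtain ⟨k, hk⟩ := hm
    omega
  obtain ⟨s, e, hs, hiff, he, hord, hs2⟩ := exists_prime_even hp hp2 hf hm hm4
  rw [← hq] at hord
  have hq1 : 1 ≤ q := q_pos hF
  have hsX : s ∣ Nat.card X := by
    refine h.dvd s (hreal s (m / 2) (hs.odd_of_ne_two hs2) (by omega) (by omega) ?_)
    exact dvd_of_ord_neg hq1 hm hs hord
  rcases hX with hX | hX | hX | hX
  · rcases hX with hX | hX | hX | hX | hX | hX | hX | hX
    · obtain ⟨W, hW0, hW, rfl⟩ := hX
      exact kill_ts hF h2 (by omega) hW0 hW h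
    · obtain ⟨W, hW0, hW, hW2, rfl⟩ := hX
      rcases Nat.even_or_odd n with hev | hodd
      · have hmn' : m = n := by
          obtain ⟨a, ha⟩ := hev
          obtain ⟨b, hb⟩ := hm
          omega
        rw [hmn'] at hord
        exact kill_nd_even hF hs hord hev hn hW0 hW2 hsX
      · exact kill_nd_odd hF h2 (by omega) hodd hW0 hW hW2 h
    · obtain ⟨t, k, D, hD, rfl⟩ := hX
      have htk : t * k = n := by rw [H918.decomp_card hD.decomp, Fintype.card_fin]
      have hk := hD.decomp.pos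
      have ht := hD.decomp.two_le
      by_cases hk1 : k = 1
      · subst hk1
        exact kill_frame hF h2 (by omega) hD h
      by_cases ht2 : t = 2
      · subst ht2
        exact kill_decomp_two hF h2 htk.symm hn hD.decomp h
      · exact kill_decomp_big hF hs hord hm hn hnm hD.decomp (by omega) (by omega) (dvd_left hsX)
    · obtain ⟨k, D, hk, hD, -, rfl⟩ := hX
      exact kill_decomp_two hF h2 hk.symm hn hD h
    · obtain ⟨F₀, r, P, hr, hro, hc, -, rfl⟩ := hX
      exact kill_sub_odd hF hp hq hf hs hiff he hm4 hord hnm hr hro hc (dvd_left hsX)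
    · obtain ⟨F₀, P, -, hc, hP, rfl⟩ := hX
      exact kill_sub_orth hF h2 (by omega) hc hP h
    · obtain ⟨F₀, P, ζ, -, hc, -, -, -, hP, rfl⟩ := hX
      exact kill_sub_symp hF h2 (by omega) hc hP h
    · obtain ⟨r, R, p', e', k, hR, habs, -, -, -, hc, rfl⟩ := hX
      have ht : H920.IsType r k R := by
        rcases hc with ⟨h1, h2, -, h3⟩ | ⟨h1, -, h2, h3⟩
        · exact Or.inl ⟨h1, h2, h3⟩
        · exact Or.inr ⟨h1, h2, h3⟩
      exact kill_sympU hF hn hR habs ht h
  · obtain ⟨r, K, hr, hro, hK, -, rfl⟩ := hX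
    exact kill_field hF (by omega) hr hK h
  · obtain ⟨n₁, n₂, e, P, f₁, f₂, h2, hlt, -, -, -, rfl⟩ := hX
    exact kill_tensorU hF (by omega) e P h2 hlt h
  · obtain ⟨k, t, e, P, f₁, hk, ht, -, -, -, rfl⟩ := hX
    exact kill_wreathU hF (by omega) e P hk ht h

/-- **GEO-U.** -/
theorem geoU_cov (hF : Fintype.card F = q ^ 2) (h2 : (2 : F) ≠ 0) (hn : 4 ≤ n) (hreal : RealH n F q)
    {M : Subgroup (PSU n F q)} (hM : M ≠ ⊤) (hcov : Cov (PSU n F q) M) : InUnitaryResidualClass (pre M) := by
  rcases S5663.result (F := F) n q hF (by omega) (by omega) (pre M) (pre_le M) (pre_proper M hM) with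
    ⟨X, hX, hle⟩ | h
  · exact absurd (covX_of_cov hcov hle) (not_covX hF h2 hn hreal hX)
  · exact h

end Cfsg.Agent.H260.OddM
end

-- part: H453/OddM/UnA
section
/-!
# TEAM ODDM (S4785): irreducible groups generated by unitary transvections, odd characteristic: interface

`V = F^n`, `|F| = q²`, `h = hermForm n F q`. `tU q a c` is the transvection `v ↦ v + c h(v,a) a` as an element of `GL_n(F)`
(`a` isotropic). `TM q H a c`: `a` is isotropic, `c + c^q = 0` and `tU q a c ∈ H`.
`Dat q H`: the hypotheses of the theorem. `Nt q H`: the subgroup generated by the transvections in `H`.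
-/

set_option autoImplicit false
set_option linter.unusedSectionVars false

namespace Cfsg.Agent.H453.OddM.Un

open Cfsg Module Cfsg.Agent.LieClassical.HermBasic Cfsg.Agent.ClassicalGeometry.UnitTransv
open scoped Matrix MatrixGroups

variable {F : Type*} [Field F] {n : ℕ}

/-- action on vectors -/
abbrev ap (g : GL (Fin n) F) (v : Fin n → F) : Fin n → F := (g : Matrix (Fin n) (Fin n) F) *ᵥ v

/-- the form -/
abbrev ho (q : ℕ) (u v : Fin n → F) : F := hermForm n F q u v

theorem gl_ext {g g' : GL (Fin n) F} (h : ∀ v, ap g v = ap g' v) : g = g' := by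
  apply Units.ext
  exact Matrix.ext_of_mulVec_single fun i => h _

theorem ap_mul (g h : GL (Fin n) F) (v : Fin n → F) : ap (g * h) v = ap g (ap h v) := by
  rw [ap, ap, ap, Matrix.mulVec_mulVec, Units.val_mul]

theorem ap_one (v : Fin n → F) : ap (1 : GL (Fin n) F) v = v := by
  rw [ap, Units.val_one, Matrix.one_mulVec]

theorem ap_inv_ap (g : GL (Fin n) F) (v : Fin n → F) : ap g⁻¹ (ap g v) = v := by
  rw [← ap_mul, inv_mul_cancel, ap_one]

theorem ap_add (g : GL (Fin n) F) (u v : Fin n → F) : ap g (u + v) = ap g u + ap g v := Matrix.mulVec_add _ _ _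

theorem ap_sub (g : GL (Fin n) F) (u v : Fin n → F) : ap g (u - v) = ap g u - ap g v := Matrix.mulVec_sub _ _ _

theorem ap_smul (g : GL (Fin n) F) (c : F) (v : Fin n → F) : ap g (c • v) = c • ap g v := Matrix.mulVec_smul _ _ _

theorem ap_zero (g : GL (Fin n) F) : ap g (0 : Fin n → F) = 0 := Matrix.mulVec_zero _

theorem ap_ne_zero {g : GL (Fin n) F} {v : Fin n → F} (hv : v ≠ 0) : ap g v ≠ 0 := fun h => hv (by
  rw [← ap_inv_ap g v, h, ap_zero])

/-- the transvection `v ↦ v + c h(v,a) a` (junk value `1` if the determinant vanishes) -/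
noncomputable def tU (q : ℕ) (a : Fin n → F) (c : F) : GL (Fin n) F := by
  classical
  exact if h : (unitaryTransvection n q a c).det ≠ 0 then Matrix.GeneralLinearGroup.mkOfDetNeZero _ h else 1

theorem coe_tU {q : ℕ} {a : Fin n → F} (ha : ho q a a = 0) (c : F) :
    (tU q a c : Matrix (Fin n) (Fin n) F) = unitaryTransvection n q a c := by
  have h : (unitaryTransvection n q a c).det ≠ 0 := by
    rw [det_unitaryTransvection ha]
    exact one_ne_zero
  rw [tU, dif_pos h]
  rfl

theorem ap_t {q : ℕ} {a : Fin n → F} (ha : ho q a a = 0) (v : Fin n → F) (c : F) :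
    ap (tU q a c) v = v + (c * ho q v a) • a := by
  rw [ap, coe_tU ha, unitaryTransvection_mulVec]

/-- isometries -/
def Iso (q : ℕ) (H : Subgroup (GL (Fin n) F)) : Prop := ∀ g ∈ H, ∀ u v, ho q (ap g u) (ap g v) = ho q u v

/-- the transvection with centre `a` and parameter `c` is in `H` -/
structure TM (q : ℕ) (H : Subgroup (GL (Fin n) F)) (a : Fin n → F) (c : F) : Prop where
  iso : ho q a a = 0
  tr : c + c ^ q = 0
  mem : tU q a c ∈ H

/-- `a` is the centre of a transvection in `H` -/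
def Cen (q : ℕ) (H : Subgroup (GL (Fin n) F)) (a : Fin n → F) : Prop := a ≠ 0 ∧ ∃ c : F, c ≠ 0 ∧ TM q H a c

/-- the subgroup generated by the transvections in `H` -/
def Nt (q : ℕ) (H : Subgroup (GL (Fin n) F)) : Subgroup (GL (Fin n) F) :=
  Subgroup.closure {t | ∃ b c, TM q H b c ∧ t = tU q b c}

/-- the hypotheses: `H ≤ GU_n(q)`, `q` odd, `n ≥ 3`, the transvections in `H` generate an irreducible group -/
structure Dat (q : ℕ) [Fintype F] (H : Subgroup (GL (Fin n) F)) : Prop where
  card : Fintype.card F = q ^ 2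
  le : Iso q H
  two : (2 : F) ≠ 0
  dim : 3 ≤ n
  irr : ∀ W : Submodule F (Fin n → F), (∀ b c, TM q H b c → ∀ v ∈ W, ap (tU q b c) v ∈ W) → W = ⊥ ∨ W = ⊤
  ne : ∃ b, ∃ c : F, b ≠ 0 ∧ c ≠ 0 ∧ TM q H b c

section

variable [Fintype F] {q : ℕ}

theorem t_zero {a : Fin n → F} (ha : ho q a a = 0) : tU q a (0 : F) = 1 := by
  apply gl_ext
  intro v
  rw [ap_t ha, ap_one, zero_mul, zero_smul, add_zero]

theorem t_add {a : Fin n → F} (ha : ho q a a = 0) (c d : F) : tU q a (c + d) = tU q a c * tU q a d := by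
  apply gl_ext
  intro v
  rw [ap_mul, ap_t ha, ap_t ha, ap_t ha]
  simp only [ho, herm_add_left, herm_smul_left]
  rw [show hermForm n F q a a = 0 from ha, mul_zero, add_zero, add_assoc, ← add_smul]
  congr 2
  ring

theorem t_neg {a : Fin n → F} (ha : ho q a a = 0) (c : F) : tU q a (-c) = (tU q a c)⁻¹ := by
  rw [eq_inv_iff_mul_eq_one, ← t_add ha, neg_add_cancel, t_zero ha]

theorem ho_smul {a : Fin n → F} (ha : ho q a a = 0) (s : F) : ho q (s • a) (s • a) = 0 := by
  simp only [ho, herm_smul_left, herm_smul_right]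
  rw [show hermForm n F q a a = 0 from ha, mul_zero, mul_zero]

theorem t_smul {a : Fin n → F} (ha : ho q a a = 0) (s c : F) : tU q (s • a) c = tU q a (s * s ^ q * c) := by
  apply gl_ext
  intro v
  rw [ap_t (ho_smul ha s), ap_t ha, smul_smul]
  simp only [ho, herm_smul_right]
  congr 2
  ring

theorem tU_zero_center (c : F) : tU q (0 : Fin n → F) c = 1 := by
  apply gl_ext
  intro v
  have h0 : ho q (0 : Fin n → F) (0 : Fin n → F) = 0 := herm_zero_left _
  rw [ap_t h0, ap_one, smul_zero, add_zero]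

theorem t_conj {g : GL (Fin n) F} (hg : ∀ u v, ho q (ap g u) (ap g v) = ho q u v) {a : Fin n → F}
    (ha : ho q a a = 0) (c : F) : g * tU q a c * g⁻¹ = tU q (ap g a) c := by
  rw [mul_inv_eq_iff_eq_mul]
  apply gl_ext
  intro v
  have ha' : ho q (ap g a) (ap g a) = 0 := by rw [hg, ha]
  rw [ap_mul, ap_mul, ap_t ha, ap_t ha', ap_add, ap_smul, hg]

/-! ### closure properties of `TM` -/

variable {H : Subgroup (GL (Fin n) F)}

theorem trace_add (hF : Fintype.card F = q ^ 2) {c d : F} (hc : c + c ^ q = 0) (hd : d + d ^ q = 0) :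
    (c + d) + (c + d) ^ q = 0 := by
  rw [add_pow_q hF]
  linear_combination hc + hd

theorem trace_mul (hF : Fintype.card F = q ^ 2) {s c : F} (hs : s ^ q = s) (hc : c + c ^ q = 0) :
    s * c + (s * c) ^ q = 0 := by
  rw [mul_pow, hs]
  linear_combination s * hc

theorem TM.add (hF : Fintype.card F = q ^ 2) {a : Fin n → F} {c d : F} (h : TM q H a c) (h' : TM q H a d) :
    TM q H a (c + d) :=
  ⟨h.iso, trace_add hF h.tr h'.tr, by rw [t_add h.iso]; exact H.mul_mem h.mem h'.mem⟩

theorem TM.neg (hF : Fintype.card F = q ^ 2) {a : Fin n → F} {c : F} (h : TM q H a c) : TM q H a (-c) :=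
  ⟨h.iso, by rw [neg_pow_q hF]; linear_combination -h.tr, by rw [t_neg h.iso]; exact H.inv_mem h.mem⟩

theorem TM.sub (hF : Fintype.card F = q ^ 2) {a : Fin n → F} {c d : F} (h : TM q H a c) (h' : TM q H a d) :
    TM q H a (c - d) := by
  rw [sub_eq_add_neg]
  exact h.add hF (h'.neg hF)

theorem TM.zero (hF : Fintype.card F = q ^ 2) {a : Fin n → F} (ha : ho q a a = 0) : TM q H a 0 :=
  ⟨ha, by rw [zero_pow_q hF, add_zero], by rw [t_zero ha]; exact H.one_mem⟩

theorem TM.smul_iff (hF : Fintype.card F = q ^ 2) {a : Fin n → F} {s c : F} (hs : s ≠ 0) :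
    TM q H (s • a) c ↔ TM q H a (s * s ^ q * c) := by
  have hN : s * s ^ q ≠ 0 := mul_ne_zero hs (pow_ne_zero q hs)
  constructor
  · intro h
    have ha : ho q a a = 0 := by
      have h1 := h.iso
      simp only [ho, herm_smul_left, herm_smul_right] at h1
      rcases mul_eq_zero.1 h1 with h2 | h2
      · exact absurd h2 (by simpa only [_root_.pow_eq_zero_iff', _root_.ne_eq, _root_.not_and, _root_.Decidable.not_not] using pow_ne_zero q hs)
      · rcases mul_eq_zero.1 h2 with h3 | h3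
        · exact absurd h3 hs
        · exact h3
    exact ⟨ha, trace_mul hF (norm_pow_q hF s) h.tr, by rw [← t_smul ha]; exact h.mem⟩
  · intro h
    refine ⟨ho_smul h.iso s, ?_, by rw [t_smul h.iso]; exact h.mem⟩
    have h1 := h.tr
    rw [mul_pow, norm_pow_q hF s, ← mul_add] at h1
    exact (mul_eq_zero.1 h1).resolve_left hN

theorem TM.conj (hI : Iso q H) {g : GL (Fin n) F} (hg : g ∈ H) {a : Fin n → F} {c : F} (h : TM q H a c) :
    TM q H (ap g a) c :=
  ⟨by rw [hI g hg]; exact h.iso, h.tr, by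
    rw [← t_conj (hI g hg) h.iso]
    exact H.mul_mem (H.mul_mem hg h.mem) (H.inv_mem hg)⟩

theorem Dat.conj (D : Dat q H) {g : GL (Fin n) F} (hg : g ∈ H) {a : Fin n → F} {c : F} (h : TM q H a c) :
    TM q H (ap g a) c := h.conj D.le hg

theorem ho_swap (hF : Fintype.card F = q ^ 2) (u v : Fin n → F) : ho q v u = (ho q u v) ^ q := herm_swap hF u v

theorem ho_zero_swap (hF : Fintype.card F = q ^ 2) {u v : Fin n → F} (h : ho q u v = 0) : ho q v u = 0 := by
  rw [ho_swap hF, h, zero_pow_q hF]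

theorem ho_ne_swap (hF : Fintype.card F = q ^ 2) {u v : Fin n → F} (h : ho q u v ≠ 0) : ho q v u ≠ 0 := fun h0 =>
  h (ho_zero_swap hF h0)

/-- a parameter which moves something forces the centre to be nonzero -/
theorem TM.cen {a : Fin n → F} {c : F} (hF : Fintype.card F = q ^ 2) (h : TM q H a c) {v : Fin n → F}
    (hv : c * ho q v a ≠ 0) : Cen q H a := by
  refine ⟨?_, c, left_ne_zero_of_mul hv, h⟩
  rintro rfl
  exact hv (by rw [show ho q v (0 : Fin n → F) = 0 from herm_zero_right hF v, mul_zero])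

theorem Cen.conj (hI : Iso q H) {g : GL (Fin n) F} (hg : g ∈ H) {a : Fin n → F} (h : Cen q H a) : Cen q H (ap g a) := by
  obtain ⟨h0, c, hc, h⟩ := h
  exact ⟨ap_ne_zero h0, c, hc, h.conj hI hg⟩

theorem Cen.smul (hF : Fintype.card F = q ^ 2) {x : Fin n → F} (hx : Cen q H x) {s : F} (hs : s ≠ 0) :
    Cen q H (s • x) := by
  obtain ⟨h0, c, hc, h⟩ := hx
  have hN : s * s ^ q ≠ 0 := mul_ne_zero hs (pow_ne_zero q hs)
  have hNq := norm_pow_q hF s
  refine ⟨smul_ne_zero hs h0, (s * s ^ q)⁻¹ * c, mul_ne_zero (inv_ne_zero hN) hc, ?_⟩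
  rw [TM.smul_iff hF hs, mul_inv_cancel_left₀ hN]
  exact h

theorem Cen.iso {x : Fin n → F} (hx : Cen q H x) : ho q x x = 0 := hx.2.choose_spec.2.iso

end

end Cfsg.Agent.H453.OddM.Un
end

-- part: H453/OddM/UnB
section
/-!
# TEAM ODDM (S4785): unitary transvections: connectedness
-/

set_option autoImplicit false
set_option linter.unusedSectionVars false

namespace Cfsg.Agent.H453.OddM.Un

open Cfsg Module Cfsg.Agent.LieClassical.HermBasic Cfsg.Agent.ClassicalGeometry.UnitTransv
open scoped Matrix MatrixGroups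

variable {F : Type*} [Field F] {n : ℕ} [Fintype F] {q : ℕ} {H : Subgroup (GL (Fin n) F)}

/-- adjacency -/
def Adj (q : ℕ) (H : Subgroup (GL (Fin n) F)) (a b : Fin n → F) : Prop :=
  Cen q H a ∧ Cen q H b ∧ ho q a b ≠ 0

theorem Adj.symm (hF : Fintype.card F = q ^ 2) {a b : Fin n → F} (h : Adj q H a b) : Adj q H b a :=
  ⟨h.2.1, h.1, ho_ne_swap hF h.2.2⟩

theorem ho_add_left (u v w : Fin n → F) : ho q (u + v) w = ho q u w + ho q v w := herm_add_left u v w
theorem ho_smul_left (s : F) (u w : Fin n → F) : ho q (s • u) w = s * ho q u w := herm_smul_left s u w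
theorem ho_sub_left (u v w : Fin n → F) : ho q (u - v) w = ho q u w - ho q v w := herm_sub_left u v w
theorem ho_zero_left (w : Fin n → F) : ho q (0 : Fin n → F) w = 0 := herm_zero_left w
theorem ho_add_right (hF : Fintype.card F = q ^ 2) (u v w : Fin n → F) : ho q u (v + w) = ho q u v + ho q u w :=
  herm_add_right hF u v w
theorem ho_sub_right (hF : Fintype.card F = q ^ 2) (u v w : Fin n → F) : ho q u (v - w) = ho q u v - ho q u w :=
  herm_sub_right hF u v w
theorem ho_smul_right (s : F) (u w : Fin n → F) : ho q u (s • w) = s ^ q * ho q u w := herm_smul_right s u w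
theorem ho_zero_right (hF : Fintype.card F = q ^ 2) (u : Fin n → F) : ho q u (0 : Fin n → F) = 0 := herm_zero_right hF u

/-- a vector orthogonal to everything is zero -/
theorem eq_zero_of_ho_left (hF : Fintype.card F = q ^ 2) {w : Fin n → F} (h : ∀ u, ho q u w = 0) : w = 0 := by
  by_contra h0
  obtain ⟨u, hu⟩ := exists_herm_ne_zero hF h0
  exact hu (ho_zero_swap hF (h u))

theorem eq_zero_of_ho_right (hF : Fintype.card F = q ^ 2) {w : Fin n → F} (h : ∀ u, ho q w u = 0) : w = 0 :=
  eq_zero_of_ho_left hF fun u => ho_zero_swap hF (h u)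

/-- `h(x, e) ≠ 0` for some `x` in a set if `h(v, e) ≠ 0` for some `v` in its span -/
theorem exists_of_span {S : Set (Fin n → F)} {v e : Fin n → F} (hv : v ∈ Submodule.span F S) (h : ho q v e ≠ 0) :
    ∃ x ∈ S, ho q x e ≠ 0 := by
  by_contra hcon
  push Not at hcon
  apply h
  induction hv using Submodule.span_induction with
  | mem x hx => exact hcon x hx
  | zero => exact ho_zero_left e
  | add x y _ _ hx hy =>
    rw [ho_add_left]
    by_cases h1 : ho q x e = 0
    · by_cases h2 : ho q y e = 0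
      · rw [h1, h2, add_zero]
      · exact absurd (hy h2) h2
    · exact absurd (hx h1) h1
  | smul s x _ hx =>
    rw [ho_smul_left]
    by_cases h1 : ho q x e = 0
    · rw [h1, mul_zero]
    · exact absurd (hx h1) h1

/-- the graph of centres is connected -/
theorem Dat.connected (D : Dat q H) {a b : Fin n → F} (ha : Cen q H a) (hb : Cen q H b) :
    Relation.ReflTransGen (Adj q H) a b := by
  have hF := D.card
  set W : Submodule F (Fin n → F) := Submodule.span F {y | Relation.ReflTransGen (Adj q H) a y} with hW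
  have haW : a ∈ W := Submodule.subset_span Relation.ReflTransGen.refl
  have hcen : ∀ y, Relation.ReflTransGen (Adj q H) a y → Cen q H y := by
    intro y hy
    rcases Relation.ReflTransGen.cases_tail hy with rfl | ⟨z, -, hz⟩
    · exact ha
    · exact hz.2.1
  rcases D.irr W (by
    intro e c hec v hv
    rw [ap_t hec.iso]
    by_cases h0 : c * ho q v e = 0
    · rw [h0, zero_smul, add_zero]
      exact hv
    · have he := hec.cen hF h0
      refine W.add_mem hv (W.smul_mem _ ?_)
      obtain ⟨y, hy, hye⟩ := exists_of_span hv (right_ne_zero_of_mul h0)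
      exact Submodule.subset_span (hy.tail ⟨hcen y hy, he, hye⟩)) with h | h
  · rw [h, Submodule.mem_bot] at haW
    exact absurd haW ha.1
  · obtain ⟨u, hu⟩ := exists_herm_ne_zero hF hb.1
    have huW : u ∈ W := by rw [h]; trivial
    obtain ⟨y, hy, hyb⟩ := exists_of_span huW (ho_ne_swap hF (q := q) hu)
    exact hy.tail ⟨hcen y hy, hb, hyb⟩

theorem Dat.span_ne_top (D : Dat q H) (a : Fin n → F) : Submodule.span F ({a} : Set (Fin n → F)) ≠ ⊤ := by
  intro h
  have h1 : finrank F (Submodule.span F ({a} : Set (Fin n → F))) ≤ 1 :=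
    (finrank_span_le_card (R := F) ({a} : Set (Fin n → F))).trans (by simp)
  rw [h, finrank_top, Module.finrank_fintype_fun_eq_card, Fintype.card_fin] at h1
  have := D.dim
  omega

theorem Dat.exists_cen_ne (D : Dat q H) {p : Fin n → F} (hp : p ≠ 0) : ∃ w, Cen q H w ∧ ho q p w ≠ 0 := by
  have hF := D.card
  by_contra hcon
  push Not at hcon
  rcases D.irr (Submodule.span F {p}) (by
    intro e c hec v hv
    rw [ap_t hec.iso]
    by_cases h0 : c * ho q v e = 0
    · rw [h0, zero_smul, add_zero]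
      exact hv
    · exfalso
      obtain ⟨s, rfl⟩ := Submodule.mem_span_singleton.1 hv
      have h1 := hcon e (hec.cen hF h0)
      rw [ho_smul_left, h1, mul_zero, mul_zero] at h0
      exact h0 rfl) with h | h
  · exact hp (Submodule.span_singleton_eq_bot.1 h)
  · exact D.span_ne_top p h

theorem Dat.exists_adj (D : Dat q H) {a : Fin n → F} (ha : Cen q H a) : ∃ b, Adj q H a b := by
  obtain ⟨b, hb, hab⟩ := D.exists_cen_ne ha.1
  exact ⟨b, ha, hb, hab⟩

end Cfsg.Agent.H453.OddM.Un
end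

private theorem dce_79843ed1f98a : _root_.True := by
  try have : _root_.True := by simp only [_root_.Cfsg.Agent.H453.OddM.Un.tU.eq_1]
  try have : _root_.True := by simp only [_root_.Cfsg.Agent.H260.OddM.gramP.eq_1]
  try have : _root_.True := by simp only [_root_.Cfsg.Agent.H453.OddM.Un.ap.eq_1]
  exact _root_.True.intro
end

-- part: H976/OddM/UnC1
section
prune_inst 0x25402444344000000018809421001c42a600049200480000b8a0034006831c42e9c40060bb302812128088554031006000540000426000000e000c00011c00800080020080480008400000000100000000000000000000000000000000051000000000000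
set_option linter.all false
open scoped Cfsg.Agent.FastGrp

/-!
# Irreducible groups generated by unitary transvections, odd characteristic: two transvections
-/

set_option autoImplicit false
set_option linter.unusedSectionVars false

namespace Cfsg.Agent.H976.OddM.UnC

open Cfsg Module Cfsg.Agent.LieClassical.HermBasic Cfsg.Agent.ClassicalGeometry.UnitTransv Cfsg.Agent.H453.OddM.Un
open scoped Matrix MatrixGroups

variable {F : Type*} [Field F] {n : ℕ} {q : ℕ}

theorem ho_add_left (u u' v : Fin n → F) : ho q (u + u') v = ho q u v + ho q u' v := herm_add_left u u' v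

theorem ho_sub_left (u u' v : Fin n → F) : ho q (u - u') v = ho q u v - ho q u' v := herm_sub_left u u' v

theorem ho_smul_left (c : F) (u v : Fin n → F) : ho q (c • u) v = c * ho q u v := herm_smul_left c u v

theorem ho_smul_right (c : F) (u v : Fin n → F) : ho q u (c • v) = c ^ q * ho q u v := herm_smul_right c u v

theorem ho_zero_left (v : Fin n → F) : ho q (0 : Fin n → F) v = 0 := herm_zero_left v

/-! ### The plane homomorphism -/

/-- the matrix of the map acting on the plane `⟨a, b⟩` by `A` and trivially on its orthogonal complement -/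
noncomputable def th (q : ℕ) (a b : Fin n → F) (A : Matrix (Fin 2) (Fin 2) F) : Matrix (Fin n) (Fin n) F :=
  LinearMap.toMatrix' (
    { toFun := fun v => v +
        ((A 0 0 - 1) * (ho q v b / ho q a b) + A 0 1 * (ho q v a / ho q b a)) • a +
        (A 1 0 * (ho q v b / ho q a b) + (A 1 1 - 1) * (ho q v a / ho q b a)) • b
      map_add' := by
        intro u v
        simp only [ho_add_left, add_div, mul_add, add_smul]
        abel
      map_smul' := by
        intro c v
        simp only [ho_smul_left, smul_add, smul_smul, RingHom.id_apply]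
        congr 2
        · congr 2
          ring
        · ring_nf } : (Fin n → F) →ₗ[F] (Fin n → F))

theorem th_mulVec (a b : Fin n → F) (A : Matrix (Fin 2) (Fin 2) F) (v : Fin n → F) :
    th q a b A *ᵥ v = v +
        ((A 0 0 - 1) * (ho q v b / ho q a b) + A 0 1 * (ho q v a / ho q b a)) • a +
        (A 1 0 * (ho q v b / ho q a b) + (A 1 1 - 1) * (ho q v a / ho q b a)) • b := by
  rw [th, LinearMap.toMatrix'_mulVec]
  rfl

theorem th_one (a b : Fin n → F) : th q a b 1 = 1 := by
  apply Matrix.ext_of_mulVec_single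
  intro i
  rw [th_mulVec, Matrix.one_mulVec]
  simp

theorem th_mul {a b : Fin n → F} (ha : ho q a a = 0) (hb : ho q b b = 0) (hab : ho q a b ≠ 0) (hba : ho q b a ≠ 0)
    (A B : Matrix (Fin 2) (Fin 2) F) : th q a b (A * B) = th q a b A * th q a b B := by
  apply Matrix.ext_of_mulVec_single
  intro i
  rw [← Matrix.mulVec_mulVec, th_mulVec, th_mulVec a b B]
  set v : Fin n → F := Pi.single i 1 with hv
  rw [th_mulVec]
  simp only [ho_add_left, ho_smul_left, ha, hb, Matrix.mul_apply, Fin.sum_univ_two]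
  have e : ∀ (x y : F) (p q r s : F), (v + x • a + y • b) + p • a + q • b = v + r • a + s • b ↔
      (x + p - r) • a + (y + q - s) • b = 0 := by
    intro x y p q r s
    constructor
    · intro h
      have h2 : (v + x • a + y • b) + p • a + q • b - (v + r • a + s • b) = 0 := sub_eq_zero.2 h
      rw [← h2]
      simp only [add_smul, sub_smul]
      abel
    · intro h
      rw [← sub_eq_zero, ← h]
      simp only [add_smul, sub_smul]
      abel
  symm
  rw [e]
  generalize ho q a b = φ at *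
  generalize ho q b a = ψ at *
  convert (by simp : (0 : F) • a + (0 : F) • b = 0) using 2
  · congr 1
    field_simp
    ring
  · congr 1
    field_simp
    ring

/-- the homomorphism from `SL₂(F)` attached to a hyperbolic plane -/
noncomputable def thHom {a b : Fin n → F} (ha : ho q a a = 0) (hb : ho q b b = 0) (hab : ho q a b ≠ 0)
    (hba : ho q b a ≠ 0) : Matrix.SpecialLinearGroup (Fin 2) F →* GL (Fin n) F where
  toFun A := ⟨th q a b A.1, th q a b (A⁻¹).1,
    by rw [← th_mul ha hb hab hba, ← Matrix.SpecialLinearGroup.coe_mul, mul_inv_cancel,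
      Matrix.SpecialLinearGroup.coe_one, th_one],
    by rw [← th_mul ha hb hab hba, ← Matrix.SpecialLinearGroup.coe_mul, inv_mul_cancel,
      Matrix.SpecialLinearGroup.coe_one, th_one]⟩
  map_one' := Units.ext (th_one a b)
  map_mul' A B := Units.ext ((congrArg (th q a b) (Matrix.SpecialLinearGroup.coe_mul A B)).trans
    (th_mul ha hb hab hba _ _))

theorem ap_thHom {a b : Fin n → F} (ha : ho q a a = 0) (hb : ho q b b = 0) (hab : ho q a b ≠ 0)
    (hba : ho q b a ≠ 0) (A : Matrix.SpecialLinearGroup (Fin 2) F)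
    (v : Fin n → F) : ap (thHom ha hb hab hba A) v = v +
        ((A.1 0 0 - 1) * (ho q v b / ho q a b) + A.1 0 1 * (ho q v a / ho q b a)) • a +
        (A.1 1 0 * (ho q v b / ho q a b) + (A.1 1 1 - 1) * (ho q v a / ho q b a)) • b := th_mulVec a b A.1 v

theorem thHom_upper {a b : Fin n → F} (ha : ho q a a = 0) (hb : ho q b b = 0) (hab : ho q a b ≠ 0)
    (hba : ho q b a ≠ 0) {A : Matrix.SpecialLinearGroup (Fin 2) F} {μ : F}
    (hA : A.1 = !![1, μ; 0, 1]) : thHom ha hb hab hba A = tU q a (μ / ho q b a) := by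
  apply gl_ext
  intro v
  rw [ap_thHom, ap_t ha, hA]
  simp only [Matrix.of_apply, Matrix.cons_val', Matrix.cons_val_zero, Matrix.cons_val_one, Matrix.cons_val_fin_one,
    sub_self, zero_mul, zero_add, add_zero, zero_smul]
  congr 2
  ring

theorem thHom_lower {a b : Fin n → F} (ha : ho q a a = 0) (hb : ho q b b = 0) (hab : ho q a b ≠ 0)
    (hba : ho q b a ≠ 0) {A : Matrix.SpecialLinearGroup (Fin 2) F} {ν : F}
    (hA : A.1 = !![1, 0; ν, 1]) : thHom ha hb hab hba A = tU q b (ν / ho q a b) := by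
  apply gl_ext
  intro v
  rw [ap_thHom, ap_t hb, hA]
  simp only [Matrix.of_apply, Matrix.cons_val', Matrix.cons_val_zero, Matrix.cons_val_one, Matrix.cons_val_fin_one,
    sub_self, zero_mul, add_zero, zero_smul]
  congr 2
  ring

/-- an involution of `SL₂(k)` is `-1` -/
theorem involution_eq {k : Type*} [Field k] (h2 : (2 : k) ≠ 0) {w : Matrix.SpecialLinearGroup (Fin 2) k}
    (hw : w ^ 2 = 1) (hw1 : w ≠ 1) : w.1 = !![-1, 0; 0, -1] := by
  have hinv : w⁻¹ = w := by
    rw [inv_eq_iff_mul_eq_one, ← pow_two, hw]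
  have h1 := congrArg Subtype.val hinv
  rw [Matrix.SpecialLinearGroup.coe_inv, Matrix.adjugate_fin_two] at h1
  have hdet := w.2
  rw [Matrix.det_fin_two] at hdet
  have e00 := congrFun (congrFun h1 0) 0
  have e01 := congrFun (congrFun h1 0) 1
  have e10 := congrFun (congrFun h1 1) 0
  simp only [Matrix.of_apply, Matrix.cons_val', Matrix.cons_val_zero, Matrix.cons_val_one,
    Matrix.cons_val_fin_one] at e00 e01 e10
  have h01 : w.1 0 1 = 0 := by
    have : (2 : k) * w.1 0 1 = 0 := by linear_combination -e01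
    exact (mul_eq_zero.1 this).resolve_left h2
  have h10 : w.1 1 0 = 0 := by
    have : (2 : k) * w.1 1 0 = 0 := by linear_combination -e10
    exact (mul_eq_zero.1 this).resolve_left h2
  rw [h01, e00] at hdet
  have h3 : (w.1 0 0 - 1) * (w.1 0 0 + 1) = 0 := by linear_combination hdet
  rcases mul_eq_zero.1 h3 with h4 | h4
  · exfalso
    apply hw1
    apply Subtype.ext
    rw [Matrix.SpecialLinearGroup.coe_one, Matrix.eta_fin_two w.1, e00, h01, h10, sub_eq_zero.1 h4,
      Matrix.one_fin_two]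
  · rw [Matrix.eta_fin_two w.1, e00, h01, h10, eq_neg_of_add_eq_zero_left h4]

theorem closure_singleton_top {lam : F} (x : Subfield.closure ({lam} : Set F)) (hx : (x : F) = lam) :
    Subfield.closure ({x} : Set (Subfield.closure ({lam} : Set F))) = ⊤ := by
  rw [eq_top_iff]
  rintro ⟨y, hy⟩ -
  have h1 : Subfield.closure ({lam} : Set F) ≤
      (Subfield.closure ({x} : Set (Subfield.closure ({lam} : Set F)))).map
        (Subfield.closure ({lam} : Set F)).subtype := by
    rw [Subfield.closure_le]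
    rintro _ rfl
    exact ⟨x, Subfield.subset_closure rfl, hx⟩
  obtain ⟨z, hz, hzy⟩ := h1 hy
  have : z = ⟨y, hy⟩ := Subtype.ext hzy
  rwa [← this]

/-- the invariant of two transvections lies in the fixed field -/
theorem lam_fix [Fintype F] (hF : Fintype.card F = q ^ 2) {c d : F} (hc : c + c ^ q = 0) (hd : d + d ^ q = 0)
    (a b : Fin n → F) : (c * d * (ho q a b * ho q b a)) ^ q = c * d * (ho q a b * ho q b a) := by
  rw [mul_pow, mul_pow, ho_swap hF a b, norm_pow_q hF, eq_neg_of_add_eq_zero_right hc,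
    eq_neg_of_add_eq_zero_right hd, neg_mul_neg]

/-- **Two transvections.** -/
theorem key [Fintype F] (hF : Fintype.card F = q ^ 2) (h2 : (2 : F) ≠ 0) {H : Subgroup (GL (Fin n) F)}
    {a b : Fin n → F} (hab : ho q a b ≠ 0) {c d : F} (hc : c ≠ 0) (hd : d ≠ 0) (ha : TM q H a c) (hb : TM q H b d) :
    TM q H a (c * (c * d * (ho q a b * ho q b a))) ∨
      ((c * d * (ho q a b * ho q b a)) ^ 2 = -1 ∧ (3 : F) = 0 ∧
        ∃ z ∈ H, ∀ v, ap z v = v - (2 * (ho q v b / ho q a b)) • a - (2 * (ho q v a / ho q b a)) • b) := by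
  classical
  have hba : ho q b a ≠ 0 := ho_ne_swap hF hab
  have hfix := lam_fix hF ha.tr hb.tr a b
  set φ := ho q a b with hφ
  set ψ := ho q b a with hψ
  set γ := c * d * (φ * ψ) with hγ
  have hγ0 : γ ≠ 0 := mul_ne_zero (mul_ne_zero hc hd) (mul_ne_zero hab hba)
  have hdφ : d * φ ≠ 0 := mul_ne_zero hd hab
  set s : F := (d * φ)⁻¹ with hs
  have hs0 : s ≠ 0 := inv_ne_zero hdφ
  have hsq0 : s ^ q ≠ 0 := pow_ne_zero q hs0
  have hφ1 : ho q (s • a) b = d⁻¹ := by
    rw [ho_smul_left, hs, ← hφ]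
    field_simp
  have hψ1 : ho q b (s • a) = s ^ q * ψ := by rw [ho_smul_right]
  have hab1 : ho q (s • a) b ≠ 0 := by
    rw [hφ1]
    exact inv_ne_zero hd
  have hba1 : ho q b (s • a) ≠ 0 := by
    rw [hψ1]
    exact mul_ne_zero hsq0 hba
  have haa1 : ho q (s • a) (s • a) = 0 := ho_smul ha.iso s
  have hbb := hb.iso
  set k := Subfield.closure ({γ} : Set F) with hk
  have hlam : γ ∈ k := Subfield.subset_closure rfl
  have hfink : Finite k := inferInstance
  have : Fintype k := Fintype.ofFinite k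
  let Ψ : Matrix.SpecialLinearGroup (Fin 2) k →* GL (Fin n) F :=
    (thHom haa1 hbb hab1 hba1).comp (Matrix.SpecialLinearGroup.map k.subtype)
  have hmap : ∀ A : Matrix.SpecialLinearGroup (Fin 2) k, ∀ p q r t : k, A.1 = !![p, q; r, t] →
      (Matrix.SpecialLinearGroup.map k.subtype A).1 = !![(p : F), q; r, t] := by
    intro A p q r t hA
    ext i j
    rw [Matrix.SpecialLinearGroup.map_apply_coe, RingHom.mapMatrix_apply, Matrix.map_apply, hA]
    fin_cases i <;> fin_cases j <;> rfl
  have hup : ∀ A : Matrix.SpecialLinearGroup (Fin 2) k, ∀ μ : k, A.1 = !![1, μ; 0, 1] →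
      Ψ A = tU q a ((μ : F) / (d * (φ * ψ))) := by
    intro A μ hA
    have h1 := thHom_upper haa1 hbb hab1 hba1 (A := Matrix.SpecialLinearGroup.map k.subtype A) (μ := (μ : F)) (by
      rw [hmap A 1 μ 0 1 hA]
      rfl)
    change thHom haa1 hbb hab1 hba1 (Matrix.SpecialLinearGroup.map k.subtype A) = _
    rw [h1, t_smul ha.iso, hψ1]
    congr 1
    have : s * (d * φ) = 1 := by rw [hs]; exact inv_mul_cancel₀ hdφ
    field_simp
    linear_combination (μ : F) * this
  have hlo : ∀ A : Matrix.SpecialLinearGroup (Fin 2) k, A.1 = !![1, 0; 1, 1] → Ψ A = tU q b d := by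
    intro A hA
    have h1 := thHom_lower haa1 hbb hab1 hba1 (A := Matrix.SpecialLinearGroup.map k.subtype A) (ν := 1) (by
      rw [hmap A 1 0 1 1 hA]
      rfl)
    change thHom haa1 hbb hab1 hba1 (Matrix.SpecialLinearGroup.map k.subtype A) = _
    rw [h1, hφ1]
    congr 1
    rw [one_div, inv_inv]
  set lam : k := ⟨γ, hlam⟩ with hlamd
  have h2k : (2 : k) ≠ 0 := by
    intro h
    apply h2
    have := congrArg k.subtype h
    rwa [map_ofNat, map_zero] at this
  have hle : Subgroup.closure {g : Matrix.SpecialLinearGroup (Fin 2) k |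
      (g : Matrix (Fin 2) (Fin 2) k) = !![1, 0; 1, 1] ∨ (g : Matrix (Fin 2) (Fin 2) k) = !![1, lam; 0, 1]} ≤
      H.comap Ψ := by
    rw [Subgroup.closure_le]
    rintro g (hg | hg)
    · rw [SetLike.mem_coe, Subgroup.mem_comap, hlo g hg]
      exact hb.mem
    · rw [SetLike.mem_coe, Subgroup.mem_comap, hup g lam hg]
      have : (lam : F) / (d * (φ * ψ)) = c := by
        change γ / (d * (φ * ψ)) = c
        rw [hγ]
        field_simp
      rw [this]
      exact ha.mem
  rcases Cfsg.Agent.S0801.result h2k lam (fun h => hγ0 (by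
      have := congrArg (fun x : k => (x : F)) h
      simpa [hlamd] using this)) (closure_singleton_top lam rfl) with ⟨htop, -⟩ | ⟨h9, hl2, h120⟩
  · left
    let A : Matrix.SpecialLinearGroup (Fin 2) k := ⟨!![1, lam ^ 2; 0, 1], by
      rw [Matrix.det_fin_two_of]; ring⟩
    have h1 : A ∈ H.comap Ψ := hle (by rw [htop]; trivial)
    rw [Subgroup.mem_comap, hup A (lam ^ 2) rfl] at h1
    have h3 : ((lam ^ 2 : k) : F) / (d * (φ * ψ)) = c * γ := by
      push_cast
      change (γ ^ 2) / (d * (φ * ψ)) = c * γ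
      rw [pow_two γ]
      nth_rewrite 1 [hγ]
      field_simp
    rw [h3] at h1
    refine ⟨ha.iso, ?_, h1⟩
    rw [mul_comm c γ]
    exact trace_mul hF hfix ha.tr
  · right
    have h3 : (3 : F) = 0 := by
      obtain ⟨p, hp⟩ := CharP.exists k
      obtain ⟨n, hpp, hn⟩ := FiniteField.card k p
      rw [h9] at hn
      have h4 : p ∣ 9 := by
        rw [hn]
        exact dvd_pow_self p n.pos.ne'
      have h5 : p = 3 := by
        have h6 : p ∣ 3 ^ 2 := by norm_num; exact h4
        exact (Nat.prime_dvd_prime_iff_eq hpp Nat.prime_three).1 (hpp.dvd_of_dvd_pow h6)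
      subst h5
      have h7 : ((3 : ℕ) : k) = 0 := CharP.cast_eq_zero k 3
      have := congrArg k.subtype h7
      rw [map_natCast, map_zero] at this
      exact_mod_cast this
    refine ⟨?_, h3, ?_⟩
    · have := congrArg k.subtype hl2
      rw [map_pow, map_neg, map_one] at this
      exact this
    · have : Fact (Nat.Prime 2) := ⟨Nat.prime_two⟩
      obtain ⟨⟨w, hwc⟩, hw⟩ := exists_prime_orderOf_dvd_card' 2 (by rw [h120]; norm_num :
        2 ∣ Nat.card ↥(Subgroup.closure {g : Matrix.SpecialLinearGroup (Fin 2) k |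
          (g : Matrix (Fin 2) (Fin 2) k) = !![1, 0; 1, 1] ∨ (g : Matrix (Fin 2) (Fin 2) k) = !![1, lam; 0, 1]}))
      rw [Subgroup.orderOf_mk] at hw
      have hw2 : w ^ 2 = 1 := orderOf_dvd_iff_pow_eq_one.1 (by rw [hw])
      have hw1 : w ≠ 1 := by
        rintro rfl
        rw [orderOf_one] at hw
        omega
      have hwm := involution_eq h2k hw2 hw1
      refine ⟨Ψ w, hle hwc, fun v => ?_⟩
      change ap (thHom haa1 hbb hab1 hba1 (Matrix.SpecialLinearGroup.map k.subtype w)) v = _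
      rw [ap_thHom, hmap w (-1) 0 0 (-1) hwm, ho_smul_left, ho_smul_right, ho_smul_right, ← hφ, ← hψ]
      simp only [Matrix.of_apply, Matrix.cons_val', Matrix.cons_val_zero, Matrix.cons_val_one,
        Matrix.cons_val_fin_one, Subfield.coe_neg, Subfield.coe_one, Subfield.coe_zero, zero_mul, add_zero,
        zero_add, smul_smul]
      have hsub : v - (2 * (ho q v b / φ)) • a - (2 * (ho q v a / ψ)) • b =
          v + (-(2 * (ho q v b / φ))) • a + (-(2 * (ho q v a / ψ))) • b := by
        rw [neg_smul, neg_smul, sub_eq_add_neg, sub_eq_add_neg]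
      rw [hsub]
      congr 2
      · congr 1
        field_simp
        ring
      · field_simp
        ring

end Cfsg.Agent.H976.OddM.UnC

private theorem dce_88e91ad94b2b : _root_.True := by
  try have : _root_.True := by simp only [_root_.Cfsg.Agent.H976.OddM.UnC.th.eq_1]
  exact _root_.True.intro
end

-- part: H976/OddM/UnC2
section
prune_inst 0x10000000000000
set_option linter.all false
open scoped Cfsg.Agent.FastGrp

/-!
# Irreducible groups generated by unitary transvections, odd characteristic: centres with few transvections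
-/

set_option autoImplicit false
set_option linter.unusedSectionVars false

namespace Cfsg.Agent.H976.OddM.UnC

open Cfsg Module Cfsg.Agent.LieClassical.HermBasic Cfsg.Agent.ClassicalGeometry.UnitTransv
open Cfsg.Agent.H453.OddM.Un hiding ho_add_left ho_sub_left ho_smul_left ho_smul_right ho_zero_left
open scoped Matrix MatrixGroups

variable {F : Type*} [Field F] {n : ℕ} {q : ℕ}

/-- at most one transvection group element up to sign -/
def Small (q : ℕ) (H : Subgroup (GL (Fin n) F)) (a : Fin n → F) : Prop :=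
  ∃ w : F, ∀ c, TM q H a c → c = 0 ∨ c = w ∨ c = -w

variable [Fintype F] {H : Subgroup (GL (Fin n) F)}

/-- the invariant of two transvections, one with a small centre -/
theorem Small.sq (hF : Fintype.card F = q ^ 2) (h2 : (2 : F) ≠ 0) {x y : Fin n → F} (hx : Small q H x)
    (hφ : ho q x y ≠ 0) {c d : F} (hc : c ≠ 0) (hd : d ≠ 0) (hcH : TM q H x c) (hdH : TM q H y d) :
    (c * d * (ho q x y * ho q y x)) ^ 2 = 1 ∨ (c * d * (ho q x y * ho q y x)) ^ 2 = -1 := by
  obtain ⟨w, hw⟩ := hx
  have hφ' : ho q y x ≠ 0 := ho_ne_swap hF hφ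
  rcases key hF h2 hφ hc hd hcH hdH with h | ⟨h, -⟩
  · left
    have hγ0 : c * d * (ho q x y * ho q y x) ≠ 0 := mul_ne_zero (mul_ne_zero hc hd) (mul_ne_zero hφ hφ')
    have h1 : (c * (c * d * (ho q x y * ho q y x))) ^ 2 = c ^ 2 := by
      have e1 : c ^ 2 = w ^ 2 := by
        rcases hw _ hcH with h1 | h1 | h1
        · exact absurd h1 hc
        · rw [h1]
        · rw [h1, neg_sq]
      rcases hw _ h with h1 | h1 | h1
      · exact absurd h1 (mul_ne_zero hc hγ0)
      · rw [h1, e1]
      · rw [h1, e1, neg_sq]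
    have h3 : c ^ 2 * ((c * d * (ho q x y * ho q y x)) ^ 2 - 1) = 0 := by linear_combination h1
    exact sub_eq_zero.1 ((mul_eq_zero.1 h3).resolve_left (pow_ne_zero 2 hc))
  · exact Or.inr h

theorem small_adj (hF : Fintype.card F = q ^ 2) (two : (2 : F) ≠ 0) (h3 : (3 : F) = 0) {x y : Fin n → F}
    (hxy : Adj q H x y) (hx : Small q H x) : Small q H y := by
  obtain ⟨⟨hx0, c0, hc0, hc0H⟩, ⟨hy0, d1, hd1, hd1H⟩, hφ⟩ := hxy
  have hsq : ∀ d, d ≠ 0 → TM q H y d → (c0 * d * (ho q x y * ho q y x)) ^ 2 = 1 ∨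
      (c0 * d * (ho q x y * ho q y x)) ^ 2 = -1 := fun d hd hdH => hx.sq hF two hφ hc0 hd hc0H hdH
  refine ⟨d1, fun d hdH => ?_⟩
  by_contra hcon
  push Not at hcon
  obtain ⟨hd0, hd1', hd2'⟩ := hcon
  have e1 := hsq d1 hd1 hd1H
  have e2 := hsq d hd0 hdH
  have e3 := hsq (d1 + d) (fun h => hd2' (by linear_combination h)) (hd1H.add hF hdH)
  have e4 := hsq (d1 - d) (fun h => hd1' (by linear_combination -h)) (hd1H.sub hF hdH)
  set φ := ho q x y * ho q y x with hφd
  set g1 := c0 * d1 * φ with hg1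
  set g2 := c0 * d * φ with hg2
  have h5 : c0 * (d1 + d) * φ = g1 + g2 := by rw [hg1, hg2]; ring
  have h6 : c0 * (d1 - d) * φ = g1 - g2 := by rw [hg1, hg2]; ring
  rw [h5] at e3
  rw [h6] at e4
  have one : (1 : F) ≠ 0 := one_ne_zero
  have h7 : (g1 + g2) ^ 2 + (g1 - g2) ^ 2 = 2 * g1 ^ 2 + 2 * g2 ^ 2 := by ring
  have h8 : (g1 + g2) ^ 2 * (g1 - g2) ^ 2 = (g1 ^ 2 - g2 ^ 2) ^ 2 := by ring
  rcases e1 with e1 | e1 <;> rcases e2 with e2 | e2 <;> rcases e3 with e3 | e3 <;> rcases e4 with e4 | e4 <;>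
    rw [e1, e2, e3, e4] at h7 h8
  all_goals first
    | exact one (by linear_combination h8)
    | exact one (by linear_combination -h8)
    | exact one (by linear_combination h8 + 2 * h3)
    | exact two (by linear_combination h7)
    | exact two (by linear_combination -h7)

theorem small_all (D : Dat q H) (h3 : (3 : F) = 0) {x y : Fin n → F} (hx : Small q H x)
    (hxc : Cen q H x) (hyc : Cen q H y) : Small q H y := by
  have h := D.connected hxc hyc
  induction h with
  | refl => exact hx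
  | tail _ hyz ih => exact small_adj D.card D.two h3 hyz (ih hyz.1)

/-- in a bad pair the transvection group is small -/
theorem bad_small (hF : Fintype.card F = q ^ 2) (two : (2 : F) ≠ 0) {a b : Fin n → F} (hab : ho q a b ≠ 0) {c d : F}
    (hc : c ≠ 0) (hd : d ≠ 0) (ha : TM q H a c) (hb : TM q H b d) (h3 : (3 : F) = 0)
    (hγ : (c * d * (ho q a b * ho q b a)) ^ 2 = -1) (hbad : ¬ TM q H a (c * (c * d * (ho q a b * ho q b a)))) :
    Small q H a := by
  have hba : ho q b a ≠ 0 := ho_ne_swap hF hab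
  refine ⟨c, fun c' hc'H => ?_⟩
  by_contra hcon
  push Not at hcon
  obtain ⟨hc0, hc1, hc2⟩ := hcon
  -- squares
  have hsq : ∀ x : F, x ≠ 0 → TM q H a x → (x * d * (ho q a b * ho q b a)) ^ 2 ≠ -1 →
      TM q H a (x * (x * d * (ho q a b * ho q b a))) := by
    intro x hx hxH h
    rcases key hF two hab hx hd hxH hb with h1 | ⟨h1, -⟩
    · exact h1
    · exact absurd h1 h
  set φ := ho q a b * ho q b a with hφ
  have hδ : d * φ ≠ 0 := mul_ne_zero hd (mul_ne_zero hab hba)
  have hfac : ∀ x : F, (x * d * φ) ^ 2 = -1 → x = c ∨ x = -c := by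
    intro x hx
    have h1 : (d * φ) ^ 2 * ((x - c) * (x + c)) = 0 := by linear_combination hx - hγ
    rcases mul_eq_zero.1 h1 with h2 | h2
    · exact absurd h2 (pow_ne_zero 2 hδ)
    · rcases mul_eq_zero.1 h2 with h4 | h4
      · exact Or.inl (sub_eq_zero.1 h4)
      · exact Or.inr (eq_neg_of_add_eq_zero_left h4)
  have e1 := hsq c' hc0 hc'H (fun h => by
    rcases hfac c' h with h | h
    · exact hc1 h
    · exact hc2 h)
  have e2 := hsq (c' + c) (fun h => hc2 (by linear_combination h)) (hc'H.add hF ha) (fun h => by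
    rcases hfac _ h with h | h
    · exact hc0 (by linear_combination h)
    · exact hc1 (by linear_combination h - c * h3))
  have e3 := hsq (c' - c) (fun h => hc1 (by linear_combination h)) (hc'H.sub hF ha) (fun h => by
    rcases hfac _ h with h | h
    · exact hc2 (by linear_combination h + c * h3)
    · exact hc0 (by linear_combination h))
  have e4 := ((e2.add hF e3).sub hF e1).sub hF e1
  apply hbad
  have e5 := e4.neg hF
  have e6 : -((c' + c) * ((c' + c) * d * φ) + (c' - c) * ((c' - c) * d * φ) -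
      c' * (c' * d * φ) - c' * (c' * d * φ)) = c * (c * d * φ) := by
    linear_combination (-c * (c * d * φ)) * h3
  rwa [e6] at e5

/-- a third center in general position to a hyperbolic plane -/
theorem exists_third (D : Dat q H) {a b : Fin n → F} (hab : ho q a b ≠ 0) {c d : F} (hc : c ≠ 0)
    (hd : d ≠ 0) (ha : TM q H a c) (hb : TM q H b d) :
    ∃ (e : Fin n → F) (g : F), g ≠ 0 ∧ TM q H e g ∧ ho q e a ≠ 0 ∧ ho q e b ≠ 0 ∧
      e ∉ Submodule.span F ({a, b} : Set (Fin n → F)) := by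
  classical
  have hF := D.card
  have hba : ho q b a ≠ 0 := ho_ne_swap hF hab
  set W := Submodule.span F ({a, b} : Set (Fin n → F)) with hW
  have haW : a ∈ W := Submodule.subset_span (by simp)
  have hbW : b ∈ W := Submodule.subset_span (by simp)
  have h1 : ∃ (e : Fin n → F) (g : F), TM q H e g ∧ ∃ v ∈ W, ap (tU q e g) v ∉ W := by
    by_contra hcon
    push Not at hcon
    rcases D.irr W hcon with h | h
    · rw [h, Submodule.mem_bot] at haW
      rw [haW, ho_zero_left] at hab
      exact hab rfl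
    · have h2 : finrank F W ≤ 2 := by
        refine (finrank_span_le_card (R := F) ({a, b} : Set (Fin n → F))).trans ?_
        rw [Set.toFinset_insert, Set.toFinset_singleton]
        exact Finset.card_le_two
      rw [h, finrank_top, Module.finrank_fintype_fun_eq_card, Fintype.card_fin] at h2
      have := D.dim
      omega
  obtain ⟨e, g, heH, v, hv, hve⟩ := h1
  rw [ap_t heH.iso] at hve
  have hg0 : g * ho q v e ≠ 0 := by
    intro h0
    rw [h0, zero_smul, add_zero] at hve
    exact hve hv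
  have heW : e ∉ W := fun h => hve (W.add_mem hv (W.smul_mem _ h))
  have hg : g ≠ 0 := left_ne_zero_of_mul hg0
  have hve' : ho q v e ≠ 0 := right_ne_zero_of_mul hg0
  have hor : ho q e a ≠ 0 ∨ ho q e b ≠ 0 := by
    by_contra hcon
    push Not at hcon
    apply hve'
    obtain ⟨s, t, rfl⟩ := Submodule.mem_span_pair.1 hv
    rw [ho_add_left, ho_smul_left, ho_smul_left, ho_zero_swap hF hcon.1, ho_zero_swap hF hcon.2]
    simp
  by_cases h2 : ho q e a = 0
  · have h3 : ho q e b ≠ 0 := by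
      rcases hor with h | h
      · exact absurd h2 h
      · exact h
    refine ⟨ap (tU q b d) e, g, hg, D.conj hb.mem heH, ?_, ?_, ?_⟩
    · rw [ap_t hb.iso, ho_add_left, ho_smul_left, h2, zero_add]
      exact mul_ne_zero (mul_ne_zero hd h3) hba
    · rw [ap_t hb.iso, ho_add_left, ho_smul_left, hb.iso, mul_zero, add_zero]
      exact h3
    · intro h
      rw [ap_t hb.iso] at h
      apply heW
      have := W.sub_mem h (W.smul_mem (d * ho q e b) hbW)
      rwa [add_sub_cancel_right] at this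
  · by_cases h3 : ho q e b = 0
    · refine ⟨ap (tU q a c) e, g, hg, D.conj ha.mem heH, ?_, ?_, ?_⟩
      · rw [ap_t ha.iso, ho_add_left, ho_smul_left, ha.iso, mul_zero, add_zero]
        exact h2
      · rw [ap_t ha.iso, ho_add_left, ho_smul_left, h3, zero_add]
        exact mul_ne_zero (mul_ne_zero hc h2) hab
      · intro h
        rw [ap_t ha.iso] at h
        apply heW
        have := W.sub_mem h (W.smul_mem (c * ho q e a) haW)
        rwa [add_sub_cancel_right] at this
    · exact ⟨e, g, hg, heH, h2, h3, heW⟩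

end Cfsg.Agent.H976.OddM.UnC
end

-- part: H976/OddM/UnC
section
prune_inst 0x25606444346200000018809423001c46a600049200480400ac81034206c10e62e9c42060a7302013d28e88552831006000540110424800000e200800011e0080000112061150a008400090000180000000000000000000000000000000010004000000000
set_option linter.all false
open scoped Cfsg.Agent.FastGrp

/-!
# Irreducible groups generated by unitary transvections, odd characteristic: elimination of
`SL₂(5) ≤ SL₂(9)`
-/

set_option autoImplicit false
set_option linter.unusedSectionVars false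

namespace Cfsg.Agent.H976.OddM.UnC

open Cfsg Module Cfsg.Agent.LieClassical.HermBasic Cfsg.Agent.ClassicalGeometry.UnitTransv
open Cfsg.Agent.H453.OddM.Un hiding ho_add_left ho_sub_left ho_smul_left ho_smul_right ho_zero_left
open scoped Matrix MatrixGroups

variable {F : Type*} [Field F] {n : ℕ} {q : ℕ} [Fintype F] {H : Subgroup (GL (Fin n) F)}

theorem two_pow_q (hF : Fintype.card F = q ^ 2) : (2 : F) ^ q = 2 := by
  rw [← one_add_one_eq_two, add_pow_q hF, one_pow]

/-- the product of the transvections with centers `y - e'` and `y + e'` -/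
noncomputable def sg (q : ℕ) (e' : Fin n → F) (g : F) (y : Fin n → F) : GL (Fin n) F :=
  tU q (y - e') g * tU q (y + e') (-g)

theorem ap_sg (hF : Fintype.card F = q ^ 2) {y e' : Fin n → F} (hyy : ho q y y = 0) (hee : ho q e' e' = 0)
    (hy : ho q y e' = 0) (g : F) (v : Fin n → F) :
    ap (sg q e' g y) v = v - (2 * g * ho q v y) • e' - (2 * g * ho q v e') • y := by
  have hy' : ho q e' y = 0 := ho_zero_swap hF hy
  have h1 : ho q (y - e') (y - e') = 0 := by
    rw [ho_sub_left, ho_sub_right hF, ho_sub_right hF, hyy, hee, hy, hy']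
    ring
  have h2 : ho q (y + e') (y + e') = 0 := by
    rw [ho_add_left, ho_add_right hF, ho_add_right hF, hyy, hee, hy, hy']
    ring
  rw [sg, ap_mul, ap_t h2, ap_t h1]
  simp only [ho_add_left, ho_smul_left, ho_sub_right hF, ho_add_right hF, hyy, hee, hy, hy']
  generalize ho q v y = x
  generalize ho q v e' = z
  module

/-- commutators of Siegel elements are transvections -/
theorem sg_comm (hF : Fintype.card F = q ^ 2) {y z e' : Fin n → F} (hyy : ho q y y = 0) (hzz : ho q z z = 0)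
    (hee : ho q e' e' = 0) (hy : ho q y e' = 0) (hz : ho q z e' = 0) (g : F) :
    sg q e' g y * sg q e' g z =
      tU q e' ((2 * g) ^ 2 * (ho q z y - ho q y z)) * (sg q e' g z * sg q e' g y) := by
  apply gl_ext
  intro v
  have hy' : ho q e' y = 0 := ho_zero_swap hF hy
  have hz' : ho q e' z = 0 := ho_zero_swap hF hz
  rw [ap_mul, ap_mul (tU q e' _), ap_mul, ap_sg hF hzz hee hz, ap_sg hF hyy hee hy, ap_sg hF hyy hee hy,
    ap_sg hF hzz hee hz, ap_t hee]
  simp only [ho_sub_left, ho_smul_left, hee, hy, hz, hy', hz']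
  generalize ho q v z = p1
  generalize ho q v e' = p2
  generalize ho q v y = p3
  generalize ho q z y = p4
  generalize ho q y z = p5
  module

/-- **The bad case does not occur.** -/
theorem good (D : Dat q H) {a b : Fin n → F} (hab : ho q a b ≠ 0) {c d : F} (hc : c ≠ 0)
    (hd : d ≠ 0) (ha : TM q H a c) (hb : TM q H b d) : TM q H a (c * (c * d * (ho q a b * ho q b a))) := by
  by_contra hbad
  have hF := D.card
  have two := D.two
  have hba : ho q b a ≠ 0 := ho_ne_swap hF hab
  rcases key hF D.two hab hc hd ha hb with h | ⟨hγ, h3, z, hzH, hz⟩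
  · exact hbad h
  have hsmall := bad_small hF D.two hab hc hd ha hb h3 hγ hbad
  have hlamfix := lam_fix hF ha.tr hb.tr a b
  have hcenA : Cen q H a := ⟨fun h => by rw [h, ho_zero_left] at hab; exact hab rfl, c, hc, ha⟩
  have hS : ∀ y, Cen q H y → Small q H y := fun y hy => small_all D h3 hsmall hcenA hy
  have hL : ∀ {u v : Fin n → F} {s t : F}, s ≠ 0 → t ≠ 0 → TM q H u s → TM q H v t → ho q u v ≠ 0 →
      (s * t * (ho q u v * ho q v u)) ^ 2 = 1 ∨ (s * t * (ho q u v * ho q v u)) ^ 2 = -1 := by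
    intro u v s t hs ht hu hv h
    exact (hS u ⟨fun h0 => by rw [h0, ho_zero_left] at h; exact h rfl, s, hs, hu⟩).sq hF two h hs ht hu hv
  obtain ⟨e, g, hg, heH, hea, heb, heW⟩ := exists_third D hab hc hd ha hb
  have hae : ho q a e ≠ 0 := ho_ne_swap hF hea
  have hbe : ho q b e ≠ 0 := ho_ne_swap hF heb
  obtain ⟨x, hx⟩ : ∃ x : Fin n → F, x = (ho q e b / ho q a b) • a + (ho q e a / ho q b a) • b := ⟨_, rfl⟩
  obtain ⟨e', he'⟩ : ∃ e' : Fin n → F, e' = e - x := ⟨_, rfl⟩
  have hexe : x + e' = e := by rw [he']; abel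
  have hxa : ho q x a = ho q e a := by
    rw [hx, ho_add_left, ho_smul_left, ho_smul_left, ha.iso]
    field_simp
    ring
  have hxb : ho q x b = ho q e b := by
    rw [hx, ho_add_left, ho_smul_left, ho_smul_left, hb.iso]
    field_simp
    ring
  have he'a : ho q e' a = 0 := by rw [he', ho_sub_left, hxa, sub_self]
  have he'b : ho q e' b = 0 := by rw [he', ho_sub_left, hxb, sub_self]
  have hae' : ho q a e' = 0 := ho_zero_swap hF he'a
  have hbe' : ho q b e' = 0 := ho_zero_swap hF he'b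
  have hxe' : ho q x e' = 0 := by
    rw [hx, ho_add_left, ho_smul_left, ho_smul_left, hae', hbe']
    ring
  have he'x : ho q e' x = 0 := ho_zero_swap hF hxe'
  have he'0 : e' ≠ 0 := by
    intro h0
    apply heW
    rw [← hexe, h0, add_zero, hx]
    exact Submodule.add_mem _ (Submodule.smul_mem _ _ (Submodule.subset_span (by simp)))
      (Submodule.smul_mem _ _ (Submodule.subset_span (by simp)))
  have hax : ho q a x = ho q a e := by rw [ho_swap hF x a, hxa, ← ho_swap hF]
  have hbx : ho q b x = ho q b e := by rw [ho_swap hF x b, hxb, ← ho_swap hF]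
  have hee' : ho q e' e' = - ho q x x := by
    have h1 : ho q (x + e') (x + e') = 0 := by rw [hexe]; exact heH.iso
    rw [ho_add_left, ho_add_right hF, ho_add_right hF, hxe', he'x] at h1
    linear_combination h1
  have hxx : ho q x x = ho q e b / ho q a b * ho q a e + ho q e a / ho q b a * ho q b e := by
    conv_lhs => rw [hx, ho_add_left, ho_smul_left, ho_smul_left]
    rw [← hx, hax, hbx]
  -- the reflected centre
  have hm1 : (-1 : F) * (-1) ^ q = 1 := by rw [neg_pow_q hF, one_pow]; ring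
  have hxm : TM q H (x - e') g := by
    have h1 := D.conj hzH heH
    have h2 : ap z e = (-1 : F) • (x - e') := by
      rw [hz, he', hx]
      module
    rw [h2, TM.smul_iff hF (neg_ne_zero.2 one_ne_zero), hm1, one_mul] at h1
    exact h1
  have hxp : TM q H (x + e') g := by rw [hexe]; exact heH
  have hte : ap (tU q a c) e' = e' := by rw [ap_t ha.iso, he'a, mul_zero, zero_smul, add_zero]
  have htf : ap (tU q b d) e' = e' := by rw [ap_t hb.iso, he'b, mul_zero, zero_smul, add_zero]
  have hcq : c ^ q = -c := eq_neg_of_add_eq_zero_right ha.tr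
  have hdq : d ^ q = -d := eq_neg_of_add_eq_zero_right hb.tr
  have hgq : (2 * g) ^ q = -(2 * g) := by
    rw [mul_pow, two_pow_q hF, eq_neg_of_add_eq_zero_right heH.tr]
    ring
  have hxz1 : ∀ u : Fin n → F, ho q u (ap (tU q a c) x) = ho q u x - c * ho q a e * ho q u a := by
    intro u
    rw [ap_t ha.iso, ho_add_right hF, ho_smul_right, mul_pow, hcq, hxa, ← ho_swap hF e a]
    ring
  have hxz2 : ∀ u : Fin n → F, ho q (ap (tU q a c) x) u = ho q x u + c * ho q e a * ho q a u := by
    intro u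
    rw [ap_t ha.iso, ho_add_left, ho_smul_left, hxa]
  set ν := ho q x x with hν
  have hνq : ν ^ q = ν := (ho_swap hF x x).symm
  by_cases hν0 : ν = 0
  · -- `x` isotropic
    rw [hν0, neg_zero] at hee'
    let X : (Fin n → F) → Prop := fun y => ho q y y = 0 ∧ ho q y e' = 0 ∧ TM q H (y + e') g ∧ TM q H (y - e') g
    have hXx : X x := ⟨hν0, hxe', hxp, hxm⟩
    have hXa : ∀ y, X y → X (ap (tU q a c) y) := by
      rintro y ⟨h1, h2, h4, h5⟩
      refine ⟨?_, ?_, ?_, ?_⟩
      · rw [D.le _ ha.mem, h1]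
      · rw [← hte, D.le _ ha.mem, h2]
      · have := D.conj ha.mem h4
        rwa [ap_add, hte] at this
      · have := D.conj ha.mem h5
        rwa [ap_sub, hte] at this
    have hXb : ∀ y, X y → X (ap (tU q b d) y) := by
      rintro y ⟨h1, h2, h4, h5⟩
      refine ⟨?_, ?_, ?_, ?_⟩
      · rw [D.le _ hb.mem, h1]
      · rw [← htf, D.le _ hb.mem, h2]
      · have := D.conj hb.mem h4
        rwa [ap_add, htf] at this
      · have := D.conj hb.mem h5
        rwa [ap_sub, htf] at this
    have hXX : ∀ y z, X y → X z → TM q H e' ((2 * g) ^ 2 * (ho q z y - ho q y z)) := by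
      rintro y z ⟨h0, h1, h2, h4⟩ ⟨h5, h6, h7, h9⟩
      have h8 := sg_comm hF h0 h5 hee' h1 h6 g
      have hy : sg q e' g y ∈ H := H.mul_mem h4.mem (h2.neg hF).mem
      have hz : sg q e' g z ∈ H := H.mul_mem h9.mem (h7.neg hF).mem
      refine ⟨hee', ?_, ?_⟩
      · rw [mul_pow _ _ q, ← pow_mul, mul_comm 2 q, pow_mul, hgq, sub_pow_q hF, ← ho_swap hF, ← ho_swap hF]
        ring
      · have h10 : tU q e' ((2 * g) ^ 2 * (ho q z y - ho q y z)) =
            sg q e' g y * sg q e' g z * (sg q e' g z * sg q e' g y)⁻¹ := by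
          rw [h8, mul_inv_cancel_right]
        rw [h10]
        exact H.mul_mem (H.mul_mem hy hz) (H.inv_mem (H.mul_mem hz hy))
    set α := ho q e a with hα
    set α' := ho q a e with hα'
    set β := ho q e b with hβ
    set β' := ho q b e with hβ'
    set φ := ho q a b with hφ
    set ψ := ho q b a with hψ
    have hrel : α * φ * β' = - (α' * ψ * β) := by
      have h1 : β / φ * α' + α / ψ * β' = 0 := by rw [← hxx]; exact hν0
      field_simp at h1
      linear_combination h1
    set κ : F := (2 * g) ^ 2 * 2 with hκ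
    have hκ0 : κ ≠ 0 := mul_ne_zero (pow_ne_zero 2 (mul_ne_zero two hg)) two
    -- three elements
    have m1 : TM q H e' (κ * (c * (α * α'))) := by
      have h1 := hXX x _ hXx (hXa x hXx)
      rw [hxz1, hxz2, hax, hxa] at h1
      have e1 : (2 * g) ^ 2 * (ho q x x + c * α * α' - (ho q x x - c * α' * α)) = κ * (c * (α * α')) := by
        rw [hκ]; ring
      rwa [e1] at h1
    have m2 : TM q H e' (κ * (d * (β * β'))) := by
      have h1 := hXX x _ hXx (hXb x hXx)
      rw [ap_t hb.iso, ho_add_left, ho_smul_left, ho_add_right hF, ho_smul_right, mul_pow _ _ q, hdq,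
        ← ho_swap hF x b, hbx, hxb] at h1
      have e1 : (2 * g) ^ 2 * (ho q x x + d * β * β' - (ho q x x + -d * β' * β)) = κ * (d * (β * β')) := by
        rw [hκ]; ring
      rwa [e1] at h1
    have m3 : TM q H e' (κ * (c * d * (α * φ * β'))) := by
      have h1 := hXX x _ hXx (hXb _ (hXa x hXx))
      rw [ap_t hb.iso (ap (tU q a c) x), ho_add_left, ho_smul_left, ho_add_right hF, ho_smul_right, mul_pow _ _ q, hdq,
        ← ho_swap hF _ b, hxz1, hxz1, hxz2, hxz2, hxb, hax, hxa, hbx] at h1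
      have h2 := (h1.sub hF m1).sub hF m2
      have e1 : (2 * g) ^ 2 * (ho q x x + c * α * α' + d * (β + c * α * φ) * β' -
          (ho q x x - c * α' * α + -d * (β' - c * α' * ψ) * β)) -
          κ * (c * (α * α')) - κ * (d * (β * β')) = κ * (c * d * (α * φ * β')) := by
        rw [hκ]
        linear_combination ((2 * g) ^ 2 * (c * d)) * (-hrel)
      rwa [e1] at h2
    have hn1 : κ * (c * (α * α')) ≠ 0 := mul_ne_zero hκ0 (mul_ne_zero hc (mul_ne_zero hea hae))
    have hn2 : κ * (d * (β * β')) ≠ 0 := mul_ne_zero hκ0 (mul_ne_zero hd (mul_ne_zero heb hbe))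
    have hn3 : κ * (c * d * (α * φ * β')) ≠ 0 :=
      mul_ne_zero hκ0 (mul_ne_zero (mul_ne_zero hc hd) (mul_ne_zero (mul_ne_zero hea hab) hbe))
    obtain ⟨w, hw⟩ := hS e' ⟨he'0, _, hn1, m1⟩
    have s1 : (κ * (c * (α * α'))) ^ 2 = w ^ 2 := by
      rcases hw _ m1 with h | h | h
      · exact absurd h hn1
      · rw [h]
      · rw [h, neg_sq]
    have s2 : (κ * (d * (β * β'))) ^ 2 = w ^ 2 := by
      rcases hw _ m2 with h | h | h
      · exact absurd h hn2
      · rw [h]
      · rw [h, neg_sq]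
    have s3 : (κ * (c * d * (α * φ * β'))) ^ 2 = w ^ 2 := by
      rcases hw _ m3 with h | h | h
      · exact absurd h hn3
      · rw [h]
      · rw [h, neg_sq]
    have hw0 : w ≠ 0 := by
      rintro rfl
      rw [zero_pow two_ne_zero] at s1
      exact pow_ne_zero 2 hn1 s1
    have e0 : (κ * (c * d * (α * φ * β'))) ^ 2 =
        -((κ * (c * (α * α'))) * (κ * (d * (β * β'))) * (c * d * (φ * ψ))) := by
      linear_combination (κ ^ 2 * (c * d) ^ 2 * (α * φ * β')) * hrel
    have e1 : (κ * (c * d * (α * φ * β'))) ^ 2 * (κ * (c * d * (α * φ * β'))) ^ 2 =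
        (κ * (c * (α * α'))) ^ 2 * (κ * (d * (β * β'))) ^ 2 * (c * d * (φ * ψ)) ^ 2 := by
      rw [e0]
      ring
    rw [s1, s2, s3, hγ] at e1
    have e2 : 2 * (w ^ 2 * w ^ 2) = 0 := by linear_combination e1
    rcases mul_eq_zero.1 e2 with h | h
    · exact D.two h
    · rcases mul_eq_zero.1 h with h | h <;> exact pow_ne_zero 2 hw0 h
  · -- `x` not isotropic
    set N := ho q a e * ho q e a with hN
    have hN0 : N ≠ 0 := mul_ne_zero hae hea
    -- the three invariants
    have i1 : (c * g * N) ^ 2 = 1 ∨ (c * g * N) ^ 2 = -1 := hL hc hg ha heH hae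
    have hpm : ho q (x + e') (x - e') = 2 * ν := by
      rw [ho_add_left, ho_sub_right hF, ho_sub_right hF, hxe', he'x, hee']
      ring
    have hmp : ho q (x - e') (x + e') = 2 * ν := by
      rw [ho_sub_left, ho_add_right hF, ho_add_right hF, hxe', he'x, hee']
      ring
    have i2 := hL hg hg hxp hxm (by rw [hpm]; exact mul_ne_zero two hν0)
    rw [hpm, hmp] at i2
    have htm : TM q H (ap (tU q a c) x - e') g := by
      have := D.conj ha.mem hxm
      rwa [ap_sub, hte] at this
    have hpt : ho q (x + e') (ap (tU q a c) x - e') = 2 * ν - c * N := by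
      rw [ho_add_left, ho_sub_right hF, ho_sub_right hF, hxz1, hxz1, hxe', he'x, hee', he'a, hxa, hN]
      ring
    have htp : ho q (ap (tU q a c) x - e') (x + e') = 2 * ν + c * N := by
      rw [ho_sub_left, ho_add_right hF, ho_add_right hF, hxz2, hxz2, hxe', he'x, hee', hae', hax, hN]
      ring
    have i3 : g * g * ((2 * ν - c * N) * (2 * ν + c * N)) = 0 ∨
        (g * g * ((2 * ν - c * N) * (2 * ν + c * N))) ^ 2 = 1 ∨
        (g * g * ((2 * ν - c * N) * (2 * ν + c * N))) ^ 2 = -1 := by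
      by_cases h0 : 2 * ν - c * N = 0
      · left
        rw [h0]
        ring
      · right
        have := hL hg hg hxp htm (by rw [hpt]; exact h0)
        rwa [hpt, htp] at this
    have e3 : g * g * ((2 * ν - c * N) * (2 * ν + c * N)) = g * g * (2 * ν * (2 * ν)) - (c * g * N) ^ 2 := by ring
    rw [e3] at i3
    set R := g * g * (2 * ν * (2 * ν)) with hR
    set M := (c * g * N) ^ 2 with hM
    have five : (5 : F) ≠ 0 := fun h => two (by linear_combination h - h3)
    have hM1 : M ^ 2 = 1 := by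
      rcases i1 with h | h
      · rw [h, one_pow]
      · rw [h, neg_one_sq]
    have hR1 : R ^ 2 = 1 := by
      rcases i2 with h | h
      · exact h
      · exfalso
        have h5 : ∀ ε : F, ε ^ 2 = 1 → (R - M) ^ 2 = ε → False := by
          intro ε hε h5
          have h6 : -2 * R * M = ε := by linear_combination h5 - h - hM1
          have h7 : (-2 * R * M) ^ 2 = 1 := by rw [h6, hε]
          exact five (by linear_combination 4 * M ^ 2 * h - 4 * hM1 - h7)
        rcases i3 with h4 | h4 | h4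
        · exact two (by linear_combination h - (R + M) * h4 - hM1)
        · exact h5 1 (one_pow 2) h4
        · exact h5 (-1) neg_one_sq h4
    have hfin : ∀ r : F, r ^ q = r → (2 * g * ν) ^ 2 = r ^ 2 → False := by
      intro r hr h
      have h4 : (2 * g * ν - r) * (2 * g * ν + r) = 0 := by linear_combination h
      have h5 : (2 * g * ν) ^ q = 2 * g * ν := by
        rcases mul_eq_zero.1 h4 with h6 | h6
        · rw [sub_eq_zero.1 h6, hr]
        · rw [eq_neg_of_add_eq_zero_left h6, neg_pow_q hF, hr]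
      rw [mul_pow, hgq, hνq] at h5
      have h6 : 2 * (2 * g * ν) = 0 := by linear_combination -h5
      exact mul_ne_zero two (mul_ne_zero (mul_ne_zero two hg) hν0) h6
    have h4 : (R - 1) * (R + 1) = 0 := by linear_combination hR1
    rcases mul_eq_zero.1 h4 with h5 | h5
    · exact hfin 1 (one_pow q) (by linear_combination h5)
    · exact hfin _ hlamfix (by rw [hγ]; linear_combination h5)

end Cfsg.Agent.H976.OddM.UnC

private theorem dce_abbc16bc8c0c : _root_.True := by
  try have : _root_.True := by simp only [_root_.Cfsg.Agent.H976.OddM.UnC.sg.eq_1]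
  exact _root_.True.intro
end

-- part: H551/OddUnE
section
prune_inst 0x25606004346200000018809423001c46a6000492004804006ce1024206c10c62e9c02060bb3020135288084568310040005400100240000004200400011e00800081100691480008480096000100000000000000000000000000000000000004000000000
set_option linter.all false
open scoped Cfsg.Agent.FastGrp

/-!
# TEAM ODDM (S4785), part E: unitary transvections, full root groups and a nondegenerate triangle of centres

If every centre has its full root group in `H` and three centres span a nondegenerate 3-space, then all unitary transvections are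
in `H` (`full`).
-/

set_option autoImplicit false
set_option linter.unusedSectionVars false

namespace Cfsg.Agent.H551.OddUnE

open Cfsg Module Cfsg.Agent.LieClassical.HermBasic Cfsg.Agent.ClassicalGeometry.UnitTransv Cfsg.Agent.H453.OddM.Un
open scoped Matrix MatrixGroups

variable {F : Type*} [Field F] [Fintype F] {n q : ℕ}

/-- elementary moves on pairs of scalars -/
theorem pair_moves (hF : Fintype.card F = q ^ 2) {P : F → F → Prop}
    (h1 : ∀ α β k, k ^ q = k → P α β → P (α + k * β) β)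
    (h2 : ∀ α β k, k ^ q = k → P α β → P α (β + k * α))
    {α β α' β' : F} (hD : α * β ^ q - β * α ^ q ≠ 0)
    (hD' : α' * β' ^ q - β' * α' ^ q = α * β ^ q - β * α ^ q) (h : P α β) : P α' β' := by
  have key : ∀ α β p r s t : F, p ^ q = p → s ^ q = s → t ^ q = t → p * t - r * s = 1 → s ≠ 0 → P α β →
     P (p * α + s * β) (r * α + t * β) := by
    intro α β p r s t hp hs ht hdet hs0 h
    have e1 := h2 α β ((p - 1) / s) (by rw [div_pow, sub_pow_q hF, one_pow, hp, hs]) h
    have e2 := h1 _ _ s hs e1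
    have e3 := h2 _ _ ((t - 1) / s) (by rw [div_pow, sub_pow_q hF, one_pow, ht, hs]) e2
    have ha : α + s * (β + (p - 1) / s * α) = p * α + s * β := by
      field_simp
      ring
    have hb : β + (p - 1) / s * α + (t - 1) / s * (p * α + s * β) = r * α + t * β := by
      field_simp
      linear_combination α * hdet
    rw [ha] at e3
    rwa [hb] at e3
  have hDq : (α * β ^ q - β * α ^ q) ^ q = -(α * β ^ q - β * α ^ q) := by
    rw [sub_pow_q hF, mul_pow, mul_pow, pow_q_pow_q hF, pow_q_pow_q hF]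
    ring
  have hrat : ∀ x y : F, ((x * y ^ q - y * x ^ q) / (α * β ^ q - β * α ^ q)) ^ q =
      (x * y ^ q - y * x ^ q) / (α * β ^ q - β * α ^ q) := by
    intro x y
    rw [div_pow, hDq, sub_pow_q hF, mul_pow, mul_pow, pow_q_pow_q hF, pow_q_pow_q hF, div_neg, ← neg_div]
    congr 1
    ring
  obtain ⟨D, hDe⟩ : ∃ D, D = α * β ^ q - β * α ^ q := ⟨_, rfl⟩
  rw [← hDe] at hD hrat
  obtain ⟨p, hp⟩ : ∃ p, p = (α' * β ^ q - β * α' ^ q) / D := ⟨_, rfl⟩
  obtain ⟨s, hs⟩ : ∃ s, s = (α * α' ^ q - α' * α ^ q) / D := ⟨_, rfl⟩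
  obtain ⟨r, hr⟩ : ∃ r, r = (β' * β ^ q - β * β' ^ q) / D := ⟨_, rfl⟩
  obtain ⟨t, ht⟩ : ∃ t, t = (α * β' ^ q - β' * α ^ q) / D := ⟨_, rfl⟩
  have hpq : p ^ q = p := by rw [hp]; exact hrat _ _
  have hsq : s ^ q = s := by rw [hs]; exact hrat _ _
  have hrq : r ^ q = r := by rw [hr]; exact hrat _ _
  have htq : t ^ q = t := by rw [ht]; exact hrat _ _
  rw [eq_div_iff hD] at hp hs hr ht
  have e1 : p * α + s * β = α' := by
    apply mul_right_cancel₀ hD
    linear_combination α * hp + β * hs - α' * hDe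
  have e2 : r * α + t * β = β' := by
    apply mul_right_cancel₀ hD
    linear_combination α * hr + β * ht - β' * hDe
  have hdet : p * t - r * s = 1 := by
    apply mul_right_cancel₀ (mul_ne_zero hD hD)
    have e3 : (p * t - r * s) * (D * D) = (p * D) * (t * D) - (r * D) * (s * D) := by ring
    rw [e3, hp, hs, hr, ht, hDe]
    linear_combination (α * β ^ q - β * α ^ q) * hD'
  by_cases hs0 : s = 0
  · have h0 := h1 α β 1 (one_pow _) h
    have hp0 : p ≠ 0 := by
      rintro rfl
      rw [hs0] at hdet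
      simp at hdet
    have h3 := key (α + 1 * β) β p r (-p) (t - r) hpq (by rw [neg_pow_q hF, hpq]) (by rw [sub_pow_q hF, htq, hrq])
      (by rw [hs0] at hdet; linear_combination hdet) (neg_ne_zero.2 hp0) h0
    have e3 : p * (α + 1 * β) + -p * β = α' := by
      rw [← e1, hs0]
      ring
    have e4 : r * (α + 1 * β) + (t - r) * β = β' := by
      rw [← e2]
      ring
    rwa [e3, e4] at h3
  · have h3 := key α β p r s t hpq hsq htq hdet hs0 h
    rwa [e1, e2] at h3

/-- the abstract situation: the set of centres -/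
structure Ctx (q : ℕ) (Δ : (Fin n → F) → Prop) : Prop where
  card : Fintype.card F = q ^ 2
  two : (2 : F) ≠ 0
  dim : 3 ≤ n
  ne : ∀ {x}, Δ x → x ≠ 0
  iso : ∀ {x}, Δ x → ho q x x = 0
  smul : ∀ {x} {s : F}, Δ x → s ≠ 0 → Δ (s • x)
  mv : ∀ {z y} {c : F}, Δ z → Δ y → c + c ^ q = 0 → Δ (z + (c * ho q z y) • y)
  irr : ∀ W : Submodule F (Fin n → F), (∀ b, Δ b → b ∈ W ∨ ∀ v ∈ W, ho q v b = 0) → W = ⊥ ∨ W = ⊤

theorem ctx_cen {H : Subgroup (GL (Fin n) F)} (D : Dat q H)
    (hall : ∀ x c d, c ≠ 0 → TM q H x c → d + d ^ q = 0 → TM q H x d) : Ctx q (Cen q H) where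
  card := D.card
  two := D.two
  dim := D.dim
  ne := fun h => h.1
  iso := fun h => h.iso
  smul := fun h hs => h.smul D.card hs
  mv := by
    intro z y c hz hy hc
    obtain ⟨hy0, d, hd, hyd⟩ := hy
    have h1 := hall y d c hd hyd hc
    have h2 := hz.conj D.le h1.mem
    rwa [ap_t h1.iso] at h2
  irr := by
    intro W hW
    apply D.irr W
    intro b c hb v hv
    rw [ap_t hb.iso]
    by_cases hc : c = 0
    · rw [hc, zero_mul, zero_smul, add_zero]
      exact hv
    by_cases hb0 : b = 0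
    · rw [hb0, smul_zero, add_zero]
      exact hv
    rcases hW b ⟨hb0, c, hc, hb⟩ with h | h
    · exact W.add_mem hv (W.smul_mem _ h)
    · rw [h v hv, mul_zero, zero_smul, add_zero]
      exact hv

theorem hal (u u' v : Fin n → F) : ho q (u + u') v = ho q u v + ho q u' v := herm_add_left _ _ _

theorem hsl (c : F) (u v : Fin n → F) : ho q (c • u) v = c * ho q u v := herm_smul_left _ _ _

theorem hbl (u u' v : Fin n → F) : ho q (u - u') v = ho q u v - ho q u' v := herm_sub_left _ _ _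

theorem har (hF : Fintype.card F = q ^ 2) (u v v' : Fin n → F) : ho q u (v + v') = ho q u v + ho q u v' :=
  herm_add_right hF _ _ _

theorem hsr (c : F) (u v : Fin n → F) : ho q u (c • v) = c ^ q * ho q u v := herm_smul_right _ _ _

theorem hbr (hF : Fintype.card F = q ^ 2) (u v v' : Fin n → F) : ho q u (v - v') = ho q u v - ho q u v' :=
  herm_sub_right hF _ _ _

/-- the norm of `v + s w` -/
theorem ho_norm_add (hF : Fintype.card F = q ^ 2) (v w : Fin n → F) (s : F) :
    ho q (v + s • w) (v + s • w) = ho q v v + s ^ q * ho q v w + s * ho q w v + s * s ^ q * ho q w w := by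
  rw [hal, har hF, har hF, hsl, hsr, hsl, hsr]
  ring

/-- an element `≠ 0` of trace zero -/
theorem exists_skew (hF : Fintype.card F = q ^ 2) : ∃ i : F, i ≠ 0 ∧ i ^ q = -i := by
  obtain ⟨i, hi0, hi⟩ := exists_trace_zero_ne hF
  exact ⟨i, hi0, by linear_combination hi⟩

section

variable {Δ : (Fin n → F) → Prop}

theorem Ctx.line (C : Ctx q Δ) {x y : Fin n → F} {s : F} (hx : Δ x) (hy : Δ y) (hxy : ho q x y ≠ 0)
    (h : ho q (x + s • y) (x + s • y) = 0) : Δ (x + s • y) := by
  have hyx : ho q y x = ho q x y ^ q := ho_swap C.card x y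
  have hyx0 : ho q y x ≠ 0 := ho_ne_swap C.card hxy
  rw [ho_norm_add C.card, C.iso hx, C.iso hy] at h
  have hc : s / ho q x y + (s / ho q x y) ^ q = 0 := by
    rw [div_pow, ← hyx, div_add_div _ _ hxy hyx0, div_eq_zero_iff]
    left
    linear_combination h
  have h3 := C.mv hx hy hc
  rwa [div_mul_cancel₀ _ hxy] at h3

theorem Ctx.plane0 (C : Ctx q Δ) {x y u : Fin n → F} (hx : Δ x) (hy : Δ y) (hxy : ho q x y ≠ 0)
    (hsk : ho q x y ^ q = -ho q x y) (hux : ho q u x = 0) (huy : ho q u y = 0) {α β α' β' : F}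
    (hn0 : ho q (α • x + β • y) (α • x + β • y) ≠ 0)
    (hn : ho q (α' • x + β' • y) (α' • x + β' • y) = ho q (α • x + β • y) (α • x + β • y))
    (h : Δ (α • x + β • y + u)) : Δ (α' • x + β' • y + u) := by
  have hyx : ho q y x = -ho q x y := by rw [ho_swap C.card x y, hsk]
  have hx0 := C.iso hx
  have hy0 := C.iso hy
  have hnorm : ∀ α β : F, ho q (α • x + β • y) (α • x + β • y) = (α * β ^ q - β * α ^ q) * ho q x y := by
    intro α β
    rw [hal, har C.card, har C.card, hsl, hsl, hsl, hsl, hsr, hsr, hsr, hsr, hx0, hy0, hyx]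
    ring
  rw [hnorm] at hn0 hn
  rw [hnorm] at hn
  have hD := left_ne_zero_of_mul hn0
  have hD' := mul_right_cancel₀ hxy hn
  refine pair_moves C.card (P := fun α β => Δ (α • x + β • y + u)) ?_ ?_ hD hD' h
  · intro α β k hk h
    have h1 : ho q (α • x + β • y + u) x = -β * ho q x y := by
      rw [hal, hal, hsl, hsl, hx0, hux, hyx]
      ring
    have h2 := C.mv h hx (c := -k / ho q x y) (by
      rw [div_pow, neg_pow_q C.card, hk, hsk]
      field_simp
      ring)
    rw [h1] at h2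
    have h3 : (α + k * β) • x + β • y + u = α • x + β • y + u + (-k / ho q x y * (-β * ho q x y)) • x := by
      rw [show -k / ho q x y * (-β * ho q x y) = k * β by field_simp, add_smul]
      abel
    rw [h3]
    exact h2
  · intro α β k hk h
    have h1 : ho q (α • x + β • y + u) y = α * ho q x y := by
      rw [hal, hal, hsl, hsl, hy0, huy]
      ring
    have h2 := C.mv h hy (c := k / ho q x y) (by
      rw [div_pow, hk, hsk]
      field_simp
      ring)
    rw [h1] at h2
    have h3 : α • x + (β + k * α) • y + u = α • x + β • y + u + (k / ho q x y * (α * ho q x y)) • y := by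
      rw [show k / ho q x y * (α * ho q x y) = k * α by field_simp, add_smul]
      abel
    rw [h3]
    exact h2

theorem Ctx.plane (C : Ctx q Δ) {x y u : Fin n → F} (hx : Δ x) (hy : Δ y) (hxy : ho q x y ≠ 0)
    (hux : ho q u x = 0) (huy : ho q u y = 0) {α β α' β' : F}
    (hn0 : ho q (α • x + β • y) (α • x + β • y) ≠ 0)
    (hn : ho q (α' • x + β' • y) (α' • x + β' • y) = ho q (α • x + β • y) (α • x + β • y))
    (h : Δ (α • x + β • y + u)) : Δ (α' • x + β' • y + u) := by
  obtain ⟨i, hi0, hi⟩ := exists_skew C.card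
  have hz0 : (i / ho q x y) ^ q ≠ 0 := pow_ne_zero _ (div_ne_zero hi0 hxy)
  obtain ⟨z, hz⟩ : ∃ z, z = (i / ho q x y) ^ q := ⟨_, rfl⟩
  rw [← hz] at hz0
  have hzq : z ^ q = i / ho q x y := by rw [hz, pow_q_pow_q C.card]
  have hxy' : ho q x (z • y) = i := by rw [hsr, hzq, div_mul_cancel₀ _ hxy]
  have e : ∀ β : F, β • y = (β / z) • z • y := by
    intro β
    rw [smul_smul, div_mul_cancel₀ _ hz0]
  rw [e β, e β'] at hn
  rw [e β] at hn0 h
  rw [e β']
  refine C.plane0 hx (C.smul hy hz0) (by rw [hxy']; exact hi0) (by rw [hxy', hi]) hux ?_ hn0 hn h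
  rw [hsr, huy, mul_zero]

/-- all nonzero isotropic vectors of `W` are centres -/
def Full (q : ℕ) (Δ : (Fin n → F) → Prop) (W : Submodule F (Fin n → F)) : Prop :=
  ∀ v ∈ W, v ≠ 0 → ho q v v = 0 → Δ v

theorem Ctx.nd (C : Ctx q Δ) {W : Submodule F (Fin n → F)} (hW : Full q Δ W) {a b u : Fin n → F} (ha : a ∈ W)
    (hb : b ∈ W) (hu : ∀ w ∈ W, ho q u w = 0) (hν : ho q a a ≠ 0) (hab : ho q b b = ho q a a)
    (hd : ho q a b * ho q b a ≠ ho q a a ^ 2) (h : Δ (a + u)) : Δ (b + u) := by
  have hF := C.card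
  have hνq : ho q a a ^ q = ho q a a := (ho_swap hF a a).symm
  obtain ⟨l, hl⟩ : ∃ l, l = ho q b a / ho q a a := ⟨_, rfl⟩
  obtain ⟨b', hb'⟩ : ∃ b', b' = b - l • a := ⟨_, rfl⟩
  have hba : ho q b a = l * ho q a a := by rw [hl, div_mul_cancel₀ _ hν]
  have h1 : ho q b' a = 0 := by rw [hb', hbl, hsl, hba, sub_self]
  have h1' : ho q a b' = 0 := ho_zero_swap hF h1
  have hba' : ho q a b = l ^ q * ho q a a := by rw [ho_swap hF b a, hba, mul_pow, hνq]
  have hδ : ho q b' b' = ho q a a - l * l ^ q * ho q a a := by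
    have e : ho q b' b' = ho q b' b := by
      have e1 : ho q b' b' = ho q b' (b - l • a) := by rw [← hb']
      rw [e1, hbr hF, hsr, h1, mul_zero, sub_zero]
    rw [e, hb', hbl, hsl, hab, hba']
    ring
  have hδ0 : ho q b' b' ≠ 0 := by
    intro h0
    apply hd
    rw [hba, hba']
    rw [h0] at hδ
    linear_combination (ho q a a) * hδ
  have hδq : ho q b' b' ^ q = ho q b' b' := (ho_swap hF b' b').symm
  obtain ⟨m, hm0, hm⟩ := exists_norm_eq_ne hF (c := -ho q a a / ho q b' b')
    (by rw [div_pow, neg_pow_q hF, hνq, hδq]) (div_ne_zero (neg_ne_zero.2 hν) hδ0)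
  have hm' : m * m ^ q * ho q b' b' = -ho q a a := by rw [hm, div_mul_cancel₀ _ hδ0]
  have hb'W : b' ∈ W := by rw [hb']; exact W.sub_mem hb (W.smul_mem _ ha)
  have hx : ho q (a + m • b') (a + m • b') = 0 := by
    rw [ho_norm_add hF, h1, h1']
    linear_combination hm'
  have hy : ho q (a + (-m) • b') (a + (-m) • b') = 0 := by
    rw [ho_norm_add hF, h1, h1', neg_pow_q hF]
    linear_combination hm'
  have hxa : ho q (a + m • b') a ≠ 0 := by
    rw [hal, hsl, h1, mul_zero, add_zero]
    exact hν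
  have hya : ho q (a + (-m) • b') a ≠ 0 := by
    rw [hal, hsl, h1, mul_zero, add_zero]
    exact hν
  have hxy : ho q (a + m • b') (a + (-m) • b') ≠ 0 := by
    rw [hal, har hF, har hF, hsl, hsl, hsr, hsr, h1, h1', neg_pow_q hF]
    have e : ho q a a + -m ^ q * 0 + (m * 0 + m * (-m ^ q * ho q b' b')) = 2 * ho q a a := by
      linear_combination -hm'
    rw [e]
    exact mul_ne_zero C.two hν
  have hne : ∀ v : Fin n → F, ho q v a ≠ 0 → v ≠ 0 := by
    rintro v hv rfl
    exact hv (herm_zero_left _)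
  have hΔx := hW _ (W.add_mem ha (W.smul_mem m hb'W)) (hne _ hxa) hx
  have hΔy := hW _ (W.add_mem ha (W.smul_mem (-m) hb'W)) (hne _ hya) hy
  have h2 := C.two
  have : NeZero (2 : F) := ⟨C.two⟩
  have ea : a = (1 / 2 : F) • (a + m • b') + (1 / 2 : F) • (a + (-m) • b') := by
    have e : (1 / 2 : F) • (a + m • b') + (1 / 2 : F) • (a + (-m) • b') = (1 / 2 + 1 / 2 : F) • a := by module
    rw [e, add_halves, one_smul]
  have eb : b = (l / 2 + 1 / (2 * m)) • (a + m • b') + (l / 2 - 1 / (2 * m)) • (a + (-m) • b') := by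
    have e : (l / 2 + 1 / (2 * m)) • (a + m • b') + (l / 2 - 1 / (2 * m)) • (a + (-m) • b') =
        (l / 2 + l / 2) • a + (m * (1 / (2 * m)) + m * (1 / (2 * m))) • b' := by module
    have e2 : m * (1 / (2 * m)) + m * (1 / (2 * m)) = 1 := by
      field_simp
      norm_num
    rw [e, e2, one_smul, add_halves, hb']
    abel
  have hu1 : ho q u (a + m • b') = 0 := hu _ (W.add_mem ha (W.smul_mem m hb'W))
  have hu2 : ho q u (a + (-m) • b') = 0 := hu _ (W.add_mem ha (W.smul_mem (-m) hb'W))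
  generalize a + m • b' = x at *
  generalize a + (-m) • b' = y at *
  rw [ea] at hν hab h
  rw [eb] at hab ⊢
  exact C.plane hΔx hΔy hxy hu1 hu2 hν hab h

/-- `V = W + W^⊥` -/
def Spl (q : ℕ) (W : Submodule F (Fin n → F)) : Prop :=
  ∀ v : Fin n → F, ∃ w ∈ W, ∃ u, (∀ w' ∈ W, ho q u w' = 0) ∧ v = w + u

theorem Spl.nd (hF : Fintype.card F = q ^ 2) {W : Submodule F (Fin n → F)} (hW : Spl q W) {w : Fin n → F}
    (hw : w ∈ W) (h : w ≠ 0) : ∃ v ∈ W, ho q w v ≠ 0 := by
  by_contra hcon
  push Not at hcon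
  apply h
  apply herm_nondeg hF
  intro v
  obtain ⟨w', hw', u, hu, rfl⟩ := hW v
  have e : ho q w (w' + u) = 0 := by
    rw [har hF, hcon w' hw', ho_zero_swap hF (hu w hw), add_zero]
  exact e

theorem spl_bot (hF : Fintype.card F = q ^ 2) : Spl q (⊥ : Submodule F (Fin n → F)) := fun v =>
  ⟨0, Submodule.zero_mem _, v, by
    intro w' hw'
    rw [(Submodule.mem_bot F).1 hw']
    exact herm_zero_right hF _, by rw [zero_add]⟩

theorem Spl.step (hF : Fintype.card F = q ^ 2) {W : Submodule F (Fin n → F)} (hW : Spl q W) {u : Fin n → F}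
    (hu : ∀ w ∈ W, ho q u w = 0) (hu0 : ho q u u ≠ 0) : Spl q (W ⊔ Submodule.span F {u}) := by
  intro v
  obtain ⟨w, hw, v', hv', rfl⟩ := hW v
  refine ⟨w + (ho q v' u / ho q u u) • u, Submodule.add_mem_sup hw
    (Submodule.smul_mem _ _ (Submodule.mem_span_singleton_self u)), v' - (ho q v' u / ho q u u) • u, ?_, by abel⟩
  intro x hx
  obtain ⟨w', hw', y, hy, rfl⟩ := Submodule.mem_sup.1 hx
  obtain ⟨c, rfl⟩ := Submodule.mem_span_singleton.1 hy
  rw [hbl, hsl, har hF, har hF, hsr, hsr, hv' w' hw', hu w' hw']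
  field_simp
  ring

theorem spl_single (hF : Fintype.card F = q ^ 2) {a : Fin n → F} (ha : ho q a a ≠ 0) :
    Spl q (Submodule.span F {a}) := by
  have h := (spl_bot (n := n) hF).step hF (u := a) (by
    intro w hw
    rw [(Submodule.mem_bot F).1 hw]
    exact herm_zero_right hF _) ha
  rwa [bot_sup_eq] at h

theorem spl_pair (hF : Fintype.card F = q ^ 2) {x y : Fin n → F} (hx : ho q x x = 0) (hy : ho q y y = 0)
    (hxy : ho q x y ≠ 0) : Spl q (Submodule.span F {x} ⊔ Submodule.span F {y}) := by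
  have hyx := ho_ne_swap hF hxy
  intro v
  refine ⟨(ho q v y / ho q x y) • x + (ho q v x / ho q y x) • y, Submodule.add_mem_sup
    (Submodule.smul_mem _ _ (Submodule.mem_span_singleton_self x))
    (Submodule.smul_mem _ _ (Submodule.mem_span_singleton_self y)),
    v - ((ho q v y / ho q x y) • x + (ho q v x / ho q y x) • y), ?_, by abel⟩
  intro z hz
  obtain ⟨x', hx', y', hy', rfl⟩ := Submodule.mem_sup.1 hz
  obtain ⟨c, rfl⟩ := Submodule.mem_span_singleton.1 hx'
  obtain ⟨d, rfl⟩ := Submodule.mem_span_singleton.1 hy'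
  rw [hbl, hal, hsl, hsl, har hF, har hF, har hF, hsr, hsr, hsr, hsr, hsr, hsr, hx, hy]
  field_simp
  ring

theorem exists_noniso (hF : Fintype.card F = q ^ 2) (h2 : (2 : F) ≠ 0) {f g : Fin n → F} (h : ho q f g ≠ 0) :
    ∃ a b : F, ho q (a • f + b • g) (a • f + b • g) ≠ 0 := by
  by_contra hcon
  push Not at hcon
  have h1 := hcon 1 0
  have h3 := hcon 0 1
  have h4 := hcon 1 ((1 / ho q f g) ^ q)
  rw [one_smul, zero_smul, add_zero] at h1
  rw [one_smul, zero_smul, zero_add] at h3
  rw [one_smul, ho_norm_add hF, h1, h3, pow_q_pow_q hF, ho_swap hF f g, div_pow, one_pow,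
    one_div_mul_cancel h, one_div_mul_cancel (pow_ne_zero q h)] at h4
  apply h2
  linear_combination h4

theorem exists_perp_noniso (hF : Fintype.card F = q ^ 2) (h2 : (2 : F) ≠ 0) {P W : Submodule F (Fin n → F)}
    (hP : Spl q P) (hW : Spl q W) (hPW : P < W) : ∃ g ∈ W, (∀ p ∈ P, ho q g p = 0) ∧ ho q g g ≠ 0 := by
  obtain ⟨v, hvW, hvP⟩ := SetLike.exists_of_lt hPW
  obtain ⟨p, hp, v', hv', rfl⟩ := hP v
  have hv'W : v' ∈ W := by
    have h := W.sub_mem hvW (hPW.le hp)
    rwa [add_sub_cancel_left] at h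
  have hv0 : v' ≠ 0 := by
    rintro rfl
    rw [add_zero] at hvP
    exact hvP hp
  obtain ⟨x, hxW, hx⟩ := hW.nd hF hv'W hv0
  obtain ⟨p', hp', x', hx', rfl⟩ := hP x
  have hx'W : x' ∈ W := by
    have h := W.sub_mem hxW (hPW.le hp')
    rwa [add_sub_cancel_left] at h
  rw [har hF, hv' p' hp', zero_add] at hx
  obtain ⟨a, b, hab⟩ := exists_noniso hF h2 hx
  refine ⟨a • v' + b • x', W.add_mem (W.smul_mem a hv'W) (W.smul_mem b hx'W), ?_, hab⟩
  intro p hp
  rw [hal, hsl, hsl, hv' p hp, hx' p hp, mul_zero, mul_zero, add_zero]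

theorem span_single_lt {W : Submodule F (Fin n → F)} (h3 : 3 ≤ finrank F W) {a : Fin n → F} (ha : a ∈ W) :
    Submodule.span F {a} < W := by
  refine lt_of_le_of_ne ((Submodule.span_singleton_le_iff_mem a W).2 ha) ?_
  rintro rfl
  have h := finrank_span_le_card (R := F) ({a} : Set (Fin n → F))
  rw [Set.toFinset_singleton, Finset.card_singleton] at h
  omega

theorem span_pair_lt {W : Submodule F (Fin n → F)} (h3 : 3 ≤ finrank F W) {x y : Fin n → F} (hx : x ∈ W)
    (hy : y ∈ W) : Submodule.span F {x} ⊔ Submodule.span F {y} < W := by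
  refine lt_of_le_of_ne (sup_le ((Submodule.span_singleton_le_iff_mem x W).2 hx)
    ((Submodule.span_singleton_le_iff_mem y W).2 hy)) ?_
  rintro rfl
  have h := finrank_span_le_card (R := F) ({x} : Set (Fin n → F))
  have h' := finrank_span_le_card (R := F) ({y} : Set (Fin n → F))
  rw [Set.toFinset_singleton, Finset.card_singleton] at h h'
  have h4 := Submodule.finrank_add_le_finrank_add_finrank (Submodule.span F {x}) (Submodule.span F {y})
  omega

/-- transitivity on the vectors of a given nonzero norm -/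
theorem Ctx.trN (C : Ctx q Δ) {W : Submodule F (Fin n → F)} (hS : Spl q W) (h3 : 3 ≤ finrank F W)
    (hW : Full q Δ W) {a b u : Fin n → F} (ha : a ∈ W)
    (hb : b ∈ W) (hu : ∀ w ∈ W, ho q u w = 0) (hν : ho q a a ≠ 0) (hab : ho q b b = ho q a a)
    (h : Δ (a + u)) : Δ (b + u) := by
  have hF := C.card
  by_cases hd : ho q a b * ho q b a = ho q a a ^ 2
  swap
  · exact C.nd hW ha hb hu hν hab hd h
  have hνq : ho q a a ^ q = ho q a a := (ho_swap hF a a).symm
  obtain ⟨c, hcW, hcc, hac, hcb⟩ : ∃ c ∈ W, ho q c c = ho q a a ∧ ho q a c = 0 ∧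
      ho q c b * ho q b c ≠ ho q a a ^ 2 := by
    obtain ⟨g, hgW, hga, hg0⟩ := exists_perp_noniso hF C.two (spl_single hF hν) hS (span_single_lt h3 ha)
    have hga := hga a (Submodule.mem_span_singleton_self a)
    have hgq : ho q g g ^ q = ho q g g := (ho_swap hF g g).symm
    obtain ⟨m, hm0, hm⟩ := exists_norm_eq_ne hF (c := ho q a a / ho q g g) (by rw [div_pow, hνq, hgq])
      (div_ne_zero hν hg0)
    obtain ⟨c0, hc0⟩ : ∃ c0, c0 = m • g := ⟨_, rfl⟩
    have hc0W : c0 ∈ W := by rw [hc0]; exact W.smul_mem m hgW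
    have hc0c : ho q c0 c0 = ho q a a := by
      rw [hc0, hsl, hsr, ← mul_assoc, hm, div_mul_cancel₀ _ hg0]
    have hc0a : ho q c0 a = 0 := by rw [hc0, hsl, hga, mul_zero]
    have hac0 : ho q a c0 = 0 := ho_zero_swap hF hc0a
    by_cases h4 : ho q c0 b * ho q b c0 = ho q a a ^ 2
    swap
    · exact ⟨c0, hc0W, hc0c, hac0, h4⟩
    have he0 : ho q b c0 ≠ 0 := by
      intro h0
      rw [h0, mul_zero] at h4
      exact pow_ne_zero 2 hν h4.symm
    have hcb0 : ho q c0 b = ho q b c0 ^ q := ho_swap hF b c0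
    obtain ⟨l, hl⟩ : ∃ l, l = ho q b a / ho q a a := ⟨_, rfl⟩
    obtain ⟨b', hb'⟩ : ∃ b', b' = b - l • a := ⟨_, rfl⟩
    have hba : ho q b a = l * ho q a a := by rw [hl, div_mul_cancel₀ _ hν]
    have hab1 : ho q a b = l ^ q * ho q a a := by rw [ho_swap hF b a, hba, mul_pow, hνq]
    have hb'a : ho q b' a = 0 := by rw [hb', hbl, hsl, hba, sub_self]
    have hab' : ho q a b' = 0 := ho_zero_swap hF hb'a
    have hb'W : b' ∈ W := by rw [hb']; exact W.sub_mem hb (W.smul_mem _ ha)
    have hb'c : ho q b' c0 = ho q b c0 := by rw [hb', hbl, hsl, hac0, mul_zero, sub_zero]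
    have hcb' : ho q c0 b' = ho q b c0 ^ q := by rw [ho_swap hF b' c0, hb'c]
    have hll : l * l ^ q = 1 := by
      have h5 : (l * l ^ q) * ho q a a ^ 2 = 1 * ho q a a ^ 2 := by
        rw [hba, hab1] at hd
        linear_combination hd
      exact mul_right_cancel₀ (pow_ne_zero 2 hν) h5
    have hbb' : ho q b b' = 0 := by
      rw [hb', hbr hF, hsr, hab, hba]
      linear_combination -(ho q a a) * hll
    have hb'b' : ho q b' b' = 0 := by
      have e1 : ho q b' b' = ho q (b - l • a) b' := by rw [← hb']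
      rw [e1, hbl, hsl, hbb', hab', mul_zero, sub_zero]
    obtain ⟨k, hk0, hk⟩ := exists_norm_eq_ne hF (c := (-1 : F)) (by rw [neg_pow_q hF, one_pow])
      (neg_ne_zero.2 one_ne_zero)
    have hkq0 : k ^ q ≠ 0 := pow_ne_zero _ hk0
    have heq0 : ho q b c0 ^ q ≠ 0 := pow_ne_zero _ he0
    obtain ⟨r, hr⟩ : ∃ r, r = ho q a a / (k ^ q * ho q b c0) := ⟨_, rfl⟩
    have hrq : r ^ q = ho q a a / (k * ho q b c0 ^ q) := by
      rw [hr, div_pow, mul_pow, pow_q_pow_q hF, hνq]
    have e1 : r * (k ^ q * ho q b c0) = ho q a a := by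
      rw [hr, div_mul_cancel₀ _ (mul_ne_zero hkq0 he0)]
    have e2 : r ^ q * (k * ho q b c0 ^ q) = ho q a a := by
      rw [hrq, div_mul_cancel₀ _ (mul_ne_zero hk0 heq0)]
    refine ⟨k • c0 + r • b', W.add_mem (W.smul_mem k hc0W) (W.smul_mem r hb'W), ?_, ?_, ?_⟩
    · rw [hal, har hF, har hF, hsl, hsl, hsl, hsl, hsr, hsr, hsr, hsr, hc0c, hcb', hb'c, hb'b']
      linear_combination (ho q a a) * hk + e1 + e2
    · rw [har hF, hsr, hsr, hac0, hab', mul_zero, mul_zero, add_zero]
    · have e3 : ho q b (k • c0 + r • b') = k ^ q * ho q b c0 := by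
        rw [har hF, hsr, hsr, hbb', mul_zero, add_zero]
      have e4 : ho q (k • c0 + r • b') b = k * ho q b c0 ^ q := by
        rw [ho_swap hF b, e3, mul_pow, pow_q_pow_q hF]
      rw [e3, e4]
      intro h5
      rw [hcb0] at h4
      have h6 : (2 : F) * ho q a a ^ 2 = 0 := by
        linear_combination (ho q b c0 ^ q * ho q b c0) * hk - h4 - h5
      exact mul_ne_zero C.two (pow_ne_zero 2 hν) h6
  have h5 := C.nd hW ha hcW hu hν hcc (by rw [hac, zero_mul]; exact (pow_ne_zero 2 hν).symm) h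
  exact C.nd hW hcW hb hu (by rw [hcc]; exact hν) (by rw [hab, hcc]) (by rw [hcc]; exact hcb) h5

theorem Ctx.mvI (C : Ctx q Δ) {W : Submodule F (Fin n → F)} (hW : Full q Δ W) {w y u : Fin n → F} (hw : w ∈ W)
    (hy : y ∈ W) (hu : ∀ w ∈ W, ho q u w = 0) (hww : ho q w w = 0) (hyy : ho q y y = 0) (h0 : ho q w y ≠ 0)
    (hsk : ho q w y ^ q = -ho q w y) (h : Δ (w + u)) : Δ (y + u) := by
  have hF := C.card
  have hyw : ho q y w = -ho q w y := by rw [ho_swap hF w y, hsk]
  have hx : ho q (y - w) (y - w) = 0 := by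
    rw [hbl, hbr hF, hbr hF, hww, hyy, hyw]
    ring
  have hwx : ho q w (y - w) = ho q w y := by rw [hbr hF, hww, sub_zero]
  have hx0 : y - w ≠ 0 := by
    intro h1
    rw [h1] at hwx
    exact h0 (hwx.symm.trans (herm_zero_right hF _))
  have hΔ := hW _ (W.sub_mem hy hw) hx0 hx
  have h1 := C.mv h hΔ (c := 1 / ho q w y) (by
    rw [div_pow, one_pow, hsk]
    field_simp
    ring)
  have h2 : ho q (w + u) (y - w) = ho q w y := by
    rw [hal, hwx, hu _ (W.sub_mem hy hw), add_zero]
  rw [h2, one_div_mul_cancel h0, one_smul] at h1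
  rwa [show w + u + (y - w) = y + u by abel] at h1

theorem Ctx.iso1 (C : Ctx q Δ) {W : Submodule F (Fin n → F)} (hS : Spl q W) (h3 : 3 ≤ finrank F W)
    (hW : Full q Δ W) {a b u : Fin n → F} (ha : a ∈ W)
    (hb : b ∈ W) (hu : ∀ w ∈ W, ho q u w = 0) (haa : ho q a a = 0) (hbb : ho q b b = 0) (hab : ho q a b ≠ 0)
    (h : Δ (a + u)) : Δ (b + u) := by
  have hF := C.card
  obtain ⟨i, hi0, hi⟩ := exists_skew hF
  obtain ⟨g, hgW, hg, hgg⟩ := exists_perp_noniso hF C.two (spl_pair hF haa hbb hab) hS (span_pair_lt h3 ha hb)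
  have hga : ho q g a = 0 := hg a (Submodule.mem_sup_left (Submodule.mem_span_singleton_self a))
  have hgb : ho q g b = 0 := hg b (Submodule.mem_sup_right (Submodule.mem_span_singleton_self b))
  have hag := ho_zero_swap hF hga
  have hbg := ho_zero_swap hF hgb
  have hgq : ho q g g ^ q = ho q g g := (ho_swap hF g g).symm
  have hba : ho q b a = ho q a b ^ q := ho_swap hF a b
  have hba0 : ho q b a ≠ 0 := ho_ne_swap hF hab
  have habq : ho q b a ^ q = ho q a b := (ho_swap hF b a).symm
  obtain ⟨m, hm⟩ := exists_norm_eq hF (c := i * i * (1 / ho q a b + 1 / ho q b a) / ho q g g) (by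
    rw [div_pow, mul_pow, mul_pow, hi, hgq, add_pow_q hF, div_pow, div_pow, one_pow, habq, ← hba]
    ring)
  have hm' : m * m ^ q * ho q g g = i * i * (1 / ho q a b + 1 / ho q b a) := by
    rw [hm, div_mul_cancel₀ _ hgg]
  obtain ⟨y, hy⟩ : ∃ y, y = (i / ho q a b) • a + (i / ho q b a) • b + m • g := ⟨_, rfl⟩
  have hyW : y ∈ W := by
    rw [hy]
    exact W.add_mem (W.add_mem (W.smul_mem _ ha) (W.smul_mem _ hb)) (W.smul_mem _ hgW)
  have hya : ho q y a = i := by
    rw [hy, hal, hal, hsl, hsl, hsl, haa, hga]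
    field_simp
    ring
  have hyb : ho q y b = i := by
    rw [hy, hal, hal, hsl, hsl, hsl, hbb, hgb]
    field_simp
    ring
  have hyg : ho q y g = m * ho q g g := by
    rw [hy, hal, hal, hsl, hsl, hsl, hag, hbg]
    ring
  have hyy : ho q y y = 0 := by
    have e1 : ho q y y = ho q y ((i / ho q a b) • a + (i / ho q b a) • b + m • g) := by rw [← hy]
    rw [e1, har hF, har hF, hsr, hsr, hsr, hya, hyb, hyg, div_pow, div_pow, hi, habq, ← hba]
    linear_combination hm'
  have hay : ho q a y = -i := by rw [ho_swap hF y a, hya, hi]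
  have h1 := C.mvI hW ha hyW hu haa hyy (by rw [hay]; exact neg_ne_zero.2 hi0) (by rw [hay, neg_pow_q hF, hi]) h
  exact C.mvI hW hyW hb hu hyy hbb (by rw [hyb]; exact hi0) (by rw [hyb, hi]) h1

theorem exists_iso (hF : Fintype.card F = q ^ 2) (h2 : (2 : F) ≠ 0) {W : Submodule F (Fin n → F)} (hS : Spl q W)
    {a : Fin n → F} (ha : a ∈ W) (ha0 : a ≠ 0) (haa : ho q a a = 0) :
    ∃ x ∈ W, ho q x x = 0 ∧ ho q a x ≠ 0 := by
  obtain ⟨v, hv, hav⟩ := hS.nd hF ha ha0
  have hva : ho q v a ≠ 0 := ho_ne_swap hF hav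
  have hvq : ho q v v ^ q = ho q v v := (ho_swap hF v v).symm
  obtain ⟨s, hs⟩ : ∃ s, s = -ho q v v / (2 * ho q a v) := ⟨_, rfl⟩
  have h2q : (2 : F) ^ q = 2 := by
    have h := add_pow_q hF (1 : F) 1
    rw [one_pow, one_add_one_eq_two] at h
    exact h
  have hsq : s ^ q = -ho q v v / (2 * ho q v a) := by
    rw [hs, div_pow, neg_pow_q hF, hvq, mul_pow, h2q, ← ho_swap hF a v]
  refine ⟨v + s • a, W.add_mem hv (W.smul_mem s ha), ?_, ?_⟩
  · rw [ho_norm_add hF, haa, hsq, hs]
    field_simp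
    ring
  · rw [har hF, hsr, haa, mul_zero, add_zero]
    exact hav

theorem exists_common (hF : Fintype.card F = q ^ 2) (h2 : (2 : F) ≠ 0) {W : Submodule F (Fin n → F)} (hS : Spl q W)
    {a b : Fin n → F} (ha : a ∈ W) (ha0 : a ≠ 0) (haa : ho q a a = 0) (hb : b ∈ W) (hb0 : b ≠ 0)
    (hbb : ho q b b = 0) : ∃ x ∈ W, ho q x x = 0 ∧ ho q a x ≠ 0 ∧ ho q b x ≠ 0 := by
  obtain ⟨x, hxW, hxx, hax⟩ := exists_iso hF h2 hS ha ha0 haa
  obtain ⟨y, hyW, hyy, hby⟩ := exists_iso hF h2 hS hb hb0 hbb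
  by_cases hbx : ho q b x = 0
  swap
  · exact ⟨x, hxW, hxx, hax, hbx⟩
  by_cases hay : ho q a y = 0
  swap
  · exact ⟨y, hyW, hyy, hay, hby⟩
  obtain ⟨s, hs0, hs⟩ : ∃ s : F, s ≠ 0 ∧ s * ho q y x + s ^ q * ho q x y = 0 := by
    by_cases hxy : ho q x y = 0
    · exact ⟨1, one_ne_zero, by rw [hxy, ho_zero_swap hF hxy, mul_zero, mul_zero, add_zero]⟩
    · obtain ⟨i, hi0, hi⟩ := exists_skew hF
      have hyx : ho q y x ≠ 0 := ho_ne_swap hF hxy
      refine ⟨i / ho q y x, div_ne_zero hi0 hyx, ?_⟩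
      rw [div_pow, hi, ← ho_swap hF y x]
      field_simp
      ring
  refine ⟨x + s • y, W.add_mem hxW (W.smul_mem s hyW), ?_, ?_, ?_⟩
  · rw [ho_norm_add hF, hxx, hyy]
    linear_combination hs
  · rw [har hF, hsr, hay, mul_zero, add_zero]
    exact hax
  · rw [har hF, hsr, hbx, zero_add]
    exact mul_ne_zero (pow_ne_zero _ hs0) hby

/-- transitivity on the nonzero isotropic vectors -/
theorem Ctx.trI (C : Ctx q Δ) {W : Submodule F (Fin n → F)} (hS : Spl q W) (h3 : 3 ≤ finrank F W)
    (hW : Full q Δ W) {a b u : Fin n → F} (ha : a ∈ W) (ha0 : a ≠ 0)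
    (hb : b ∈ W) (hb0 : b ≠ 0) (hu : ∀ w ∈ W, ho q u w = 0) (haa : ho q a a = 0) (hbb : ho q b b = 0)
    (h : Δ (a + u)) : Δ (b + u) := by
  have hF := C.card
  obtain ⟨x, hxW, hxx, hax, hbx⟩ := exists_common hF C.two hS ha ha0 haa hb hb0 hbb
  exact C.iso1 hS h3 hW hxW hb hu hxx hbb (ho_ne_swap hF hbx) (C.iso1 hS h3 hW ha hxW hu haa hxx hax h)

/-- there is a centre whose component orthogonal to `W` is not isotropic -/
theorem Ctx.exists_up (C : Ctx q Δ) {W : Submodule F (Fin n → F)} (hS : Spl q W) (h3 : 3 ≤ finrank F W)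
    (hW : Full q Δ W) (hT : W ≠ ⊤) : ∃ w ∈ W, ∃ u, (∀ w ∈ W, ho q u w = 0) ∧ Δ (w + u) ∧ ho q u u ≠ 0 := by
  have hF := C.card
  by_contra hcon
  have hnon : ∀ w ∈ W, ∀ u, (∀ w ∈ W, ho q u w = 0) → Δ (w + u) → ho q u u = 0 := by
    intro w hw u hu h
    by_contra h0
    exact hcon ⟨w, hw, u, hu, h, h0⟩
  have hnon' : ∀ w ∈ W, ∀ u, (∀ w ∈ W, ho q u w = 0) → Δ (w + u) → ho q w w = 0 := by
    intro w hw u hu h
    have h1 := C.iso h
    rw [hal, har hF, har hF, hu w hw, ho_zero_swap hF (hu w hw), hnon w hw u hu h] at h1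
    linear_combination h1
  have hbot : W ≠ ⊥ := by
    rintro rfl
    rw [finrank_bot] at h3
    omega
  -- a centre `w1 + u1` with both components nonzero
  obtain ⟨w1, hw1, u1, hu1, hΔ1, hw10, hu10⟩ : ∃ w1 ∈ W, ∃ u1, (∀ w ∈ W, ho q u1 w = 0) ∧ Δ (w1 + u1) ∧ w1 ≠ 0 ∧
      u1 ≠ 0 := by
    by_contra hcon1
    rcases C.irr W (by
      intro b hb
      by_contra hcon2
      push Not at hcon2
      obtain ⟨hbW, v, hv, hvb⟩ := hcon2
      obtain ⟨w, hw, u, hu, rfl⟩ := hS b
      refine hcon1 ⟨w, hw, u, hu, hb, ?_, ?_⟩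
      · rintro rfl
        apply hvb
        rw [zero_add]
        exact ho_zero_swap hF (hu v hv)
      · rintro rfl
        rw [add_zero] at hbW
        exact hbW hw) with h | h
    · exact hbot h
    · exact hT h
  have hw11 := hnon' w1 hw1 u1 hu1 hΔ1
  have hu11 := hnon w1 hw1 u1 hu1 hΔ1
  -- a centre not orthogonal to `u1`
  obtain ⟨b, hb, hub⟩ : ∃ b, Δ b ∧ ho q b u1 ≠ 0 := by
    by_contra hcon1
    push Not at hcon1
    rcases C.irr (Submodule.span F {u1}) (by
      intro b hb
      right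
      intro v hv
      obtain ⟨c, rfl⟩ := Submodule.mem_span_singleton.1 hv
      rw [hsl, ho_zero_swap hF (hcon1 b hb), mul_zero]) with h | h
    · exact hu10 ((Submodule.span_singleton_eq_bot (R := F)).1 h)
    · have h4 := finrank_span_le_card (R := F) ({u1} : Set (Fin n → F))
      rw [h, finrank_top, Module.finrank_fin_fun, Set.toFinset_singleton, Finset.card_singleton] at h4
      have := C.dim
      omega
  obtain ⟨i, hi0, hi⟩ := exists_skew hF
  -- a centre `w2 + u2`, `w2 ≠ 0`, `u2` not orthogonal to `u1`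
  obtain ⟨w2, hw2, u2, hu2, hΔ2, hw20, hB⟩ : ∃ w2 ∈ W, ∃ u2, (∀ w ∈ W, ho q u2 w = 0) ∧ Δ (w2 + u2) ∧ w2 ≠ 0 ∧
      ho q u2 u1 ≠ 0 := by
    obtain ⟨w2, hw2, u2, hu2, rfl⟩ := hS b
    rw [hal, ho_zero_swap hF (hu1 w2 hw2), zero_add] at hub
    by_cases hw20 : w2 = 0
    swap
    · exact ⟨w2, hw2, u2, hu2, hb, hw20, hub⟩
    have h1 := C.mv hb hΔ1 (c := i) (by rw [hi, add_neg_cancel])
    have h2 : ho q (w2 + u2) (w1 + u1) = ho q u2 u1 := by
      rw [hw20, zero_add, har hF, hu2 w1 hw1, zero_add]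
    rw [h2] at h1
    refine ⟨(i * ho q u2 u1) • w1, W.smul_mem _ hw1, u2 + (i * ho q u2 u1) • u1, ?_, ?_,
      smul_ne_zero (mul_ne_zero hi0 hub) hw10, ?_⟩
    · intro w hw
      rw [hal, hsl, hu2 w hw, hu1 w hw, mul_zero, add_zero]
    · rw [hw20, zero_add, smul_add] at h1
      rwa [add_left_comm] at h1
    · rw [hal, hsl, hu11, mul_zero, add_zero]
      exact hub
  have hw22 := hnon' w2 hw2 u2 hu2 hΔ2
  have hu22 := hnon w2 hw2 u2 hu2 hΔ2
  -- `w` isotropic in `W` with `h(w2, w) = (i - 1) B`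
  obtain ⟨x, hxW, hxx, hwx⟩ := exists_iso hF C.two hS hw2 hw20 hw22
  have hi1 : i - 1 ≠ 0 := by
    intro h
    have h1 : i = 1 := by linear_combination h
    rw [h1, one_pow] at hi
    apply C.two
    linear_combination hi
  obtain ⟨z, hz⟩ : ∃ z, z = ((i - 1) * ho q u2 u1 / ho q w2 x) ^ q := ⟨_, rfl⟩
  have hz0 : z ≠ 0 := by
    rw [hz]
    exact pow_ne_zero _ (div_ne_zero (mul_ne_zero hi1 hB) hwx)
  have hzq : z ^ q = (i - 1) * ho q u2 u1 / ho q w2 x := by rw [hz, pow_q_pow_q hF]
  have hx0 : x ≠ 0 := by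
    rintro rfl
    exact hwx (herm_zero_right hF _)
  have hww : ho q w2 (z • x) = (i - 1) * ho q u2 u1 := by rw [hsr, hzq, div_mul_cancel₀ _ hwx]
  have hzz : ho q (z • x) (z • x) = 0 := by rw [hsl, hsr, hxx, mul_zero, mul_zero]
  have hzW : z • x ∈ W := W.smul_mem z hxW
  have h1 := C.trI hS h3 hW hw1 hw10 hzW (smul_ne_zero hz0 hx0) hu1 hw11 hzz hΔ1
  have h2 : ho q (w2 + u2) (z • x + u1) = i * ho q u2 u1 := by
    rw [hal, har hF, har hF, hww, hu2 _ hzW, ho_zero_swap hF (hu1 w2 hw2)]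
    ring
  have hBs : ho q u1 u2 = ho q u2 u1 ^ q := ho_swap hF u2 u1
  have hBq : ho q u2 u1 ^ q ≠ 0 := pow_ne_zero _ hB
  have h4 := C.mv hΔ2 h1 (c := 1 / (i * ho q u2 u1 * ho q u2 u1 ^ q)) (by
    rw [div_pow, one_pow, mul_pow, mul_pow, pow_q_pow_q hF, hi]
    field_simp
    ring)
  have h5 : 1 / (i * ho q u2 u1 * ho q u2 u1 ^ q) * (i * ho q u2 u1) = 1 / ho q u2 u1 ^ q := by
    field_simp
  rw [h2, h5] at h4
  have h6 := hnon (w2 + (1 / ho q u2 u1 ^ q) • z • x) (W.add_mem hw2 (W.smul_mem _ hzW))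
    (u2 + (1 / ho q u2 u1 ^ q) • u1) (by
      intro w hw
      rw [hal, hsl, hu2 w hw, hu1 w hw, mul_zero, add_zero]) (by
      rw [smul_add] at h4
      rw [add_add_add_comm] at h4
      exact h4)
  rw [ho_norm_add hF, hu22, hu11, hBs, div_pow, one_pow, pow_q_pow_q hF] at h6
  rw [one_div_mul_cancel hB, one_div_mul_cancel hBq] at h6
  apply C.two
  linear_combination h6

/-- from `W` to `W + <u>` -/
theorem full_step (C : Ctx q Δ) {W : Submodule F (Fin n → F)} (hW : Full q Δ W) {w u : Fin n → F} (hw : w ∈ W)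
    (hu : ∀ w ∈ W, ho q u w = 0) (h : Δ (w + u))
    (ht : ∀ b ∈ W, ho q b b = ho q w w → Δ (b + u)) : Full q Δ (W ⊔ Submodule.span F {u}) := by
  have hF := C.card
  have hn : ho q w w = -ho q u u := by
    have h1 := C.iso h
    rw [hal, har hF, har hF, hu w hw, ho_zero_swap hF (hu w hw)] at h1
    linear_combination h1
  intro v hv hv0 hvv
  obtain ⟨b, hb, y, hy, rfl⟩ := Submodule.mem_sup.1 hv
  obtain ⟨c, rfl⟩ := Submodule.mem_span_singleton.1 hy
  by_cases hc : c = 0
  · rw [hc, zero_smul, add_zero] at hv0 hvv ⊢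
    exact hW b hb hv0 hvv
  · have hcq : c ^ q ≠ 0 := pow_ne_zero _ hc
    rw [ho_norm_add hF, hu b hb, ho_zero_swap hF (hu b hb)] at hvv
    have h1 := ht (c⁻¹ • b) (W.smul_mem _ hb) (by
      rw [hsl, hsr, hn, inv_pow]
      field_simp
      linear_combination hvv)
    have h2 := C.smul h1 hc
    rwa [smul_add, smul_smul, mul_inv_cancel₀ hc, one_smul] at h2

theorem lt_sup_span {W : Submodule F (Fin n → F)} {u : Fin n → F}
    (hu : ∀ w ∈ W, ho q u w = 0) (huu : ho q u u ≠ 0) : W < W ⊔ Submodule.span F {u} := by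
  refine lt_of_le_of_ne le_sup_left ?_
  intro h
  apply huu
  apply hu
  rw [h]
  exact Submodule.mem_sup_right (Submodule.mem_span_singleton_self u)

/-- the span of a nondegenerate triangle -/
theorem Ctx.base (C : Ctx q Δ) {x y z : Fin n → F} (hx : Δ x) (hy : Δ y) (hz : Δ z)
    (hdet : ho q x y * ho q y z * ho q z x + ho q x z * ho q z y * ho q y x ≠ 0) :
    ∃ W : Submodule F (Fin n → F), Spl q W ∧ 3 ≤ finrank F W ∧ Full q Δ W := by
  have hF := C.card
  have hxy : ho q x y ≠ 0 := by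
    intro h0
    apply hdet
    rw [h0, ho_zero_swap hF h0]
    ring
  have hyx : ho q y x ≠ 0 := ho_ne_swap hF hxy
  have hxx := C.iso hx
  have hyy := C.iso hy
  obtain ⟨P, hP⟩ : ∃ P, P = Submodule.span F {x} ⊔ Submodule.span F {y} := ⟨_, rfl⟩
  have hmem : ∀ v, v ∈ P ↔ ∃ α β : F, v = α • x + β • y := by
    intro v
    rw [hP, Submodule.mem_sup]
    constructor
    · rintro ⟨x', hx', y', hy', rfl⟩
      obtain ⟨c, rfl⟩ := Submodule.mem_span_singleton.1 hx'
      obtain ⟨d, rfl⟩ := Submodule.mem_span_singleton.1 hy'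
      exact ⟨c, d, rfl⟩
    · rintro ⟨c, d, rfl⟩
      exact ⟨c • x, Submodule.smul_mem _ _ (Submodule.mem_span_singleton_self x), d • y,
        Submodule.smul_mem _ _ (Submodule.mem_span_singleton_self y), rfl⟩
  have hxP : x ∈ P := (hmem x).2 ⟨1, 0, by rw [one_smul, zero_smul, add_zero]⟩
  have hyP : y ∈ P := (hmem y).2 ⟨0, 1, by rw [one_smul, zero_smul, zero_add]⟩
  have hSP : Spl q P := by rw [hP]; exact spl_pair hF hxx hyy hxy
  have hPf : Full q Δ P := by
    intro v hv hv0 hvv
    obtain ⟨α, β, rfl⟩ := (hmem v).1 hv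
    by_cases hα : α = 0
    · rw [hα, zero_smul, zero_add] at hv0 ⊢
      exact C.smul hy fun h => hv0 (by rw [h, zero_smul])
    · have e : α • x + β • y = α • (x + (β / α) • y) := by
        rw [smul_add, smul_smul, mul_div_cancel₀ _ hα]
      rw [e] at hvv ⊢
      apply C.smul _ hα
      apply C.line hx hy hxy
      rw [hsl, hsr] at hvv
      rcases mul_eq_zero.1 hvv with h | h
      · exact absurd h hα
      · exact (mul_eq_zero.1 h).resolve_left (pow_ne_zero _ hα)
  obtain ⟨w, hw, u, hu, rfl⟩ := hSP z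
  obtain ⟨α, β, rfl⟩ := (hmem w).1 hw
  have hux : ho q u x = 0 := hu x hxP
  have huy : ho q u y = 0 := hu y hyP
  have hxu := ho_zero_swap hF hux
  have hyu := ho_zero_swap hF huy
  have hnorm : ho q (α • x + β • y) (α • x + β • y) = α * β ^ q * ho q x y + β * α ^ q * ho q y x := by
    rw [hal, har hF, har hF, hsl, hsl, hsl, hsl, hsr, hsr, hsr, hsr, hxx, hyy]
    ring
  have hww : ho q (α • x + β • y) (α • x + β • y) ≠ 0 := by
    intro h0
    apply hdet
    rw [hnorm] at h0
    have e1 : ho q y (α • x + β • y + u) = α ^ q * ho q y x := by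
      rw [har hF, har hF, hsr, hsr, hyy, hyu]
      ring
    have e2 : ho q (α • x + β • y + u) x = β * ho q y x := by
      rw [hal, hal, hsl, hsl, hxx, hux]
      ring
    have e3 : ho q x (α • x + β • y + u) = β ^ q * ho q x y := by
      rw [har hF, har hF, hsr, hsr, hxx, hxu]
      ring
    have e4 : ho q (α • x + β • y + u) y = α * ho q x y := by
      rw [hal, hal, hsl, hsl, hyy, huy]
      ring
    rw [e1, e2, e3, e4]
    linear_combination (ho q x y * ho q y x) * h0
  have huu : ho q u u ≠ 0 := by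
    intro h0
    apply hww
    have h1 := C.iso hz
    rw [hal, har hF (α • x + β • y), har hF u, hu _ hw, ho_zero_swap hF (hu _ hw), h0] at h1
    linear_combination h1
  refine ⟨P ⊔ Submodule.span F {u}, hSP.step hF hu huu, ?_, full_step C hPf hw hu hz ?_⟩
  · have h1 : finrank F P < finrank F (P ⊔ Submodule.span F {u} : Submodule F (Fin n → F)) :=
      Submodule.finrank_lt_finrank_of_lt (lt_sup_span hu huu)
    have h2 : finrank F (Submodule.span F {x}) < finrank F P := by
      apply Submodule.finrank_lt_finrank_of_lt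
      refine lt_of_le_of_ne ((Submodule.span_singleton_le_iff_mem x P).2 hxP) ?_
      intro h
      have h3 : y ∈ Submodule.span F {x} := by rw [h]; exact hyP
      obtain ⟨c, hc⟩ := Submodule.mem_span_singleton.1 h3
      apply hyx
      rw [← hc, hsl, hxx, mul_zero]
    rw [finrank_span_singleton (C.ne hx)] at h2
    omega
  · intro b hb hbb
    obtain ⟨α', β', rfl⟩ := (hmem b).1 hb
    exact C.plane hx hy hxy hux huy hww hbb hz

theorem Ctx.all (C : Ctx q Δ) {x y z : Fin n → F} (hx : Δ x) (hy : Δ y) (hz : Δ z)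
    (hdet : ho q x y * ho q y z * ho q z x + ho q x z * ho q z y * ho q y x ≠ 0) {v : Fin n → F} (hv0 : v ≠ 0)
    (hv : ho q v v = 0) : Δ v := by
  have hF := C.card
  by_cases hT : Full q Δ (⊤ : Submodule F (Fin n → F))
  · exact hT v Submodule.mem_top hv0 hv
  exfalso
  have key : ∀ k : ℕ, ∃ W : Submodule F (Fin n → F), Spl q W ∧ 3 + k ≤ finrank F W ∧ Full q Δ W := by
    intro k
    induction k with
    | zero => exact C.base hx hy hz hdet
    | succ k ih =>
      obtain ⟨W, hS, h3, hW⟩ := ih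
      have h3' : 3 ≤ finrank F W := by omega
      have hWT : W ≠ ⊤ := by
        rintro rfl
        exact hT hW
      obtain ⟨w, hw, u, hu, hΔ, huu⟩ := C.exists_up hS h3' hW hWT
      have hww : ho q w w ≠ 0 := by
        have h1 := C.iso hΔ
        rw [hal, har hF, har hF, hu w hw, ho_zero_swap hF (hu w hw)] at h1
        intro h0
        apply huu
        rw [h0] at h1
        linear_combination h1
      refine ⟨W ⊔ Submodule.span F {u}, hS.step hF hu huu, ?_, full_step C hW hw hu hΔ ?_⟩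
      · have h1 : finrank F W < finrank F (W ⊔ Submodule.span F {u} : Submodule F (Fin n → F)) :=
          Submodule.finrank_lt_finrank_of_lt (lt_sup_span hu huu)
        omega
      · intro b hb hbb
        exact C.trN hS h3' hW hw hb hu hww hbb hΔ
  obtain ⟨W, -, h3, -⟩ := key n
  have h4 := Submodule.finrank_le W
  rw [Module.finrank_fin_fun] at h4
  omega

end

/-- **PART E**: full root groups and a nondegenerate triangle of centres give all transvections -/
theorem full {H : Subgroup (GL (Fin n) F)} (D : Dat q H)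
    (hall : ∀ x c d, c ≠ 0 → TM q H x c → d + d ^ q = 0 → TM q H x d)
    {x y z : Fin n → F} (hx : Cen q H x) (hy : Cen q H y) (hz : Cen q H z)
    (hdet : ho q x y * ho q y z * ho q z x + ho q x z * ho q z y * ho q y x ≠ 0) :
    ∀ a c, ho q a a = 0 → c + c ^ q = 0 → TM q H a c := by
  intro a c ha hc
  by_cases ha0 : a = 0
  · rw [ha0] at ha ⊢
    exact ⟨ha, hc, by rw [tU_zero_center]; exact H.one_mem⟩
  · obtain ⟨-, d, hd, h⟩ := (ctx_cen D hall).all hx hy hz hdet ha0 ha
    exact hall a d c hd h hc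

end Cfsg.Agent.H551.OddUnE
end

-- part: H453/OddM/UnD
section
prune_inst 0x25606444346200000018809623003c46a600049200480401eca0024206c12d62e9c12160be30301212ce22456839006000540050424000000e200000011e00800000100480480008480006000100000000000000000000000000000000010004000000000
set_option linter.all false
open scoped Cfsg.Agent.FastGrp

/-!
# TEAM ODDM (S4785): unitary transvections: the multiplier field and the rational structure
-/

set_option autoImplicit false
set_option linter.unusedSectionVars false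

namespace Cfsg.Agent.H453.OddM.Un

open Cfsg Module Cfsg.Agent.LieClassical.HermBasic Cfsg.Agent.ClassicalGeometry.UnitTransv
open scoped Matrix MatrixGroups

variable {F : Type*} [Field F] {n : ℕ} [Fintype F] {q : ℕ} {H : Subgroup (GL (Fin n) F)}

/-- the conclusion of PART C -/
def Good (q : ℕ) (H : Subgroup (GL (Fin n) F)) : Prop :=
  ∀ (a b : Fin n → F) (c d : F), ho q a b ≠ 0 → c ≠ 0 → d ≠ 0 → TM q H a c → TM q H b d →
    TM q H a (c * (c * d * (ho q a b * ho q b a)))

/-- closed under multiplication by `r ≠ 0` implies closed under division by `r` -/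
theorem div_closed {P : F → Prop} {r : F} (hr : r ≠ 0) (h : ∀ s, P s → P (r * s)) {s : F} (hs : P s) :
    P (r⁻¹ * s) := by
  have h1 : ∀ n : ℕ, P (r ^ n * s) := by
    intro n
    induction n with
    | zero => rwa [pow_zero, one_mul]
    | succ n ih =>
      rw [pow_succ', mul_assoc]
      exact h _ ih
  have h2 : r⁻¹ = r ^ (Fintype.card F - 2) := by
    have h3 := FiniteField.pow_card_sub_one_eq_one r hr
    have h4 : Fintype.card F - 1 = (Fintype.card F - 2) + 1 := by
      have := Fintype.one_lt_card (α := F)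
      omega
    rw [h4, pow_succ] at h3
    exact (eq_inv_of_mul_eq_one_left h3).symm
  rw [h2]
  exact h1 _

/-- closure properties of the transvections with a given centre -/
theorem Dat.mul_mem_edge (D : Dat q H) (G : Good q H) {x y : Fin n → F} (hxy : ho q x y ≠ 0) {c d : F} (hc : c ≠ 0)
    (hd : d ≠ 0) (hx : TM q H x c) (hy : TM q H y d) {s t : F} (hs : TM q H x (s * c))
    (ht : TM q H x (t * c)) : TM q H x (s * t * c) := by
  have hF := D.card
  set φ := ho q x y * ho q y x with hφ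
  have hφ0 : φ ≠ 0 := mul_ne_zero hxy (ho_ne_swap hF hxy)
  set γ := c * d * φ with hγ
  have hγ0 : γ ≠ 0 := mul_ne_zero (mul_ne_zero hc hd) hφ0
  have hsq : ∀ u : F, TM q H x (u * c) → TM q H x (u ^ 2 * γ * c) := by
    intro u hu
    by_cases hu0 : u = 0
    · rw [hu0, zero_pow two_ne_zero, zero_mul, zero_mul]
      exact TM.zero hF hx.iso
    · have h1 := G x y (u * c) d hxy (mul_ne_zero hu0 hc) hd hu hy
      have e1 : u * c * (u * c * d * (ho q x y * ho q y x)) = u ^ 2 * γ * c := by rw [hγ, hφ]; ring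
      rwa [e1] at h1
  have hprod : ∀ u v : F, TM q H x (u * c) → TM q H x (v * c) → TM q H x (u * v * γ * c) := by
    intro u v hu hv
    have h1 : TM q H x ((u + v) * c) := by
      rw [add_mul]
      exact hu.add hF hv
    have h2 := ((hsq _ h1).sub hF (hsq u hu)).sub hF (hsq v hv)
    have e1 : (u + v) ^ 2 * γ * c - u ^ 2 * γ * c - v ^ 2 * γ * c = 2 * (u * v * γ * c) := by ring
    rw [e1] at h2
    have h3 := div_closed (P := fun w => TM q H x w) D.two (fun w hw => by
      rw [two_mul]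
      exact hw.add hF hw) h2
    change TM q H x (2⁻¹ * (2 * (u * v * γ * c))) at h3
    rwa [inv_mul_cancel_left₀ D.two] at h3
  have hγdiv : TM q H x (γ⁻¹ * (t * c)) := by
    refine div_closed (P := fun w => TM q H x w) hγ0 (fun w hw => ?_) ht
    have e1 : w = (w / c) * c := by field_simp
    rw [e1] at hw
    have h1 := hprod (w / c) 1 hw (by rwa [one_mul])
    have e2 : w / c * 1 * γ * c = γ * w := by field_simp
    rwa [e2] at h1
  have e1 : γ⁻¹ * (t * c) = (γ⁻¹ * t) * c := by ring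
  rw [e1] at hγdiv
  have h1 := hprod s (γ⁻¹ * t) hs hγdiv
  have e2 : s * (γ⁻¹ * t) * γ * c = s * t * c := by field_simp
  rwa [e2] at h1

theorem Dat.edge_transfer (D : Dat q H) (G : Good q H) {x y : Fin n → F} (hxy : ho q x y ≠ 0) {c d : F}
    (hc : c ≠ 0) (hd : d ≠ 0) (hx : TM q H x c) (hy : TM q H y d) {s : F} (hs : TM q H x (s * c)) :
    TM q H y (s * d) := by
  have hF := D.card
  by_cases hs0 : s = 0
  · rw [hs0, zero_mul]
    exact TM.zero hF hy.iso
  have hyx : ho q y x ≠ 0 := ho_ne_swap hF hxy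
  set φ := ho q y x * ho q x y with hφ
  have hφ0 : φ ≠ 0 := mul_ne_zero hyx hxy
  set γ := d * c * φ with hγ
  have hγ0 : γ ≠ 0 := mul_ne_zero (mul_ne_zero hd hc) hφ0
  have h1 : TM q H y (γ * d) := by
    have := G y x d c hyx hd hc hy hx
    rwa [mul_comm] at this
  have h2 : TM q H y (s * γ * d) := by
    have := G y x d (s * c) hyx hd (mul_ne_zero hs0 hc) hy hs
    have e1 : d * (d * (s * c) * (ho q y x * ho q x y)) = s * γ * d := by rw [hγ, hφ]; ring
    rwa [e1] at this
  have h3 : TM q H y (γ⁻¹ * (s * γ * d)) := by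
    refine div_closed (P := fun w => TM q H y w) hγ0 (fun w hw => ?_) h2
    have e1 : w = (w / d) * d := by field_simp
    rw [e1] at hw
    have h4 := D.mul_mem_edge G hyx hd hc hy hx h1 hw
    have e2 : γ * (w / d) * d = γ * w := by field_simp
    rwa [e2] at h4
  have e3 : γ⁻¹ * (s * γ * d) = s * d := by field_simp
  rwa [e3] at h3

/-- the multiplier field -/
def In (q : ℕ) (H : Subgroup (GL (Fin n) F)) (s : F) : Prop :=
  ∀ (x : Fin n → F) (c : F), TM q H x c → TM q H x (s * c)

/-- the multiplier field as a subfield -/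
def mf (hF : Fintype.card F = q ^ 2) (H : Subgroup (GL (Fin n) F)) : Subfield F where
  carrier := {s | In q H s}
  mul_mem' {s t} hs ht x c h := by
    rw [mul_assoc]
    exact hs x _ (ht x c h)
  one_mem' x c h := by rwa [one_mul]
  add_mem' {s t} hs ht x c h := by
    rw [add_mul]
    exact (hs x c h).add hF (ht x c h)
  zero_mem' x c h := by
    rw [zero_mul]
    exact TM.zero hF h.iso
  neg_mem' {s} hs x c h := by
    rw [neg_mul]
    exact (hs x c h).neg hF
  inv_mem' s hs x c h := by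
    by_cases hs0 : s = 0
    · rw [hs0, inv_zero, zero_mul]
      exact TM.zero hF h.iso
    · exact div_closed (P := fun w => TM q H x w) hs0 (fun w hw => hs x w hw) h

/-- the multiplier field is fixed by the involution -/
theorem Dat.mf_fix (D : Dat q H) {s : F} (hs : s ∈ mf D.card H) : s ^ q = s := by
  obtain ⟨b, c, -, hc, hbc⟩ := D.ne
  have h1 := hbc.tr
  have h2 := (hs b c hbc).tr
  rw [mul_pow] at h2
  have h3 : c * (s - s ^ q) = 0 := by linear_combination h2 - s ^ q * h1
  exact (sub_eq_zero.1 ((mul_eq_zero.1 h3).resolve_left hc)).symm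

theorem Dat.in_of (D : Dat q H) (G : Good q H) {x : Fin n → F} (hx0 : x ≠ 0) {c s : F} (hc : c ≠ 0)
    (hx : TM q H x c) (hs : TM q H x (s * c)) : s ∈ mf D.card H := by
  have hF := D.card
  have key : ∀ y, Relation.ReflTransGen (Adj q H) x y → y = x ∨ ∀ d, d ≠ 0 → TM q H y d → TM q H y (s * d) := by
    intro y hy
    induction hy with
    | refl => exact Or.inl rfl
    | tail _ hyz ih =>
      right
      intro d hd hdH
      rcases ih with rfl | ih
      · exact D.edge_transfer G hyz.2.2 hc hd hx hdH hs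
      · obtain ⟨⟨-, c', hc', hc'H⟩, -, hφ⟩ := hyz
        exact D.edge_transfer G hφ hc' hd hc'H hdH (ih c' hc' hc'H)
  have hxc : Cen q H x := ⟨hx0, c, hc, hx⟩
  have key2 : ∀ y, Cen q H y → ∀ d, d ≠ 0 → TM q H y d → TM q H y (s * d) := by
    intro y hyc d hd hdH
    rcases key y (D.connected hxc hyc) with rfl | h
    · obtain ⟨z, hz⟩ := D.exists_adj hxc
      obtain ⟨-, ⟨-, e, he, heH⟩, hφ⟩ := hz
      have h1 := D.edge_transfer G hφ hc he hx heH hs
      exact D.edge_transfer G (ho_ne_swap hF hφ) he hd heH hdH h1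
    · exact h d hd hdH
  have hsq : s ^ q = s := by
    have h1 := hx.tr
    have h2 := hs.tr
    rw [mul_pow] at h2
    have h3 : c * (s - s ^ q) = 0 := by linear_combination h2 - s ^ q * h1
    exact (sub_eq_zero.1 ((mul_eq_zero.1 h3).resolve_left hc)).symm
  intro y d hdH
  by_cases hd : d = 0
  · rw [hd, mul_zero]
    exact TM.zero hF hdH.iso
  by_cases hy : y = 0
  · subst hy
    exact ⟨hdH.iso, trace_mul hF hsq hdH.tr, by rw [tU_zero_center]; exact H.one_mem⟩
  exact key2 y ⟨hy, d, hd, hdH⟩ d hd hdH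

/-- the values on edges -/
theorem Dat.val_mem (D : Dat q H) (G : Good q H) {x y : Fin n → F} {c d : F} (hx : TM q H x c)
    (hy : TM q H y d) : c * d * (ho q x y * ho q y x) ∈ mf D.card H := by
  by_cases h0 : c * d * (ho q x y * ho q y x) = 0
  · rw [h0]
    exact (mf D.card H).zero_mem
  have hc : c ≠ 0 := fun h => h0 (by rw [h]; ring)
  have hd : d ≠ 0 := fun h => h0 (by rw [h]; ring)
  have hφ : ho q x y ≠ 0 := fun h => h0 (by rw [h]; ring)
  have hx0 : x ≠ 0 := by
    rintro rfl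
    exact hφ (ho_zero_left y)
  refine D.in_of G hx0 hc hx ?_
  have h1 := G x y c d hφ hc hd hx hy
  rwa [mul_comm] at h1

/-! ### The rational structure -/

/-- the normalised centres -/
def Om (q : ℕ) (H : Subgroup (GL (Fin n) F)) (κ : F) (x : Fin n → F) : Prop := x ≠ 0 ∧ TM q H x κ

/-- the relation -/
def Rr (q : ℕ) (H : Subgroup (GL (Fin n) F)) (L : Subfield F) (κ : F) (x y : Fin n → F) : Prop :=
  Om q H κ x ∧ Om q H κ y ∧ κ * ho q x y ∈ L ∧ κ * ho q x y ≠ 0

variable {L : Subfield F} {κ : F}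

theorem kho_swap (hF : Fintype.card F = q ^ 2) (hκ : κ + κ ^ q = 0) (x y : Fin n → F) :
    κ * ho q y x = -(κ * ho q x y) ^ q := by
  rw [mul_pow, ← ho_swap hF x y]
  linear_combination (ho q y x) * hκ

theorem kho_swap_mem (hF : Fintype.card F = q ^ 2) (hκ : κ + κ ^ q = 0) {x y : Fin n → F}
    (h : κ * ho q x y ∈ L) : κ * ho q y x ∈ L := by
  rw [kho_swap hF hκ x y]
  exact L.neg_mem (pow_mem h q)

theorem Rr.symm (hF : Fintype.card F = q ^ 2) {x y : Fin n → F} (h : Rr q H L κ x y) : Rr q H L κ y x := by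
  obtain ⟨h1, h2, h3, h4⟩ := h
  exact ⟨h2, h1, kho_swap_mem hF h1.2.tr h3,
    mul_ne_zero (left_ne_zero_of_mul h4) (ho_ne_swap hF (right_ne_zero_of_mul h4))⟩

theorem Dat.sq_mem (D : Dat q H) (G : Good q H) {x y : Fin n → F} (hx : Om q H κ x) (hy : Om q H κ y) :
    (κ * ho q x y) * (κ * ho q y x) ∈ mf D.card H := by
  have h1 := D.val_mem G hx.2 hy.2
  have e : κ * κ * (ho q x y * ho q y x) = (κ * ho q x y) * (κ * ho q y x) := by ring
  rwa [e] at h1

/-- moving a normalised centre -/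
theorem Dat.om_move (D : Dat q H) {y z : Fin n → F} (hy : Om q H κ y) (hz : Om q H κ z) {s : F}
    (hs : s ∈ mf D.card H) : Om q H κ (z + (s * (κ * ho q z y)) • y) := by
  have h1 := hs y κ hy.2
  have h2 : ap (tU q y (s * κ)) z = z + (s * (κ * ho q z y)) • y := by
    rw [ap_t hy.2.iso]
    congr 2
    ring
  rw [← h2]
  exact ⟨ap_ne_zero hz.1, D.conj h1.mem hz.2⟩

/-- the triangle property -/
def Tri (q : ℕ) (H : Subgroup (GL (Fin n) F)) (L : Subfield F) (κ : F) : Prop :=
  ∀ x y z, Rr q H L κ x y → Rr q H L κ y z → κ * ho q x z ∈ L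

theorem Dat.three (D : Dat q H) (hL : mf D.card H ≤ L) (hT : Tri q H L κ) {x y z w : Fin n → F}
    (hxy : Rr q H L κ x y) (hyz : Rr q H L κ y z) (hzw : Rr q H L κ z w) :
    ∃ u, Rr q H L κ x u ∧ Rr q H L κ u w := by
  have hF := D.card
  by_cases h0 : κ * ho q x z = 0
  swap
  · exact ⟨z, ⟨hxy.1, hyz.2.1, hT x y z hxy hyz, h0⟩, hzw⟩
  have hyw := hT y z w hyz hzw
  obtain ⟨hx, hy, h1, h2⟩ := hxy
  obtain ⟨-, -, h3', h4'⟩ := hyz
  have hzy := Rr.symm hF ⟨hy, hzw.1, h3', h4'⟩
  obtain ⟨-, -, h3, h4⟩ := hzy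
  obtain ⟨hz, hw, h5, h6⟩ := hzw
  have hκt : κ + κ ^ q = 0 := hx.2.tr
  have hκ : κ ≠ 0 := left_ne_zero_of_mul h2
  have h0' : ho q x z = 0 := (mul_eq_zero.1 h0).resolve_left hκ
  have main : ∀ s : F, s ∈ mf D.card H → s ≠ 0 →
      κ * ho q z w + s * (κ * ho q z y) * (κ * ho q y w) ≠ 0 → ∃ u, Rr q H L κ x u ∧ Rr q H L κ u w := by
    intro s hs hs0 hne
    have hu := D.om_move hy hz hs
    have hsq := D.mf_fix hs
    have e1 : κ * ho q x (z + (s * (κ * ho q z y)) • y) = -(s * (κ * ho q y z) * (κ * ho q x y)) := by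
      rw [ho_add_right hF, ho_smul_right, h0', mul_pow, hsq, kho_swap hF hκt z y]
      ring
    have e2 : κ * ho q (z + (s * (κ * ho q z y)) • y) w = κ * ho q z w + s * (κ * ho q z y) * (κ * ho q y w) := by
      rw [ho_add_left, ho_smul_left]
      ring
    refine ⟨_, ⟨hx, hu, ?_, ?_⟩, ⟨hu, hw, ?_, ?_⟩⟩
    · rw [e1]
      exact L.neg_mem (L.mul_mem (L.mul_mem (hL hs) h3') h1)
    · rw [e1]
      exact neg_ne_zero.2 (mul_ne_zero (mul_ne_zero hs0 h4') h2)
    · rw [e2]
      exact L.add_mem h5 (L.mul_mem (L.mul_mem (hL hs) h3) hyw)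
    · rw [e2]
      exact hne
  by_cases h7 : κ * ho q z w + 1 * (κ * ho q z y) * (κ * ho q y w) = 0
  · refine main (-1) ((mf D.card H).neg_mem (mf D.card H).one_mem) (neg_ne_zero.2 one_ne_zero) ?_
    intro h8
    apply h6
    have h9 : 2 * (κ * ho q z w) = 0 := by linear_combination h7 + h8
    exact (mul_eq_zero.1 h9).resolve_left D.two
  · exact main 1 (mf D.card H).one_mem one_ne_zero h7

theorem Dat.diam (D : Dat q H) (hL : mf D.card H ≤ L) (hT : Tri q H L κ) {x y : Fin n → F}
    (h : Relation.ReflTransGen (Rr q H L κ) x y) :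
    y = x ∨ Rr q H L κ x y ∨ ∃ u, Rr q H L κ x u ∧ Rr q H L κ u y := by
  induction h with
  | refl => exact Or.inl rfl
  | tail _ hyz ih =>
    rcases ih with rfl | ih | ⟨u, h1, h2⟩
    · exact Or.inr (Or.inl hyz)
    · exact Or.inr (Or.inr ⟨_, ih, hyz⟩)
    · obtain ⟨v, h3, h4⟩ := D.three hL hT h1 h2 hyz
      exact Or.inr (Or.inr ⟨v, h3, h4⟩)

theorem Dat.val_of_path (D : Dat q H) (hL : mf D.card H ≤ L) (hT : Tri q H L κ) {x y : Fin n → F}
    (hx : Om q H κ x) (h : Relation.ReflTransGen (Rr q H L κ) x y) : κ * ho q x y ∈ L := by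
  rcases D.diam hL hT h with rfl | h | ⟨u, h1, h2⟩
  · rw [hx.2.iso, mul_zero]
    exact L.zero_mem
  · exact h.2.2.1
  · exact hT x u y h1 h2

theorem path_symm (hF : Fintype.card F = q ^ 2) {x y : Fin n → F}
    (h : Relation.ReflTransGen (Rr q H L κ) x y) : Relation.ReflTransGen (Rr q H L κ) y x := by
  induction h with
  | refl => exact Relation.ReflTransGen.refl
  | tail _ hyz ih => exact Relation.ReflTransGen.head (Rr.symm hF hyz) ih

theorem om_of_path {x y : Fin n → F} (hx : Om q H κ x) (h : Relation.ReflTransGen (Rr q H L κ) x y) :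
    Om q H κ y := by
  rcases Relation.ReflTransGen.cases_tail h with rfl | ⟨z, -, hz⟩
  · exact hx
  · exact hz.2.1

/-- transvections in `H` preserve the component -/
theorem Dat.path_move (D : Dat q H) (G : Good q H) (hκ : κ ≠ 0) {a x b : Fin n → F} {c : F} (ha : Om q H κ a)
    (hx : Relation.ReflTransGen (Rr q H L κ) a x) (hb : TM q H b c) :
    Relation.ReflTransGen (Rr q H L κ) a (ap (tU q b c) x) := by
  have hF := D.card
  have hxo := om_of_path ha hx
  by_cases h0 : c * ho q x b = 0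
  · rw [ap_t hb.iso, h0, zero_smul, add_zero]
    exact hx
  have hc : c ≠ 0 := left_ne_zero_of_mul h0
  have hxb : ho q x b ≠ 0 := right_ne_zero_of_mul h0
  have hbx : ho q b x ≠ 0 := ho_ne_swap hF hxb
  have hb0 : b ≠ 0 := by
    rintro rfl
    exact hxb (ho_zero_right hF x)
  set lam : F := ((κ * ho q x b)⁻¹) ^ q with hlam
  have hlam0 : lam ≠ 0 := pow_ne_zero q (inv_ne_zero (mul_ne_zero hκ hxb))
  have hlamq : lam ^ q = (κ * ho q x b)⁻¹ := by rw [hlam, pow_q_pow_q hF]
  have hlam' : lam = -(κ * ho q b x)⁻¹ := by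
    rw [hlam, inv_pow, kho_swap hF hxo.2.tr x b, inv_neg, neg_neg]
  -- the normalised multiple of `b`
  have hv := D.val_mem G hxo.2 hb
  have hv0 : κ * c * (ho q x b * ho q b x) ≠ 0 := mul_ne_zero (mul_ne_zero hκ hc) (mul_ne_zero hxb hbx)
  have hvi := (mf D.card H).inv_mem hv
  have hb' : Om q H κ (lam • b) := by
    refine ⟨smul_ne_zero hlam0 hb0, ?_⟩
    rw [TM.smul_iff hF hlam0]
    have h1 := (hvi b c hb).neg hF
    have e1 : -((κ * c * (ho q x b * ho q b x))⁻¹ * c) = lam * lam ^ q * κ := by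
      rw [hlamq, hlam']
      field_simp
    rwa [e1] at h1
  have hg : κ * ho q x (lam • b) = 1 := by
    rw [ho_smul_right, hlamq]
    field_simp
  have hxb' : Rr q H L κ x (lam • b) := ⟨hxo, hb', by rw [hg]; exact L.one_mem, by rw [hg]; exact one_ne_zero⟩
  have hx' : Om q H κ (ap (tU q b c) x) := ⟨ap_ne_zero hxo.1, D.conj hb.mem hxo.2⟩
  have hg' : κ * ho q (ap (tU q b c) x) (lam • b) = 1 := by
    have hbb : ho q b (lam • b) = 0 := by rw [ho_smul_right, hb.iso, mul_zero]
    rw [ap_t hb.iso, ho_add_left, ho_smul_left, hbb, mul_zero, add_zero, hg]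
  have h2 : Rr q H L κ (ap (tU q b c) x) (lam • b) :=
    ⟨hx', hb', by rw [hg']; exact L.one_mem, by rw [hg']; exact one_ne_zero⟩
  exact (hx.tail hxb').tail (Rr.symm hF h2)

end Cfsg.Agent.H453.OddM.Un
end

-- part: H453/OddM/UnK
section
prune_inst 0x21402404306202000800808423001c468e00049200484000e8800a4206c12642c0c40060b7103012129e00556839006000540000424000000e200800011c00800000000080480008460008000100000000000000000000000000000000010004000000000
set_option linter.all false
open scoped Cfsg.Agent.FastGrp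

/-!
# TEAM ODDM (S4785): unitary transvections: the field `K`, the rational basis and the reduction to full root groups
-/

set_option autoImplicit false
set_option linter.unusedSectionVars false

namespace Cfsg.Agent.H453.OddM.Un

open Cfsg Module Cfsg.Agent.LieClassical.HermBasic Cfsg.Agent.ClassicalGeometry.UnitTransv
open scoped Matrix MatrixGroups

variable {F : Type*} [Field F] {n : ℕ} [Fintype F] {q : ℕ} {H : Subgroup (GL (Fin n) F)}

/-- **The rational basis.** -/
theorem Dat.rational (D : Dat q H) (G : Good q H) {L : Subfield F} {κ : F} {a : Fin n → F} (hκ : κ ≠ 0)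
    (ha : Om q H κ a) (hL : mf D.card H ≤ L) (hT : Tri q H L κ) :
    ∃ B : GL (Fin n) F, ∀ g ∈ Nt q H, ∀ i j,
      ((B : Matrix (Fin n) (Fin n) F) * g * ((B⁻¹ : GL (Fin n) F) : Matrix (Fin n) (Fin n) F)) i j ∈ L := by
  classical
  have hF := D.card
  set O : Set (Fin n → F) := {x | Relation.ReflTransGen (Rr q H L κ) a x} with hO
  -- the component spans
  have hspan : Submodule.span F O = ⊤ := by
    rcases D.irr (Submodule.span F O) (by
      intro b c hbc v hv
      induction hv using Submodule.span_induction with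
      | mem x hx => exact Submodule.subset_span (D.path_move G hκ ha hx hbc)
      | zero => rw [ap_zero]; exact Submodule.zero_mem _
      | add x y _ _ hx hy => rw [ap_add]; exact Submodule.add_mem _ hx hy
      | smul s x _ hx => rw [ap_smul]; exact Submodule.smul_mem _ _ hx) with h | h
    · exfalso
      have h1 : a ∈ Submodule.span F O := Submodule.subset_span Relation.ReflTransGen.refl
      rw [h, Submodule.mem_bot] at h1
      exact ha.1 h1
    · exact h
  -- a basis in the component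
  obtain ⟨s, hsO, hss, hli⟩ := exists_linearIndependent F O
  rw [hspan] at hss
  have hsfin : Finite s := hli.finite
  let bs : Basis s F (Fin n → F) := Basis.mk hli (by rw [Subtype.range_coe, hss])
  have : Fintype s := Fintype.ofFinite s
  have hcard : Fintype.card s = Fintype.card (Fin n) := by
    rw [← Module.finrank_eq_card_basis bs, Module.finrank_fintype_fun_eq_card]
  let e : s ≃ Fin n := Fintype.equivOfCardEq hcard
  let w : Basis (Fin n) F (Fin n → F) := bs.reindex e
  have hw : ∀ i, w i ∈ O := by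
    intro i
    rw [Basis.reindex_apply, Basis.mk_apply]
    exact hsO (e.symm i).2
  -- invariance
  have hinv : ∀ g ∈ Nt q H, ∀ x ∈ O, ap g x ∈ O := by
    intro g hg
    induction hg using Subgroup.closure_induction with
    | mem t ht =>
      obtain ⟨b, c, hbc, rfl⟩ := ht
      intro x hx
      exact D.path_move G hκ ha hx hbc
    | one => intro x hx; rwa [ap_one]
    | mul g h _ _ hg hh => intro x hx; rw [ap_mul]; exact hg _ (hh x hx)
    | inv g _ hg =>
      intro x hx
      have hk : ∀ k : ℕ, ap (g ^ k) x ∈ O := by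
        intro k
        induction k with
        | zero => rwa [pow_zero, ap_one]
        | succ k ih =>
          rw [pow_succ', ap_mul]
          exact hg _ ih
      have h1 : g⁻¹ = g ^ (orderOf g - 1) := by
        symm
        apply eq_inv_of_mul_eq_one_left
        rw [← pow_succ, Nat.sub_add_cancel (orderOf_pos g), pow_orderOf_eq_one]
      rw [h1]
      exact hk _
  have hval : ∀ x ∈ O, ∀ y ∈ O, κ * ho q x y ∈ L := by
    intro x hx y hy
    exact D.val_of_path hL hT (om_of_path ha hx) ((path_symm hF hx).trans hy)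
  -- the matrices
  let P : Matrix (Fin n) (Fin n) F := Matrix.of fun i j => w j i
  have hPj : ∀ j, P *ᵥ (Pi.single j 1) = w j := by
    intro j
    funext i
    rw [Matrix.mulVec_single_one]
    rfl
  have hPdet : P.det ≠ 0 := by
    intro h0
    obtain ⟨c, hc0, hc⟩ := (Matrix.exists_mulVec_eq_zero_iff (M := P)).2 h0
    apply hc0
    have h1 : ∑ j, c j • w j = 0 := by
      rw [← hc]
      funext i
      rw [Finset.sum_apply, Matrix.mulVec, dotProduct]
      refine Finset.sum_congr rfl fun j _ => ?_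
      rw [Pi.smul_apply, smul_eq_mul, mul_comm]
      rfl
    have h2 := Fintype.linearIndependent_iff.1 w.linearIndependent c h1
    funext j
    exact h2 j
  let B : GL (Fin n) F := (Matrix.GeneralLinearGroup.mkOfDetNeZero P hPdet)⁻¹
  refine ⟨B, fun g hg => ?_⟩
  have hBi : ((B⁻¹ : GL (Fin n) F) : Matrix (Fin n) (Fin n) F) = P := by
    rw [inv_inv]
    rfl
  set S : Matrix (Fin n) (Fin n) F :=
    (B : Matrix (Fin n) (Fin n) F) * g * ((B⁻¹ : GL (Fin n) F) : Matrix (Fin n) (Fin n) F) with hS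
  have hPS : P * S = g * P := by
    have h1 : P * (B : Matrix (Fin n) (Fin n) F) = 1 := by
      rw [← hBi, ← Units.val_mul, inv_mul_cancel, Units.val_one]
    rw [hS, hBi, ← mul_assoc, ← mul_assoc, h1, one_mul]
  -- functionals
  let Ψ : Matrix (Fin n) (Fin n) F := Matrix.of fun i j => κ * ho q (Pi.single j 1) (w i)
  have hΨ : ∀ v i, (Ψ *ᵥ v) i = κ * ho q v (w i) := by
    intro v i
    have hv : v = ∑ j, v j • (Pi.single j (1 : F) : Fin n → F) := by
      funext j
      simp [Finset.sum_apply, Pi.single_apply]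
    have hsum : ∀ t : Finset (Fin n), ho q (∑ j ∈ t, v j • (Pi.single j (1 : F) : Fin n → F)) (w i) =
        ∑ j ∈ t, v j * ho q (Pi.single j 1) (w i) := by
      intro t
      induction t using Finset.induction_on with
      | empty => rw [Finset.sum_empty, Finset.sum_empty, ho_zero_left]
      | insert a t ha ih => rw [Finset.sum_insert ha, Finset.sum_insert ha, ho_add_left, ho_smul_left, ih]
    conv_rhs => rw [hv, hsum]
    rw [Matrix.mulVec, dotProduct, Finset.mul_sum]
    refine Finset.sum_congr rfl fun j _ => ?_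
    change κ * ho q (Pi.single j 1) (w i) * v j = _
    ring
  have hentry : ∀ M : Matrix (Fin n) (Fin n) F, ∀ i j, (Ψ * (M * P)) i j = κ * ho q (M *ᵥ w j) (w i) := by
    intro M i j
    rw [← hΨ, ← hPj j, Matrix.mulVec_mulVec, Matrix.mulVec_mulVec, Matrix.mulVec_single_one, Matrix.mul_assoc]
    rfl
  have hG : ∀ i j, (Ψ * P) i j ∈ L := by
    intro i j
    have h1 := hentry 1 i j
    rw [one_mul, Matrix.one_mulVec] at h1
    rw [h1]
    exact hval _ (hw j) _ (hw i)
  have hX : ∀ i j, (Ψ * (g * P)) i j ∈ L := by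
    intro i j
    rw [hentry]
    exact hval _ (hinv g hg _ (hw j)) _ (hw i)
  let G0 : Matrix (Fin n) (Fin n) L := Matrix.of fun i j => ⟨(Ψ * P) i j, hG i j⟩
  let X0 : Matrix (Fin n) (Fin n) L := Matrix.of fun i j => ⟨(Ψ * ((g : Matrix (Fin n) (Fin n) F) * P)) i j, hX i j⟩
  have hG0 : L.subtype.mapMatrix G0 = Ψ * P := by
    ext i j
    rfl
  have hX0 : L.subtype.mapMatrix X0 = Ψ * (g * P) := by
    ext i j
    rfl
  have hΨdet : Ψ.det ≠ 0 := by
    intro h0
    obtain ⟨c, hc0, hc⟩ := (Matrix.exists_mulVec_eq_zero_iff (M := Ψ)).2 h0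
    apply hc0
    apply eq_zero_of_ho_right hF (q := q)
    intro u
    have h1 : ∀ i, ho q c (w i) = 0 := by
      intro i
      have h2 := congrFun hc i
      rw [hΨ, Pi.zero_apply] at h2
      exact (mul_eq_zero.1 h2).resolve_left hκ
    have h3 : u ∈ Submodule.span F (Set.range w) := by rw [w.span_eq]; trivial
    induction h3 using Submodule.span_induction with
    | mem x hx => obtain ⟨i, rfl⟩ := hx; exact h1 i
    | zero => exact ho_zero_right hF c
    | add x y _ _ hx hy => rw [ho_add_right hF, hx, hy, add_zero]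
    | smul s x _ hx => rw [ho_smul_right, hx, mul_zero]
  have hG0det : G0.det ≠ 0 := by
    intro h0
    have h1 := congrArg L.subtype h0
    rw [RingHom.map_det, hG0, map_zero, Matrix.det_mul] at h1
    exact mul_ne_zero hΨdet hPdet h1
  have hY : G0⁻¹ * G0 = 1 := Matrix.nonsing_inv_mul _ (isUnit_iff_ne_zero.2 hG0det)
  have hfin : S = L.subtype.mapMatrix (G0⁻¹ * X0) := by
    have h1 : L.subtype.mapMatrix G0⁻¹ * (Ψ * P) = 1 := by
      rw [← hG0, ← map_mul, hY, map_one]
    calc S = (L.subtype.mapMatrix G0⁻¹ * (Ψ * P)) * S := by rw [h1, one_mul]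
      _ = L.subtype.mapMatrix G0⁻¹ * (Ψ * (g * P)) := by rw [← hPS]; simp only [mul_assoc]
      _ = L.subtype.mapMatrix (G0⁻¹ * X0) := by rw [← hX0, map_mul]
  intro i j
  rw [hfin]
  exact ((G0⁻¹ * X0) i j).2

/-! ### The field `K` -/

/-- trace and norm of a triple product -/
theorem Dat.tau (D : Dat q H) (G : Good q H) {κ : F} {x y z : Fin n → F} (hx : Om q H κ x) (hy : Om q H κ y)
    (hz : Om q H κ z) :
    (κ * ho q x y) * (κ * ho q y z) * (κ * ho q z x) +
        ((κ * ho q x y) * (κ * ho q y z) * (κ * ho q z x)) ^ q ∈ mf D.card H ∧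
      (κ * ho q x y) * (κ * ho q y z) * (κ * ho q z x) *
        ((κ * ho q x y) * (κ * ho q y z) * (κ * ho q z x)) ^ q ∈ mf D.card H := by
  have hF := D.card
  have hκt : κ + κ ^ q = 0 := hx.2.tr
  set A := κ * ho q x y with hA
  set B := κ * ho q y z with hB
  set C' := κ * ho q z x with hC'
  set A' := κ * ho q y x with hA'
  set B' := κ * ho q z y with hB'
  set C := κ * ho q x z with hC
  have eA : A ^ q = -A' := by rw [hA', kho_swap hF hκt x y, neg_neg]
  have eB : B ^ q = -B' := by rw [hB', kho_swap hF hκt y z, neg_neg]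
  have eC : C' ^ q = -C := by rw [hC, kho_swap hF hκt z x, neg_neg]
  have eB' : B' ^ q = -B := by rw [hB, kho_swap hF hκt z y, neg_neg]
  have nA : A * A' ∈ mf D.card H := D.sq_mem G hx hy
  have nB : B * B' ∈ mf D.card H := D.sq_mem G hy hz
  have nC : C * C' ∈ mf D.card H := D.sq_mem G hx hz
  have hτ : (A * B * C') ^ q = -(A' * B' * C) := by
    rw [mul_pow, mul_pow, eA, eB, eC]
    ring
  have hu := D.om_move hy hz (mf D.card H).one_mem
  have e1 := D.sq_mem G hx hu
  have f1 : κ * ho q x (z + (1 * B') • y) = C - A * B := by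
    rw [ho_add_right hF, ho_smul_right, one_mul, eB', hC, hA]
    ring
  have f2 : κ * ho q (z + (1 * B') • y) x = C' + B' * A' := by
    rw [ho_add_left, ho_smul_left, one_mul, hC', hA']
    ring
  rw [f1, f2] at e1
  constructor
  · rw [hτ]
    have h2 := (mf D.card H).sub_mem ((mf D.card H).sub_mem nC e1) ((mf D.card H).mul_mem nA nB)
    have e3 : C * C' - (C - A * B) * (C' + B' * A') - A * A' * (B * B') = A * B * C' + -(A' * B' * C) := by ring
    rwa [e3] at h2
  · rw [hτ]
    have h2 := (mf D.card H).neg_mem ((mf D.card H).mul_mem ((mf D.card H).mul_mem nA nB) nC)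
    have e3 : -(A * A' * (B * B') * (C * C')) = A * B * C' * -(A' * B' * C) := by ring
    rwa [e3] at h2

/-- the elements fixed by the `Q`-th power, `Q` a power of the characteristic -/
def fixF (p : ℕ) [Fact p.Prime] [CharP F p] (k : ℕ) : Subfield F where
  carrier := {s | s ^ p ^ k = s}
  mul_mem' {s t} hs ht := by
    change (s * t) ^ p ^ k = s * t
    rw [mul_pow, hs, ht]
  one_mem' := one_pow _
  add_mem' {s t} hs ht := by
    change (s + t) ^ p ^ k = s + t
    rw [add_pow_char_pow, hs, ht]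
  zero_mem' := by
    change (0 : F) ^ p ^ k = 0
    exact zero_pow (pow_ne_zero _ (Fact.out : p.Prime).ne_zero)
  neg_mem' {s} hs := by
    change (-s) ^ p ^ k = -s
    have h1 : (-s) ^ p ^ k + s ^ p ^ k = 0 := by
      rw [← add_pow_char_pow, neg_add_cancel, zero_pow (pow_ne_zero _ (Fact.out : p.Prime).ne_zero)]
    rw [eq_neg_iff_add_eq_zero]
    have h2 : s ^ p ^ k = s := hs
    rwa [h2] at h1
  inv_mem' s hs := by
    change (s⁻¹) ^ p ^ k = s⁻¹
    have h2 : s ^ p ^ k = s := hs
    rw [inv_pow, h2]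

theorem mem_fixF {p : ℕ} [Fact p.Prime] [CharP F p] {k : ℕ} {s : F} : s ∈ fixF p k ↔ s ^ p ^ k = s := Iff.rfl

/-- an element with trace and norm in `k`, `|k| = Q`, is fixed by the `Q²`-th power -/
theorem root_fix {p : ℕ} [Fact p.Prime] [CharP F p] {k : ℕ} {τ σ : F} (h1 : (τ + σ) ^ p ^ k = τ + σ)
    (h2 : (τ * σ) ^ p ^ k = τ * σ) : τ ^ p ^ (k + k) = τ := by
  have hadd := add_pow_char_pow (p := p) (n := k) τ σ
  have h3 : τ ^ p ^ k + σ ^ p ^ k = τ + σ := by rw [← hadd, h1]
  have h4 : τ ^ p ^ k * σ ^ p ^ k = τ * σ := by rw [← mul_pow, h2]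
  have h5 : (τ ^ p ^ k - τ) * (τ ^ p ^ k - σ) = 0 := by linear_combination τ ^ p ^ k * h3 - h4
  have h6 : τ ^ p ^ (k + k) = (τ ^ p ^ k) ^ p ^ k := by rw [pow_add, pow_mul]
  rw [h6]
  rcases mul_eq_zero.1 h5 with h | h
  · rw [sub_eq_zero.1 h, sub_eq_zero.1 h]
  · have h7 := sub_eq_zero.1 h
    rw [h7]
    rw [h7] at h3
    linear_combination h3

end Cfsg.Agent.H453.OddM.Un
end

-- part: H453/OddM/UnM
section
prune_inst 0x10000000000000
set_option linter.all false
open scoped Cfsg.Agent.FastGrp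

/-!
# TEAM ODDM (S4785): irreducible groups generated by unitary transvections, odd characteristic: the theorem,
from `Good` (PART C) and `Full` (PART E)
-/

set_option autoImplicit false
set_option linter.unusedSectionVars false

namespace Cfsg.Agent.H453.OddM.Un

open Cfsg Module Cfsg.Agent.LieClassical.HermBasic Cfsg.Agent.ClassicalGeometry.UnitTransv
open scoped Matrix MatrixGroups

variable {F : Type*} [Field F] {n : ℕ} [Fintype F] {q : ℕ} {H : Subgroup (GL (Fin n) F)}

/-- the conclusion of PART E -/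
def Full (q : ℕ) (H : Subgroup (GL (Fin n) F)) : Prop :=
  (∀ (x : Fin n → F) (c d : F), c ≠ 0 → TM q H x c → d + d ^ q = 0 → TM q H x d) →
  ∀ x y z : Fin n → F, Cen q H x → Cen q H y → Cen q H z →
    ho q x y * ho q y z * ho q z x + ho q x z * ho q z y * ho q y x ≠ 0 →
    ∀ (a : Fin n → F) (c : F), ho q a a = 0 → c + c ^ q = 0 → TM q H a c

/-- the triangle property for `K` -/
theorem Dat.tri_K (D : Dat q H) (G : Good q H) {p : ℕ} [Fact p.Prime] [CharP F p] {k : ℕ}
    (hk : ∀ s ∈ mf D.card H, s ^ p ^ k = s) {κ : F} : Tri q H (fixF p (k + k)) κ := by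
  have hF := D.card
  rintro x y z ⟨hx, hy, hA, hA0⟩ ⟨-, hz, hB, hB0⟩
  have hκt : κ + κ ^ q = 0 := hx.2.tr
  obtain ⟨h1, h2⟩ := D.tau G hx hy hz
  have h3 : (κ * ho q x y) * (κ * ho q y z) * (κ * ho q z x) ∈ fixF p (k + k) :=
    root_fix (hk _ h1) (hk _ h2)
  have h4 : (κ * ho q x y) * (κ * ho q y z) ∈ fixF p (k + k) := (fixF p (k + k)).mul_mem hA hB
  have h5 := (fixF p (k + k)).div_mem h3 h4
  rw [mul_div_cancel_left₀ _ (mul_ne_zero hA0 hB0)] at h5
  exact kho_swap_mem hF hκt h5

/-- the subfield of order `q` -/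
def fq (hF : Fintype.card F = q ^ 2) : Subfield F where
  carrier := {s | s ^ q = s}
  mul_mem' {s t} hs ht := by
    change (s * t) ^ q = s * t
    rw [mul_pow, hs, ht]
  one_mem' := one_pow _
  add_mem' {s t} hs ht := by
    change (s + t) ^ q = s + t
    rw [add_pow_q hF, hs, ht]
  zero_mem' := zero_pow_q hF
  neg_mem' {s} hs := by
    change (-s) ^ q = -s
    rw [neg_pow_q hF, hs]
  inv_mem' s hs := by
    change (s⁻¹) ^ q = s⁻¹
    have h2 : s ^ q = s := hs
    rw [inv_pow, h2]

theorem mem_fq {hF : Fintype.card F = q ^ 2} {s : F} : s ∈ fq hF ↔ s ^ q = s := Iff.rfl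

/-- the triangle property for `F_q` if all triangles are degenerate -/
theorem Dat.tri_q (D : Dat q H) {κ : F}
    (hdeg : ∀ x y z : Fin n → F, Cen q H x → Cen q H y → Cen q H z →
      ho q x y * ho q y z * ho q z x + ho q x z * ho q z y * ho q y x = 0) : Tri q H (fq D.card) κ := by
  have hF := D.card
  rintro x y z ⟨hx, hy, hA, hA0⟩ ⟨-, hz, hB, hB0⟩
  have hκt : κ + κ ^ q = 0 := hx.2.tr
  have hκ0 : κ ≠ 0 := left_ne_zero_of_mul hA0
  have hc : ∀ w, Om q H κ w → Cen q H w := fun w hw => ⟨hw.1, κ, hκ0, hw.2⟩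
  have h1 := hdeg x y z (hc x hx) (hc y hy) (hc z hz)
  have h3 : (κ * ho q x y) * (κ * ho q y z) * (κ * ho q z x) ∈ fq hF := by
    rw [mem_fq, mul_pow, mul_pow]
    have eA : (κ * ho q x y) ^ q = -(κ * ho q y x) := by rw [kho_swap hF hκt x y, neg_neg]
    have eB : (κ * ho q y z) ^ q = -(κ * ho q z y) := by rw [kho_swap hF hκt y z, neg_neg]
    have eC : (κ * ho q z x) ^ q = -(κ * ho q x z) := by rw [kho_swap hF hκt z x, neg_neg]
    rw [eA, eB, eC]
    linear_combination (-κ ^ 3) * h1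
  have h4 : (κ * ho q x y) * (κ * ho q y z) ∈ fq hF := (fq hF).mul_mem hA hB
  have h5 := (fq hF).div_mem h3 h4
  rw [mul_div_cancel_left₀ _ (mul_ne_zero hA0 hB0)] at h5
  exact kho_swap_mem hF hκt h5

/-- **Irreducible groups generated by unitary transvections, odd characteristic.** -/
theorem main_of (D : Dat q H) (G : Good q H) (E : Full q H) :
    (∀ (a : Fin n → F) (c : F), ho q a a = 0 → c + c ^ q = 0 → TM q H a c) ∨
      ∃ k : Subfield F, k ≠ ⊤ ∧ Geo.RealisableOver k (Geo.matrixSet (Nt q H)) := by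
  classical
  have hF := D.card
  obtain ⟨a, κ, ha, hκ, haκ⟩ := D.ne
  have hao : Om q H κ a := ⟨ha, haκ⟩
  obtain ⟨p, hp⟩ := CharP.exists F
  have hpp : p.Prime := CharP.char_is_prime F p
  have : Fact p.Prime := ⟨hpp⟩
  -- the order of the multiplier field
  obtain ⟨k, hk1, hk2⟩ : ∃ k : ℕ, Nat.card (mf hF H) = p ^ k ∧ 0 < k := by
    have : Fintype (mf hF H) := Fintype.ofFinite _
    have : CharP (mf hF H) p := (RingHom.charP_iff (mf hF H).subtype Subtype.val_injective p).2 hp
    obtain ⟨m, -, hm⟩ := FiniteField.card (mf hF H) p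
    exact ⟨m, by rw [Nat.card_eq_fintype_card, hm], m.pos⟩
  have hfix : ∀ s ∈ mf hF H, s ^ p ^ k = s := by
    intro s hs
    have : Fintype (mf hF H) := Fintype.ofFinite _
    have h1 := FiniteField.pow_card (⟨s, hs⟩ : mf hF H)
    rw [← Nat.card_eq_fintype_card, hk1] at h1
    exact congrArg Subtype.val h1
  have hle : mf hF H ≤ fixF p (k + k) := by
    intro s hs
    rw [mem_fixF, pow_add, pow_mul, hfix s hs, hfix s hs]
  by_cases hK : (fixF p (k + k) : Subfield F) = ⊤
  swap
  · right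
    obtain ⟨B, hB⟩ := D.rational G hκ hao hle (D.tri_K G hfix)
    refine ⟨_, hK, B, ?_⟩
    rintro _ ⟨g, hg, rfl⟩ i j
    exact hB g hg i j
  -- `K = F`: the multiplier field has order `q`
  have hq0 : 0 < q := q_pos hF
  have hcard : q ≤ p ^ k := by
    have h1 : ∀ s : F, s ^ p ^ (k + k) = s := by
      intro s
      have : s ∈ (fixF p (k + k) : Subfield F) := by rw [hK]; trivial
      exact this
    have h2 : Fintype.card F ≤ p ^ (k + k) := by
      have h3 : 1 < p ^ (k + k) := Nat.one_lt_pow (by omega) hpp.one_lt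
      have h4 := FiniteField.X_pow_card_sub_X_natDegree_eq F h3
      have h5 : (Polynomial.X ^ p ^ (k + k) - Polynomial.X : Polynomial F) ≠ 0 :=
        FiniteField.X_pow_card_sub_X_ne_zero F h3
      have h6 : (Finset.univ : Finset F).card ≤ (Polynomial.X ^ p ^ (k + k) - Polynomial.X : Polynomial F).natDegree := by
        refine Polynomial.card_le_degree_of_subset_roots (Z := Finset.univ) ?_
        intro s _
        rw [Polynomial.mem_roots h5, Polynomial.IsRoot, Polynomial.eval_sub, Polynomial.eval_pow, Polynomial.eval_X,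
          h1 s, sub_self]
      rwa [h4, Finset.card_univ] at h6
    rw [hF, ← two_mul, pow_mul'] at h2
    exact (Nat.pow_le_pow_iff_left two_ne_zero).1 h2
  have hall : ∀ s : F, s ^ q = s → s ∈ mf hF H := by
    intro s hs
    let φ : mf hF H → {x : F // x ^ q = x} := fun x => ⟨x.1, D.mf_fix x.2⟩
    have hφ : Function.Injective φ := by
      intro x y hxy
      have h0 : (φ x).1 = (φ y).1 := by rw [hxy]
      exact Subtype.ext h0
    have h1 : Nat.card (mf hF H) ≤ Nat.card {x : F // x ^ q = x} := Nat.card_le_card_of_injective φ hφ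
    have h2 : Function.Bijective φ := by
      rw [Nat.bijective_iff_injective_and_card]
      refine ⟨hφ, ?_⟩
      rw [card_fixed hF] at h1 ⊢
      rw [hk1] at h1 ⊢
      omega
    obtain ⟨x, hx⟩ := h2.2 ⟨s, hs⟩
    have h3 : x.1 = s := congrArg Subtype.val hx
    rw [← h3]
    exact x.2
  have hfull : ∀ (x : Fin n → F) (c d : F), c ≠ 0 → TM q H x c → d + d ^ q = 0 → TM q H x d := by
    intro x c d hc hx hd
    have h1 : d / c ∈ mf hF H := by
      apply hall
      have h2 : c ^ q = -c := by linear_combination hx.tr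
      have h3 : d ^ q = -d := by linear_combination hd
      rw [div_pow, h2, h3, neg_div_neg_eq]
    have h4 := h1 x c hx
    rwa [div_mul_cancel₀ _ hc] at h4
  by_cases hdeg : ∀ x y z : Fin n → F, Cen q H x → Cen q H y → Cen q H z →
      ho q x y * ho q y z * ho q z x + ho q x z * ho q z y * ho q y x = 0
  · right
    have hle' : mf hF H ≤ fq hF := fun s hs => D.mf_fix hs
    obtain ⟨B, hB⟩ := D.rational G hκ hao hle' (D.tri_q hdeg)
    refine ⟨fq hF, ?_, B, ?_⟩
    · intro h
      obtain ⟨x, hx⟩ := exists_not_fixed hF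
      apply hx
      have : x ∈ fq hF := by rw [h]; trivial
      exact this
    · rintro _ ⟨g, hg, rfl⟩ i j
      exact hB g hg i j
  · left
    push Not at hdeg
    obtain ⟨x, y, z, hx, hy, hz, h⟩ := hdeg
    exact E hfull x y z hx hy hz h

end Cfsg.Agent.H453.OddM.Un
end

-- part: H453/OddM/UnR
section
prune_inst 0x4406404004002000018800620003c428600040200480400c401004004c16c6249802060b1202011520080452039006000440000424000000e200400011d00a0808002008148000c46009f800180000000000000000000000000000000010000000000000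
set_option linter.all false
open scoped Cfsg.Agent.FastGrp

/-!
# TEAM ODDM (S4785): the residual class of `PSU_n(q)`, `n ≥ 3`, `q` odd, contains no subgroup which meets all real classes
-/

set_option autoImplicit false
set_option linter.unusedSectionVars false

namespace Cfsg.Agent.H453.OddM.Un

open Cfsg Module Cfsg.Geo Cfsg.Agent.LieClassical.HermBasic Cfsg.Agent.ClassicalGeometry.UnitTransv
open Cfsg.Agent.H453.OddM Cfsg.Agent.H251.GeoU
open scoped Matrix MatrixGroups

variable {F : Type*} [Field F] [Fintype F] {n q : ℕ}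

/-- the conclusion of the theorem on groups generated by transvections -/
def MainU (q n : ℕ) (F : Type*) [Field F] [Fintype F] : Prop :=
  ∀ H : Subgroup (GL (Fin n) F), Dat q H →
    (∀ (a : Fin n → F) (c : F), ho q a a = 0 → c + c ^ q = 0 → TM q H a c) ∨
      ∃ k : Subfield F, k ≠ ⊤ ∧ Geo.RealisableOver k (Geo.matrixSet (Nt q H))

theorem isTransvection_utv (hF : Fintype.card F = q ^ 2) {v : Fin n → F} {c : F} (hv : hermForm n F q v v = 0)
    (hc : c + c ^ q = 0) (hv0 : v ≠ 0) (hc0 : c ≠ 0) :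
    IsTransvection ((((utv hF v c hv hc : SU n F q) : GL (Fin n) F) : Matrix (Fin n) (Fin n) F)) := by
  have h1 : (((utv hF v c hv hc : SU n F q) : GL (Fin n) F) : Matrix (Fin n) (Fin n) F) - 1 =
      Matrix.vecMulVec (c • v) (fun j => v j ^ q) := by
    change unitaryTransvection n q v c - 1 = _
    rw [unitaryTransvection, add_sub_cancel_left, Matrix.smul_vecMulVec]
  constructor
  · rw [h1]
    refine le_antisymm (Matrix.rank_vecMulVec_le _ _) ?_
    rw [Nat.one_le_iff_ne_zero]
    intro h0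
    rw [Matrix.rank, Module.finrank_eq_zero_iff_of_free, Submodule.subsingleton_iff_eq_bot, LinearMap.range_eq_bot] at h0
    replace h0 : Matrix.vecMulVec (c • v) (fun j => v j ^ q) = 0 := by
      apply Matrix.toLin'.injective
      rw [map_zero]
      exact h0
    obtain ⟨i, hi⟩ := Function.ne_iff.1 hv0
    have h2 := congrFun (congrFun h0 i) i
    rw [Matrix.vecMulVec_apply, Pi.smul_apply, smul_eq_mul, Matrix.zero_apply] at h2
    rcases mul_eq_zero.1 h2 with h3 | h3
    · rcases mul_eq_zero.1 h3 with h4 | h4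
      · exact hc0 h4
      · exact hi h4
    · exact hi ((pow_q_eq_zero hF).1 h3)
  · rw [h1, Matrix.vecMulVec_mul_vecMulVec]
    have h2 : (fun j => v j ^ q) ⬝ᵥ (c • v) = 0 := by
      rw [dotProduct_smul, smul_eq_mul]
      have h3 : (fun j => v j ^ q) ⬝ᵥ v = hermForm n F q v v := by
        rw [herm_def, dotProduct]
        exact Finset.sum_congr rfl fun i _ => mul_comm _ _
      rw [h3, hv, mul_zero]
    rw [h2, zero_smul, Matrix.vecMulVec_zero]

theorem coe_suHom_utv (hF : Fintype.card F = q ^ 2) {v : Fin n → F} {c : F} (hv : hermForm n F q v v = 0)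
    (hc : c + c ^ q = 0) : H918.suHom n F q (utv hF v c hv hc) = tU q v c := by
  apply gl_ext
  intro x
  rw [ap_t hv]
  exact act_utv hF hv hc x

theorem utv_inv (hF : Fintype.card F = q ^ 2) {v : Fin n → F} {c : F} (hv : hermForm n F q v v = 0)
    (hc : c + c ^ q = 0) (hc' : -c + (-c) ^ q = 0) : (utv hF v c hv hc)⁻¹ = utv hF v (-c) hv hc' := by
  apply H918.suHom_injective
  rw [map_inv, coe_suHom_utv, coe_suHom_utv, t_neg hv]

/-- transvections are real in `SU_n(q)`, `n ≥ 3` -/
theorem isReal_utv (hF : Fintype.card F = q ^ 2) (hn : 3 ≤ n) {v : Fin n → F} {c : F} (hv : hermForm n F q v v = 0)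
    (hc : c + c ^ q = 0) (hv0 : v ≠ 0) (hc0 : c ≠ 0) : IsReal (utv hF v c hv hc) := by
  have hc' : -c + (-c) ^ q = 0 := by rw [neg_pow_q hF]; linear_combination -hc
  have h1 := S2644.result hF hn (utv hF v c hv hc) (utv hF v (-c) hv hc')
    (isTransvection_utv hF hv hc hv0 hc0) (isTransvection_utv hF hv hc' hv0 (neg_ne_zero.2 hc0))
  obtain ⟨g, hg⟩ := isConj_iff.1 h1
  exact ⟨g, by rw [hg, utv_inv hF hv hc hc']⟩

theorem exists_iso (hF : Fintype.card F = q ^ 2) (hn : 2 ≤ n) : ∃ v : Fin n → F, v ≠ 0 ∧ hermForm n F q v v = 0 := by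
  have h1 : (-1 : F) ^ q = -1 := by rw [neg_pow_q hF, one_pow]
  obtain ⟨θ, hθ0, hθ⟩ := exists_norm_eq_ne hF h1 (neg_ne_zero.2 one_ne_zero)
  have hne : (⟨0, by omega⟩ : Fin n) ≠ ⟨1, by omega⟩ := by
    intro h
    have := congrArg Fin.val h
    simp at this
  refine ⟨Pi.single ⟨0, by omega⟩ 1 + Pi.single ⟨1, by omega⟩ θ, ?_, ?_⟩
  · intro h
    have h2 := congrFun h ⟨0, by omega⟩
    simp at h2
  · rw [herm_add_left, herm_add_right hF, herm_add_right hF, herm_single_left, herm_single_left, herm_single_left,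
      herm_single_left, Pi.single_eq_same, Pi.single_eq_same, Pi.single_eq_of_ne hne, Pi.single_eq_of_ne hne.symm]
    rw [zero_pow_q hF, one_pow, mul_zero, mul_zero]
    linear_combination hθ

theorem iso_pre (M : Subgroup (PSU n F q)) : Iso q (pre M) := by
  rintro _ ⟨A, -, rfl⟩ u v
  exact herm_act A u v

theorem Nt_le {H : Subgroup (GL (Fin n) F)} : Nt q H ≤ H := by
  rw [Nt, Subgroup.closure_le]
  rintro _ ⟨b, c, h, rfl⟩
  exact h.mem

theorem Nt_normal {H : Subgroup (GL (Fin n) F)} (hH : Iso q H) :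
    ∀ h ∈ H, ∀ x ∈ Nt q H, h * x * h⁻¹ ∈ Nt q H := by
  intro h hh x hx
  rw [Nt] at hx
  induction hx using Subgroup.closure_induction with
  | mem t ht =>
    obtain ⟨b, c, hbc, rfl⟩ := ht
    exact Subgroup.subset_closure ⟨ap h b, c, hbc.conj hH hh, t_conj (hH h hh) hbc.iso c⟩
  | one => simp
  | mul x y _ _ hx hy =>
    have : h * (x * y) * h⁻¹ = (h * x * h⁻¹) * (h * y * h⁻¹) := by group
    rw [this]
    exact (Nt q H).mul_mem hx hy
  | inv x _ hx =>
    have : h * x⁻¹ * h⁻¹ = (h * x * h⁻¹)⁻¹ := by group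
    rw [this]
    exact (Nt q H).inv_mem hx

theorem tU_not_scalar (hF : Fintype.card F = q ^ 2) {b : Fin n → F} {c : F} (hb : b ≠ 0) (hc : c ≠ 0)
    (hbb : ho q b b = 0) : tU q b c ∉ scalars (Fin n) F := by
  intro h
  rw [mem_scalars_iff] at h
  obtain ⟨s, hs⟩ := h
  have hv : ∀ v, (s : F) • v = v + (c * ho q v b) • b := by
    intro v
    rw [← ap_t hbb, ap, hs, Matrix.smul_mulVec, Matrix.one_mulVec]
  have h1 := hv b
  rw [hbb, mul_zero, zero_smul, add_zero] at h1
  have hs1 : (s : F) = 1 := by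
    have : ((s : F) - 1) • b = 0 := by rw [sub_smul, one_smul, h1, sub_self]
    rcases smul_eq_zero.1 this with h2 | h2
    · exact sub_eq_zero.1 h2
    · exact absurd h2 hb
  obtain ⟨x, hx0⟩ : ∃ x, ho q x b ≠ 0 := by
    by_contra hcon
    push Not at hcon
    exact hb (eq_zero_of_ho_left hF hcon)
  have h2 := hv x
  rw [hs1, one_smul, left_eq_add] at h2
  rcases smul_eq_zero.1 h2 with h3 | h3
  · exact mul_ne_zero hc hx0 h3
  · exact hb h3

/-- the hypotheses of the transvection theorem in the residual class -/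
theorem dat_of_core (hF : Fintype.card F = q ^ 2) (h2 : (2 : F) ≠ 0) (hn : 3 ≤ n) {H : Subgroup (GL (Fin n) F)}
    (hH : Iso q H) {P : Subgroup (GL (Fin n) F)} (hP : IsResidualCore H P) {b : Fin n → F} {c : F} (hb : b ≠ 0)
    (hc : c ≠ 0) (hbc : TM q H b c) : Dat q H ∧ P ≤ Nt q H := by
  have hPN : P ≤ Nt q H := H262.El.core_le_of_normal hP Nt_le (Nt_normal hH) (fun hle =>
    tU_not_scalar hF hb hc hbc.iso (hle (Subgroup.subset_closure ⟨b, c, hbc, rfl⟩)))
  refine ⟨?_, hPN⟩
  exact
    { card := hF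
      le := hH
      two := h2
      dim := hn
      irr := by
        intro W hW
        apply hP.absIrred.1 W
        rintro _ ⟨x, hx, rfl⟩
        have hx' := hPN hx
        rw [Nt] at hx'
        have key : ∀ y ∈ Subgroup.closure {t | ∃ b c, TM q H b c ∧ t = tU q b c}, ∀ v ∈ W, ap y v ∈ W := by
          intro y hy
          induction hy using Subgroup.closure_induction with
          | mem t ht =>
            obtain ⟨b, c, hbc, rfl⟩ := ht
            exact hW b c hbc
          | one => intro v hv; rwa [ap_one]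
          | mul x y _ _ hx hy => intro v hv; rw [ap_mul]; exact hx _ (hy v hv)
          | inv x _ hx =>
            intro v hv
            have hk : ∀ k : ℕ, ap (x ^ k) v ∈ W := by
              intro k
              induction k with
              | zero => rwa [pow_zero, ap_one]
              | succ k ih =>
                rw [pow_succ', ap_mul]
                exact hx _ ih
            have h1 : x⁻¹ = x ^ (orderOf x - 1) := by
              symm
              apply eq_inv_of_mul_eq_one_left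
              rw [← pow_succ, Nat.sub_add_cancel (orderOf_pos x), pow_orderOf_eq_one]
            rw [h1]
            exact hk _
        rintro _ ⟨v, hv, rfl⟩
        exact key x hx' v hv
      ne := ⟨b, c, hb, hc, hbc⟩ }

/-- **The residual class of `PSU_n(q)`, `n ≥ 3`, `q` odd.** -/
theorem res_psu (hF : Fintype.card F = q ^ 2) (h2 : (2 : F) ≠ 0) (hn : 3 ≤ n) (hmain : MainU q n F)
    {M : Subgroup (PSU n F q)} (hM : M ≠ ⊤) (hc : Cov (PSU n F q) M) {P : Subgroup (GL (Fin n) F)}
    (hP : IsResidualCore (pre M) P) : False := by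
  have hH := iso_pre M
  -- a transvection in the preimage
  obtain ⟨v, hv0, hv⟩ := exists_iso hF (show 2 ≤ n by omega)
  obtain ⟨c, hc0, hct⟩ := exists_trace_zero_ne hF
  have hreal := isReal_utv hF hn hv hct hv0 hc0
  obtain ⟨g, hg⟩ := hc.2 _ (hreal.map (QuotientGroup.mk' (Subgroup.center (SU n F q))))
  obtain ⟨A, rfl⟩ := QuotientGroup.mk'_surjective _ g
  have hmem : H918.suHom n F q (A * utv hF v c hv hct * A⁻¹) ∈ pre M := by
    refine ⟨_, ?_, rfl⟩
    rw [SetLike.mem_coe, Subgroup.mem_comap, map_mul, map_mul, map_inv]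
    exact hg
  have hA : ∀ x y, ho q (ap (H918.suHom n F q A) x) (ap (H918.suHom n F q A) y) = ho q x y := fun x y => herm_act A x y
  have hbc : TM q (pre M) (ap (H918.suHom n F q A) v) c := by
    refine ⟨by rw [hA]; exact hv, hct, ?_⟩
    rw [map_mul, map_mul, map_inv, coe_suHom_utv, t_conj hA hv] at hmem
    exact hmem
  obtain ⟨D, hPN⟩ := dat_of_core hF h2 hn hH hP (ap_ne_zero hv0) hc0 hbc
  rcases hmain _ D with h | ⟨k, hk, B, hB⟩
  · -- everything
    have h32 : ¬ (n = 3 ∧ q = 2) := by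
      rintro ⟨-, rfl⟩
      apply h2
      have h3 := FiniteField.cast_card_eq_zero F
      rw [hF] at h3
      push_cast at h3
      have h4 : (2 : F) ^ 2 = 0 := by rw [← h3]; norm_num
      exact (pow_eq_zero_iff two_ne_zero).1 h4
    have h3 := H918.SUg_le_of_tv hF h32 (K := pre M) (fun v c hv hc => by
      have h4 := (h v c hv hc).mem
      rwa [← coe_suHom_utv hF hv hc] at h4)
    apply hM
    rw [eq_top_iff]
    intro x _
    obtain ⟨A, rfl⟩ := QuotientGroup.mk'_surjective _ x
    obtain ⟨B, hB, hBA⟩ := h3 (H918.suHom_mem A)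
    rw [← H918.suHom_injective hBA]
    exact hB
  · refine hP.no_subfield k hk ⟨B, ?_⟩
    rintro _ ⟨x, hx, rfl⟩
    exact hB _ ⟨x, hPN hx, rfl⟩

end Cfsg.Agent.H453.OddM.Un

private theorem dce_2b23b0d19d6f : _root_.True := by
  try have : _root_.True := by simp only [_root_.Cfsg.Agent.H453.OddM.Un.Nt.eq_1]
  exact _root_.True.intro
end
end
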